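import Mathlib

/-! Frobenius groups acting on vector spaces over a division ring of characteristic zero. -/

set_option autoImplicit false

namespace Cfsg.Agent.H87.Gl

open Polynomial Finset Module

section Frob

variable {D W : Type*} [DivisionRing D] [CharZero D] [AddCommGroup W] [Module D W]

omit [CharZero D] in
theorem det_apply_eq_zero {S : Type*} [CommRing S] (φ : S →+* End D W) {n : ℕ}
    (A : Matrix (Fin n) (Fin n) S) (y : Fin n → W) (h : ∀ k, ∑ j, φ (A k j) (y j) = 0) (i : Fin n) :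
    φ A.det (y i) = 0 := by
  have h1 : ∑ k, φ (A.adjugate i k) (∑ j, φ (A k j) (y j)) = 0 := by simp [h]
  simp only [map_sum, ← End.mul_apply, ← map_mul] at h1
  rw [sum_comm] at h1
  simp only [← LinearMap.sum_apply, ← map_sum, ← Matrix.mul_apply, Matrix.adjugate_mul] at h1
  rw [sum_eq_single i (fun j _ e => by simp [Matrix.one_apply_ne e.symm]) (by simp)] at h1
  simpa using h1

theorem eq_zero_of_pow_eq {x : End D W} {p : ℕ} (hp : p.Prime) (hx : x ^ p = 1) {y : W}
    (hy : y ∈ LinearMap.range (x - 1)) {i j : ℕ} (hij : ¬ i ≡ j [MOD p])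
    (e : (x ^ i) y = (x ^ j) y) : y = 0 := by
  wlog hle : i ≤ j generalizing i j
  · exact this (fun h => hij h.symm) e.symm (le_of_not_ge hle)
  obtain ⟨d, rfl⟩ := Nat.exists_eq_add_of_le hle
  have h1 : (x ^ d) y = y := by
    have := congrArg (x ^ (i * (p - 1))) e
    rwa [← End.mul_apply, ← End.mul_apply, ← pow_add, ← pow_add, ← add_assoc, ← Nat.mul_succ,
      Nat.succ_eq_add_one, Nat.sub_add_cancel hp.one_le, pow_add, mul_comm i, pow_mul, hx, one_pow,
      one_mul, eq_comm] at this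
  have fix : ∀ {f : End D W}, f y = y → ∀ m, (f ^ m) y = y := fun {f} h m => by
    induction m with
    | zero => rfl
    | succ m ih => rw [pow_succ, End.mul_apply, h, ih]
  obtain ⟨m, -, hm⟩ := Nat.exists_mul_mod_eq_one_of_coprime
    ((Nat.Prime.coprime_iff_not_dvd hp).2 fun h => hij
      ((Nat.modEq_iff_dvd' hle).2 (by simpa using h))).symm hp.one_lt
  have h2 : x y = y := by
    have := fix h1 m
    rwa [← pow_mul, pow_eq_pow_mod _ hx, hm, pow_one] at this
  obtain ⟨v, hv⟩ := hy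
  have h3 : (∑ k ∈ range p, x ^ k) y = 0 := by
    rw [← hv, ← End.mul_apply, geom_sum_mul, hx, sub_self, LinearMap.zero_apply]
  rw [LinearMap.sum_apply, sum_congr rfl fun k _ => fix h2 k, sum_const, card_range,
    ← Nat.cast_smul_eq_nsmul D] at h3
  exact (smul_eq_zero.1 h3).resolve_left (Nat.cast_ne_zero.2 hp.ne_zero)

theorem frob_dim [FiniteDimensional D W] {x u : End D W} {p a n : ℕ} (hp : p.Prime)
    (hx : x ^ p = 1) (hx1 : x ≠ 1) (hu : u * x = x ^ a * u) (hn : u ^ n * (x - 1) = x - 1)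
    (ha : ∀ k < n, ∀ l < n, a ^ k ≡ a ^ l [MOD p] → k = l) : n ≤ finrank D W := by
  rcases n with _ | n
  · exact Nat.zero_le _
  let φ : ℤ[X] →+* End D W := (aeval x).toRingHom
  have hφ : ∀ i, φ (X ^ i) = x ^ i := fun i => by simp [φ]
  let v : Fin (n + 1) → ℤ[X] := fun k => X ^ a ^ (k : ℕ)
  set W0 := LinearMap.range (x - 1)
  have st : ∀ r, ∀ y ∈ W0, φ r y ∈ W0 := by
    rintro r _ ⟨y, rfl⟩
    have : x - 1 = φ (X - 1) := by simp [φ]
    exact ⟨φ r y, by rw [this, ← End.mul_apply, ← End.mul_apply, ← map_mul, ← map_mul, mul_comm]⟩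
  have dt : ∀ y ∈ W0, φ (Matrix.vandermonde v).det y = 0 → y = 0 := by
    have mul : ∀ r s, (∀ y ∈ W0, φ r y = 0 → y = 0) → (∀ y ∈ W0, φ s y = 0 → y = 0) →
        ∀ y ∈ W0, φ (r * s) y = 0 → y = 0 := fun r s h1 h2 y hy e =>
      h2 y hy (h1 _ (st s y hy) (by rwa [map_mul] at e))
    have one : ∀ y ∈ W0, φ 1 y = 0 → y = 0 := fun y _ e => by simpa using e
    rw [Matrix.det_vandermonde]
    refine prod_induction _ (fun r => ∀ y ∈ W0, φ r y = 0 → y = 0) mul one fun i _ =>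
      prod_induction _ (fun r => ∀ y ∈ W0, φ r y = 0 → y = 0) mul one fun j hj y hy e => ?_
    rw [map_sub, hφ, hφ, LinearMap.sub_apply, sub_eq_zero] at e
    exact eq_zero_of_pow_eq hp hx hy (fun h => (mem_Ioi.1 hj).ne' (Fin.ext (ha _ j.2 _ i.2 h))) e
  have sc : ∀ k i, u ^ k * x ^ i = φ ((X ^ a ^ k) ^ i) * u ^ k := fun k => by
    simp only [← pow_mul, hφ]
    induction k with
    | zero => simp
    | succ k ih =>
      intro i
      rw [pow_succ, mul_assoc, (SemiconjBy.pow_right hu i).eq, ← mul_assoc, ← pow_mul, ih,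
        mul_assoc, pow_succ a, mul_assoc]
  have su : ∀ y ∈ W0, u y ∈ W0 := by
    rintro _ ⟨y, rfl⟩
    refine ⟨(∑ i ∈ range a, x ^ i) (u y), ?_⟩
    rw [← End.mul_apply, mul_geom_sum, ← End.mul_apply, ← End.mul_apply, mul_sub, sub_mul, hu,
      mul_one, one_mul]
  have su' : ∀ k, ∀ y ∈ W0, (u ^ k) y ∈ W0 := fun k y hy => by
    induction k with
    | zero => exact hy
    | succ k ih => rw [pow_succ', End.mul_apply]; exact su _ ih
  obtain ⟨w, hw, w0, wf⟩ : ∃ w ∈ W0, w ≠ 0 ∧ u w = w := by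
    by_contra hc
    push Not at hc
    have h1 : ∀ y ∈ W0, ∑ k : Fin (n + 1), (u ^ (k : ℕ)) y = 0 := fun y hy => by
      by_contra h0
      refine hc _ (W0.sum_mem fun (k : Fin (n + 1)) _ => su' k y hy) h0 ?_
      obtain ⟨y, rfl⟩ := hy
      rw [← LinearMap.sum_apply, Fin.sum_univ_eq_sum_range (fun k => u ^ k), ← End.mul_apply,
        ← sub_eq_zero, ← LinearMap.sub_apply, ← sub_one_mul, mul_geom_sum, ← End.mul_apply, sub_mul,
        hn, one_mul, sub_self, LinearMap.zero_apply]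
    refine hx1 (sub_eq_zero.1 (LinearMap.ext fun y => ?_))
    have hy : (x - 1) y ∈ W0 := ⟨y, rfl⟩
    refine dt _ hy ?_
    rw [← Matrix.det_transpose]
    refine det_apply_eq_zero φ _ (fun k => (u ^ (k : ℕ)) ((x - 1) y)) (fun i => ?_) 0
    rw [← h1 _ (hφ i ▸ st (X ^ (i : ℕ)) _ hy)]
    refine sum_congr rfl fun k _ => ?_
    rw [← End.mul_apply (u ^ (k : ℕ)) (x ^ (i : ℕ)), sc]
    rfl
  have wf' : ∀ k, (u ^ k) w = w := fun k => by
    induction k with
    | zero => rfl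
    | succ k ih => rw [pow_succ, End.mul_apply, wf, ih]
  have li : LinearIndependent D fun i : Fin (n + 1) => (x ^ (i : ℕ)) w := by
    refine Fintype.linearIndependent_iff.2 fun d hd i => ?_
    refine (smul_eq_zero.1 (dt _ (W0.smul_mem _ hw) ?_)).resolve_right w0
    refine det_apply_eq_zero φ _ (fun i => d i • w) (fun k => ?_) i
    have := congrArg (u ^ (k : ℕ)) hd
    rw [map_sum, map_zero] at this
    rw [← this]
    refine sum_congr rfl fun j _ => ?_
    rw [map_smul, map_smul, ← End.mul_apply (u ^ (k : ℕ)), sc, End.mul_apply, wf']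
    rfl
  simpa using li.fintype_card_le_finrank

theorem cyc_dvd {p g : ℕ} (hp : p.Prime) (hc : g.Coprime p)
    (hg : ∀ k < p - 1, ∀ l < p - 1, g ^ k ≡ g ^ l [MOD p] → k = l) :
    C (cyclotomic p ℤ) ∣ ∏ j ∈ range (p - 1), (X - C (X ^ g ^ j : ℤ[X])) - ∑ i ∈ range p, X ^ i := by
  have : Fact p.Prime := ⟨hp⟩
  have hζ := Complex.isPrimitiveRoot_exp p hp.ne_zero
  set ζ := Complex.exp (2 * Real.pi * Complex.I / p)
  refine (C_dvd_iff_dvd_coeff _ _).2 fun i => ?_
  rw [cyclotomic_eq_minpoly hζ hp.pos]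
  refine minpoly.isIntegrallyClosed_dvd (hζ.isIntegral hp.pos) ?_
  have inj : ∀ k ∈ range (p - 1), ∀ l ∈ range (p - 1), ζ ^ g ^ k = ζ ^ g ^ l → k = l :=
    fun k hk l hl e => hg k (mem_range.1 hk) l (mem_range.1 hl) (by
      rw [pow_eq_pow_mod _ hζ.pow_eq_one, pow_eq_pow_mod (g ^ l) hζ.pow_eq_one] at e
      exact hζ.pow_inj (Nat.mod_lt _ hp.pos) (Nat.mod_lt _ hp.pos) e)
  have im : (range (p - 1)).image (fun j => ζ ^ g ^ j) = primitiveRoots p ℂ := by
    refine eq_of_subset_of_card_le (fun μ hμ => ?_) ?_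
    · obtain ⟨j, -, rfl⟩ := mem_image.1 hμ
      exact (mem_primitiveRoots hp.pos).2 (hζ.pow_of_coprime _ (hc.pow_left j))
    · rw [card_image_of_injOn inj, card_range, hζ.card_primitiveRoots, Nat.totient_prime hp]
  have : map (aeval ζ : ℤ[X] →ₐ[ℤ] ℂ).toRingHom
      (∏ j ∈ range (p - 1), (X - C (X ^ g ^ j : ℤ[X])) - ∑ i ∈ range p, X ^ i) = 0 := by
    rw [Polynomial.map_sub, Polynomial.map_prod, Polynomial.map_sum]
    simp only [Polynomial.map_sub, Polynomial.map_pow, map_X, map_C]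
    rw [← cyclotomic_prime, cyclotomic_eq_prod_X_sub_primitiveRoots hζ, ← im, prod_image inj]
    simp
  have := congrArg (coeff · i) this
  rwa [coeff_map, coeff_zero] at this

theorem ferm_ring {A : Type*} [Ring A] {x h ω : A} {p g n : ℕ} (hp : p.Prime)
    (h3 : p % 3 = 2) (hx : x ^ p = 1) (hu : h * x = x ^ g ^ 2 * h) (hn : h ^ n = -1)
    (hpn : p = 2 * n + 1) (hc : g.Coprime p)
    (hg : ∀ k < p - 1, ∀ l < p - 1, g ^ k ≡ g ^ l [MOD p] → k = l) (cx : Commute x ω)
    (ch : Commute h ω) (ω2 : ω * ω = -1 - ω) :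
    ∃ u : A, u * x = x ^ g ^ 2 * u ∧ u ^ n * (x - 1) = x - 1 := by
  have : Fact p.Prime := ⟨hp⟩
  have ω3 : ω ^ 3 = 1 := by rw [pow_three, ω2, mul_sub, ω2, mul_neg_one]; abel
  let φ : ℤ[X] →+* A := (aeval x).toRingHom
  obtain ⟨ψ, ψX, ψc⟩ : ∃ ψ : ℤ[X][X] →+* A, ψ X = ω ∧ ∀ r, ψ (C r) = φ r :=
    ⟨eval₂RingHom' φ ω fun a => by
      induction a using Polynomial.induction_on' with
      | add a b h1 h2 => rw [map_add]; exact h1.add_left h2
      | monomial n a =>
        simpa [φ, aeval_monomial] using (Int.cast_commute a ω).mul_left (cx.pow_left n),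
      eval₂_X _ _, fun r => eval₂_C _ _⟩
  have ψC : ∀ i, ψ (C (X ^ i)) = x ^ i := fun i => (ψc _).trans (by simp [φ])
  let c : ℕ → ℤ[X][X] := fun k => X ^ 2 * ((X - C (X ^ g ^ (2 * k))) * (X - C (X ^ g ^ (2 * k + 1))))
  have h1 : ∀ i, SemiconjBy h (ψ (X - C (X ^ g ^ i))) (ψ (X - C (X ^ g ^ (i + 2)))) := fun i => by
    rw [map_sub, map_sub, ψX, ψC, ψC, pow_add g, mul_comm (g ^ i), pow_mul]
    exact SemiconjBy.sub_right ch (SemiconjBy.pow_right hu _)
  have h2 : ∀ k, SemiconjBy h (ψ (c k)) (ψ (c (k + 1))) := fun k => by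
    simp only [c, map_mul, map_pow ψ, ψX]
    exact SemiconjBy.mul_right (ch.pow_right 2) ((h1 _).mul_right (h1 _))
  have h4 : ∀ m, h ^ m * ψ (c 0) = ψ (c m) * h ^ m := fun m => by
    induction m with
    | zero => simp
    | succ m ih => rw [pow_succ', mul_assoc, ih, ← mul_assoc, (h2 m).eq, mul_assoc]
  have h5 : ∀ m, (ψ (c 0) * h) ^ m =
      ψ (X ^ (2 * m) * ∏ j ∈ range (2 * m), (X - C (X ^ g ^ j))) * h ^ m := fun m => by
    induction m with
    | zero => simp
    | succ m ih =>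
      have e : (X ^ (2 * m) * ∏ j ∈ range (2 * m), (X - C (X ^ g ^ j : ℤ[X]))) * c m =
          X ^ (2 * (m + 1)) * ∏ j ∈ range (2 * (m + 1)), (X - C (X ^ g ^ j : ℤ[X])) := by
        rw [Nat.mul_succ, prod_range_succ, prod_range_succ]
        simp only [c]
        ring
      rw [pow_succ, ih, mul_assoc, ← mul_assoc (h ^ m), h4, ← mul_assoc, ← mul_assoc, ← map_mul,
        mul_assoc, ← pow_succ, e]
  obtain ⟨m, hm⟩ : ∃ m, p = 3 * m + 2 := ⟨p / 3, by omega⟩
  have h6 : ∀ m, ∑ i ∈ range (3 * m + 2), ω ^ i = 1 + ω := fun m => by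
    induction m with
    | zero => simp [sum_range_succ]
    | succ m ih =>
      rw [Nat.mul_succ, add_right_comm, sum_range_succ, sum_range_succ, sum_range_succ, ih]
      simp only [pow_succ, pow_mul, ω3, one_pow, one_mul, mul_assoc, ω2, mul_sub, mul_neg_one,
        sub_mul, neg_mul]
      abel
  obtain ⟨r, hr⟩ := cyc_dvd hp hc hg
  rw [show p - 1 = 2 * n by omega, sub_eq_iff_eq_add, mul_comm (C _)] at hr
  have h7 : ψ (C (cyclotomic p ℤ)) * (x - 1) = 0 := by
    have : x - 1 = φ (X - 1) := by simp [φ]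
    rw [ψc, this, ← map_mul, cyclotomic_prime_mul_X_sub_one]
    simp [φ, hx]
  refine ⟨ψ (c 0) * h, ?_, ?_⟩
  · rw [mul_assoc, hu, ← ψC, ← mul_assoc, ← mul_assoc, ← map_mul, ← map_mul, mul_comm (c 0)]
  · rw [h5, hn, hr, map_mul, map_add, map_mul, map_sum, map_pow, ψX,
      mul_neg_one, neg_mul, mul_assoc, add_mul, mul_assoc, h7, mul_zero, zero_add, ← mul_assoc]
    simp only [map_pow, ψX]
    rw [hm, h6, show 2 * n = 3 * m + 1 by omega, pow_succ, pow_mul, ω3, one_pow, one_mul, mul_add,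
      ω2, mul_one, add_sub_cancel, neg_one_mul, neg_neg]

theorem ferm_dim [FiniteDimensional D W] {x h : End D W} {p g n : ℕ} (hp : p.Prime)
    (h3 : p % 3 = 2) (hx : x ^ p = 1) (hx1 : x ≠ 1) (hu : h * x = x ^ g ^ 2 * h) (hn : h ^ n = -1)
    (hpn : p = 2 * n + 1) (hc : g.Coprime p)
    (hg : ∀ k < p - 1, ∀ l < p - 1, g ^ k ≡ g ^ l [MOD p] → k = l) : n ≤ 2 * finrank D W := by
  let δ : End D W →+* End D (W × W) :=
    (LinearMap.prodMapRingHom D W W).comp ((RingHom.id _).prod (RingHom.id _))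
  let ω : End D (W × W) := (-LinearMap.snd D W W).prod (LinearMap.fst D W W - LinearMap.snd D W W)
  have cω : ∀ f, Commute (δ f) ω := fun f => LinearMap.ext fun v => by
    simp [δ, ω, End.mul_apply]
  have ω2 : ω * ω = -1 - ω := LinearMap.ext fun v => by
    ext <;> simp [ω, End.mul_apply]
    abel
  have hx' : δ x ^ p = 1 := by rw [← map_pow, hx, map_one]
  obtain ⟨u, h1, h2⟩ := ferm_ring hp h3 hx' (h := δ h) (by rw [← map_mul, hu, map_mul, map_pow])
    (by rw [← map_pow, hn, map_neg, map_one]) hpn hc hg (cω x) (cω h) ω2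
  have := frob_dim hp hx' (fun e => hx1 (LinearMap.ext fun v =>
    congrArg Prod.fst (LinearMap.congr_fun e (v, 0)))) h1 h2 fun k hk l hl e => by
      rw [← pow_mul, ← pow_mul] at e
      have := hg _ (by omega) _ (by omega) e
      omega
  rwa [finrank_prod, ← two_mul] at this

end Frob

/-- the properties of the ring of `2 × 2` matrices over a division ring that are used -/
structure M2 (R K : Type*) [Ring R] [DivisionRing K] : Prop where
  nt : (1 : R) ≠ 0
  line : ∀ e : R, IsIdempotentElem e → e ≠ 0 → e ≠ 1 →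
    ∃ π : Subring.centralizer {e} →+* K, ∀ f, π f = 0 ↔ (f : R) * e = 0
  frob : ∀ (x u : R) (p a n : ℕ), p.Prime → x ^ p = 1 → x ≠ 1 → u * x = x ^ a * u → u ^ n = 1 →
    (∀ k < n, ∀ l < n, a ^ k ≡ a ^ l [MOD p] → k = l) → n ≤ 2
  ferm : ∀ (x h : R) (p g n : ℕ), p.Prime → p % 3 = 2 → x ^ p = 1 → x ≠ 1 →
    h * x = x ^ g ^ 2 * h → h ^ n = -1 → p = 2 * n + 1 → g.Coprime p →
    (∀ k < p - 1, ∀ l < p - 1, g ^ k ≡ g ^ l [MOD p] → k = l) → n ≤ 4

theorem m2_end {D W : Type*} [DivisionRing D] [CharZero D] [AddCommGroup W] [Module D W]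
    (h2 : finrank D W = 2) : M2 (End D W) Dᵐᵒᵖ := by
  have : FiniteDimensional D W := .of_finrank_pos (by omega)
  have : Nontrivial W := nontrivial_of_finrank_pos (R := D) (by omega)
  refine ⟨one_ne_zero, fun e he h0 h1 => ?_, fun x u p a n hp hx hx1 hu hn ha =>
    h2 ▸ frob_dim hp hx hx1 hu (by rw [hn, one_mul]) ha, fun x h p g n hp h3 hx hx1 hu hn e hc hg => by
      simpa [h2] using ferm_dim hp h3 hx hx1 hu hn e hc hg⟩
  have fix : ∀ w ∈ LinearMap.range e, e w = w := by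
    rintro _ ⟨w, rfl⟩
    exact LinearMap.congr_fun he.eq w
  have r1 : finrank D (LinearMap.range e) = 1 := by
    have a1 := Submodule.finrank_lt (s := LinearMap.range e)
      fun f => h1 (LinearMap.ext fun w => fix w (f ▸ Submodule.mem_top))
    have a2 : finrank D (LinearMap.range e) ≠ 0 := fun f =>
      h0 (LinearMap.range_eq_bot.1 (Submodule.finrank_eq_zero.1 f))
    omega
  obtain ⟨⟨v, hv⟩, v0, hs⟩ := finrank_eq_one_iff'.1 r1
  replace v0 : v ≠ 0 := fun f => v0 (Subtype.ext f)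
  have ex : ∀ f : Subring.centralizer {e}, ∃ c : D, c • v = (f : End D W) v := fun f => by
    obtain ⟨c, hc⟩ := hs ⟨(f : End D W) v, (f : End D W) v, by
      rw [← End.mul_apply, f.2 e rfl, End.mul_apply, fix v hv]⟩
    exact ⟨c, congrArg Subtype.val hc⟩
  choose c hc using ex
  have un : ∀ {a b : D}, a • v = b • v → a = b := fun e => smul_left_injective D v0 e
  refine ⟨⟨⟨⟨fun f => .op (c f), ?_⟩, fun f g => ?_⟩, ?_, fun f g => ?_⟩, fun f => ?_⟩
  · exact congrArg MulOpposite.op (un (by rw [hc, one_smul]; rfl))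
  · exact congrArg MulOpposite.op (un (by
      rw [hc, Subring.coe_mul, End.mul_apply, ← hc g, map_smul, ← hc f, smul_smul]; rfl))
  · exact congrArg MulOpposite.op (un (by rw [hc, zero_smul]; rfl))
  · exact congrArg MulOpposite.op (un (by
      rw [hc, Subring.coe_add, LinearMap.add_apply, ← hc g, ← hc f, ← add_smul]; rfl))
  · change MulOpposite.op (c f) = 0 ↔ _
    rw [MulOpposite.op_eq_zero_iff]
    refine ⟨fun r => LinearMap.ext fun w => ?_, fun r => un ?_⟩
    · obtain ⟨d, hd⟩ := hs ⟨e w, w, rfl⟩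
      rw [End.mul_apply, ← show d • v = e w from congrArg Subtype.val hd, map_smul, ← hc, r,
        zero_smul, smul_zero, LinearMap.zero_apply]
    · rw [hc, zero_smul, ← fix v hv, ← End.mul_apply, r, LinearMap.zero_apply]

end Cfsg.Agent.H87.Gl
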