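import Cfsg.Agent.H87.GlL

/-! A norm computation in the integral span of a finite group of matrices. -/

set_option autoImplicit false
set_option linter.unusedSimpArgs false
set_option linter.unusedSectionVars false

namespace Cfsg.Agent.H87.Gl

open Finset Module

section Norm

variable {L : Type*} [Ring L] [Module.Free ℤ L] [Module.Finite ℤ L]

theorem dvd_norm_sub (a b : L) (m : ℕ) :
    (m : ℤ) ∣ Algebra.norm ℤ (a + (m : ℤ) • b) - Algebra.norm ℤ a := by
  classical
  rw [← ZMod.intCast_zmod_eq_zero_iff_dvd, Int.cast_sub, sub_eq_zero,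
    Algebra.norm_eq_matrix_det (Free.chooseBasis ℤ L), Algebra.norm_eq_matrix_det (Free.chooseBasis ℤ L),
    map_add, map_zsmul, Int.cast_det, Int.cast_det]
  congr 1
  ext i j
  simp only [Matrix.map_apply, Matrix.add_apply, Matrix.smul_apply, smul_eq_mul, Int.cast_add,
    Int.cast_mul, Int.cast_natCast, ZMod.natCast_self, zero_mul, add_zero]

theorem norm_sq_of_mul {a b : L} (h : a * b = 1) : Algebra.norm ℤ a ^ 2 = 1 :=
  Int.isUnit_sq (IsUnit.of_mul_eq_one (Algebra.norm ℤ b) (by rw [← map_mul, h, map_one]))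

theorem norm_conj {a b x y : L} (h : a * b = 1) (e : a * x = y * a) :
    Algebra.norm ℤ x = Algebra.norm ℤ y := by
  have h1 := congrArg (Algebra.norm ℤ) e
  rw [map_mul, map_mul, mul_comm] at h1
  exact mul_right_cancel₀ (fun k => by simpa [k] using norm_sq_of_mul h) h1

theorem norm_int (m : ℤ) : Algebra.norm ℤ (m : L) = m ^ finrank ℤ L := by
  simpa using Algebra.norm_algebraMap (R := ℤ) (S := L) m

theorem norm_even [Nontrivial L] {ξ t ti τ τi : L} (hξ : ξ * (1 + ξ * ξ) = 1 + ξ * ξ)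
    (ht : t * ti = 1) (hτ : τ * τi = 1) (e : τ * (ξ * ξ) = -(ξ * ξ) * τ) :
    2 ∣ Algebra.norm ℤ (1 - ti * (ξ * ξ) * t * (ξ * ξ)) := by
  have r : ξ * (ξ * ξ) = 1 - ξ + ξ * ξ := by
    rw [mul_add, mul_one] at hξ; rw [← sub_eq_zero, ← sub_eq_zero.2 hξ]; abel
  obtain ⟨E, hE⟩ : ∃ E, E = 1 + ξ * ξ := ⟨_, rfl⟩
  obtain ⟨E', hE'⟩ : ∃ E', E' = 1 - ξ * ξ := ⟨_, rfl⟩
  obtain ⟨η, hη⟩ : ∃ η, η = ξ - 1 := ⟨_, rfl⟩
  have a1 : E * η = 0 := by
    simp only [hE, hη, mul_add, add_mul, mul_sub, sub_mul, mul_assoc, r, mul_one, one_mul]; abel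
  have a2 : η * E = 0 := by
    simp only [hE, hη, mul_add, add_mul, mul_sub, sub_mul, mul_assoc, r, mul_one, one_mul]; abel
  have a3 : E' * η = (2 : ℤ) • η := by
    simp only [hE', hη, mul_add, add_mul, mul_sub, sub_mul, mul_assoc, r, mul_one, one_mul]; abel
  have a4 : η * E' = (2 : ℤ) • η := by
    simp only [hE', hη, mul_add, add_mul, mul_sub, sub_mul, mul_assoc, r, mul_one, one_mul]; abel
  have x4 : ξ * ξ * (ξ * ξ) = 1 := by
    simp only [mul_assoc, r, mul_add, mul_sub, mul_one]; abel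
  have a5 : E * E = (2 : ℤ) • E := by
    simp only [hE, mul_add, add_mul, x4, mul_one, one_mul]; abel
  have a6 : E' * E' = (2 : ℤ) • E' := by
    simp only [hE', mul_sub, sub_mul, x4, mul_one, one_mul]; abel
  have a7 : E * E' = 0 := by
    simp only [hE, hE', mul_add, add_mul, mul_sub, sub_mul, x4, mul_one, one_mul]; abel
  have a8 : E' * E = 0 := by
    simp only [hE, hE', mul_add, add_mul, mul_sub, sub_mul, x4, mul_one, one_mul]; abel
  have a9 : E + E' = 2 := by rw [hE, hE', ← one_add_one_eq_two]; abel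
  set N := finrank ℤ L
  have hN : N ≠ 0 := finrank_pos.ne'
  set μ : ℤ := ((2 ^ N : ℕ) : ℤ) with hμ
  have μ0 : μ ≠ 0 := by positivity
  have n2 : Algebra.norm ℤ (2 : L) = μ := by simpa [hμ] using norm_int (L := L) 2
  have n8 : Algebra.norm ℤ (8 : L) = μ ^ 3 := by
    rw [show (8 : L) = 2 * 2 * 2 by norm_num, map_mul, map_mul, n2]; ring
  set M1 := E * t * η - η * t * E
  set K1 := E' * t * η - η * t * E'
  have b1 : (E - (2 : ℤ) • η) * (2 * (t * (1 - ti * (ξ * ξ) * t * (ξ * ξ)))) * (E + (2 : ℤ) • η) =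
      8 * M1 := by
    have c0 : 2 * (t * (1 - ti * (ξ * ξ) * t * (ξ * ξ))) = E * t * E' + E' * t * E := by
      rw [mul_sub, ← mul_assoc t, ← mul_assoc t, ← mul_assoc t, ht, hE, hE']; noncomm_ring
    calc _ = (E * E - (2 : ℤ) • (η * E)) * t * (E' * E + (2 : ℤ) • (E' * η)) +
          (E * E' - (2 : ℤ) • (η * E')) * t * (E * E + (2 : ℤ) • (E * η)) := by
          rw [c0]; noncomm_ring
      _ = _ := by rw [a1, a2, a3, a4, a5, a7, a8]; simp only [M1]; noncomm_ring
  have b2 : (E - (2 : ℤ) • η) * (E + (2 : ℤ) • η) = 2 * ξ * (3 - ξ * ξ) := by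
    calc _ = E * E + (2 : ℤ) • (E * η) - (2 : ℤ) • (η * E) - (4 : ℤ) • (η * η) := by noncomm_ring
      _ = 2 * (3 * ξ - ξ * (ξ * ξ)) := by rw [a1, a2, a5, r, hE, hη]; noncomm_ring
      _ = _ := by noncomm_ring
  have b3 : Algebra.norm ℤ (3 - ξ * ξ) ^ 2 = μ ^ 3 := by
    rw [← n8, sq]
    nth_rw 2 [norm_conj (y := 3 + ξ * ξ) hτ (by rw [mul_sub, e]; noncomm_ring)]
    rw [← map_mul]
    congr 1
    calc _ = 3 * 3 - ξ * ξ * (ξ * ξ) := by noncomm_ring
      _ = _ := by rw [x4]; norm_num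
  have b4 : (E + μ • E') * (2 * (t * η - η * t)) * (E + μ • E') =
      ((4 * μ : ℤ) : L) * (M1 + μ • K1) := by
    have c0 : 2 * (t * η - η * t) = E * t * η - η * t * E + E' * t * η - η * t * E' := by
      rw [mul_sub, show 2 * (η * t) = η * t * 2 by noncomm_ring, ← a9]; noncomm_ring
    calc _ = (E * E + μ • (E' * E)) * t * (η * E + μ • (η * E')) -
          (E * η + μ • (E' * η)) * t * (E * E + μ • (E * E')) +
          (E * E' + μ • (E' * E')) * t * (η * E + μ • (η * E')) -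
          (E * η + μ • (E' * η)) * t * (E' * E + μ • (E' * E')) := by
          simp only [c0, mul_add, add_mul, mul_sub, sub_mul, smul_mul_assoc, mul_smul_comm, mul_assoc]
          module
      _ = _ := by
          rw [a1, a2, a3, a4, a5, a6, a7, a8, ← zsmul_eq_mul]
          simp only [M1, K1, smul_zero, add_zero, zero_add, smul_mul_assoc, mul_smul_comm]
          module
  have b5 : Algebra.norm ℤ (E + μ • E') ^ 2 = Algebra.norm ℤ ((4 * μ : ℤ) : L) := by
    rw [sq]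
    nth_rw 2 [norm_conj (y := E' + μ • E) hτ (by
      rw [hE, hE', mul_add, mul_smul_comm, mul_add, mul_sub, e]; noncomm_ring)]
    rw [← map_mul]
    congr 1
    calc _ = E * E' + μ • (E * E) + μ • (E' * E') + (μ * μ) • (E' * E) := by
          simp only [mul_add, add_mul, smul_mul_assoc, mul_smul_comm, smul_add, smul_smul]; abel
      _ = (2 * μ) • (E + E') := by rw [a5, a6, a7, a8]; module
      _ = _ := by rw [a9, zsmul_eq_mul]; push_cast; noncomm_ring
  have d1 : μ ∣ Algebra.norm ℤ M1 := by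
    have c1 := congrArg (Algebra.norm ℤ) b4
    rw [map_mul, map_mul, map_mul, map_mul, mul_right_comm, ← sq, b5, n2] at c1
    have c2 := mul_left_cancel₀ (by rw [norm_int]; positivity) c1
    have c3 := dvd_norm_sub M1 K1 (2 ^ N)
    rw [← c2] at c3
    exact (dvd_sub_right (Dvd.intro _ rfl)).1 c3
  obtain ⟨m, hm⟩ := d1
  have c1 := congrArg (Algebra.norm ℤ) b1
  rw [map_mul, map_mul, mul_right_comm, ← map_mul, b2] at c1
  simp only [map_mul, n2, n8, hm] at c1
  have c2 := congrArg (· ^ 2) c1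
  have xi : Algebra.norm ℤ ξ ^ 2 = 1 := norm_sq_of_mul (b := ξ * (ξ * ξ)) (by rw [← mul_assoc, x4])
  simp only [mul_pow, xi, b3, norm_sq_of_mul ht] at c2
  have c3 : Algebra.norm ℤ (1 - ti * (ξ * ξ) * t * (ξ * ξ)) ^ 2 = μ * m ^ 2 :=
    mul_left_cancel₀ (pow_ne_zero 7 μ0) (by linear_combination c2)
  refine Int.prime_two.dvd_of_dvd_pow (c3 ▸ Dvd.dvd.mul_right ?_ _)
  rw [hμ]
  exact_mod_cast dvd_pow_self 2 hN

theorem norm_odd {v : L} {r : ℕ} (hr : Odd r) (h1 : v ^ r = 1) (h2 : ∑ i ∈ range r, v ^ i = 0) :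
    ¬ 2 ∣ Algebra.norm ℤ (1 - v) := fun h => by
  have key : ∀ m : ℕ, (1 - v) * ∑ i ∈ range m, (i : L) * v ^ i =
      v * ∑ i ∈ range m, v ^ i - m * v ^ m := fun m => by
    induction m with
    | zero => simp
    | succ m ih =>
      rw [sum_range_succ, sum_range_succ, mul_add, ih, sub_mul, ← mul_assoc v,
        ← (Nat.cast_commute m v).eq, pow_succ']
      push_cast
      noncomm_ring
  have := congrArg (Algebra.norm ℤ) (key r)
  rw [h1, h2, mul_zero, zero_sub, mul_one, map_mul, ← Int.cast_natCast, ← Int.cast_neg,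
    norm_int] at this
  have := Int.prime_two.dvd_of_dvd_pow (this ▸ h.mul_right _)
  rw [dvd_neg] at this
  exact (Nat.not_even_iff_odd.2 hr) (even_iff_two_dvd.2 (by exact_mod_cast this))

end Norm

theorem norm_contra {R G : Type*} [Ring R] [Algebra ℚ R] [Nontrivial R] [Group G] [Finite G]
    (ρ : G →* R) {ξ : R} {x τ v : G} {r : ℕ} (hx : ξ = ρ x ∨ ξ = -ρ x)
    (hξ : ξ * (1 + ξ * ξ) = 1 + ξ * ξ) (e : ρ τ * (ξ * ξ) = -(ξ * ξ) * ρ τ) (hr : Odd r)
    (h1 : v ^ r = 1) (h2 : ∑ i ∈ range r, ρ v ^ i = 0) (h3 : x * x * v * (x * x)⁻¹ = v⁻¹)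
    (h4 : x * x * (x * x) = 1) : False := by
  let L := Algebra.adjoin ℤ (Set.range ρ)
  have : Module.Finite ℤ L := by
    refine Module.Finite.of_fg (?_ : (Subalgebra.toSubmodule L).FG)
    rw [Algebra.adjoin_eq_span, ← MonoidHom.coe_mrange, Submonoid.closure_eq]
    exact Submodule.fg_span (Set.finite_range ρ)
  have : IsAddTorsionFree R := .of_module_rat R
  have : Module.Free ℤ L := Module.free_of_finite_type_torsion_free'
  let σ : G →* L := ρ.codRestrict L.toSubmonoid fun g => Algebra.subset_adjoin ⟨g, rfl⟩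
  have hs : ξ * ξ = ρ (x * x) := by rcases hx with rfl | rfl <;> simp
  have m : ξ ∈ L := by
    rcases hx with rfl | rfl
    exacts [(σ x).2, neg_mem (σ x).2]
  obtain ⟨k, rfl⟩ := hr
  have := norm_even (L := L) (ξ := ⟨ξ, m⟩) (t := σ (v ^ k)) (ti := σ (v ^ k)⁻¹) (τ := σ τ)
    (τi := σ τ⁻¹) (Subtype.ext hξ) (by rw [← map_mul, mul_inv_cancel, map_one])
    (by rw [← map_mul, mul_inv_cancel, map_one]) (Subtype.ext e)
  rw [show (⟨ξ, m⟩ * ⟨ξ, m⟩ : L) = σ (x * x) from Subtype.ext hs, ← map_mul, ← map_mul, ← map_mul,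
    show (v ^ k)⁻¹ * (x * x) * v ^ k * (x * x) = v by
      calc _ = (v ^ k)⁻¹ * (x * x * v * (x * x)⁻¹) ^ k * (x * x * (x * x)) := by
            rw [conj_pow]; generalize x * x = s; group
        _ = (v ^ (2 * k + 1))⁻¹ * v := by rw [h3, h4]; group
        _ = v := by rw [h1, inv_one, one_mul]] at this
  exact norm_odd ⟨k, rfl⟩ (by rw [← map_pow, h1, map_one]) (Subtype.ext (by simpa [σ] using h2)) this

end Cfsg.Agent.H87.Gl
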