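import Cfsg.Agent.H87.GlN
import Cfsg.Agent.S0126
import Cfsg.Agent.H1.UniqueSub

/-! Idempotents in the ring of `2 × 2` matrices over a division ring. -/

set_option autoImplicit false
set_option linter.unusedSectionVars false

namespace Cfsg.Agent.H87.Gl

open Subgroup Finset
open scoped commutatorElement

section Avg

variable {R : Type*} [Ring R]

theorem cast_eq_zero_of_sums {a b : R} {p : ℕ} (hp : 0 < p) (c : Commute a b)
    (h1 : ∀ k, 0 < k → k < p → ∑ i ∈ range p, (a ^ k) ^ i = 0)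
    (h2 : ∀ i, ∑ k ∈ range p, (a ^ i * b) ^ k = 0) : (p : R) = 0 := by
  have : ∑ i ∈ range p, ∑ k ∈ range p, (a ^ i * b) ^ k = p := by
    rw [sum_comm, sum_eq_single 0 (fun k hk k0 => ?_) (fun h => absurd (mem_range.2 hp) h)]
    · simp
    · simp only [fun i => (c.pow_left i).mul_pow k, ← sum_mul, pow_right_comm a _ k]
      rw [h1 k (Nat.pos_of_ne_zero k0) (mem_range.1 hk), zero_mul]
  simpa [h2] using this.symm

variable [Algebra ℚ R]

/-- the average of the first `p` powers -/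
noncomputable def avg (x : R) (p : ℕ) : R := (p : ℚ)⁻¹ • ∑ i ∈ range p, x ^ i

variable {x y e g : R} {p : ℕ}

theorem avg_semi (h : g * x = y * g) : g * avg x p = avg y p * g := by
  simp only [avg, mul_smul_comm, smul_mul_assoc, mul_sum, sum_mul]
  exact congrArg _ (sum_congr rfl fun i _ => (SemiconjBy.pow_right h i).eq)
theorem avg_comm (h : Commute g x) : Commute g (avg x p) := avg_semi h.eq
theorem mul_avg (h : x ^ p = 1) : x * avg x p = avg x p := by
  rw [← sub_eq_zero, ← sub_one_mul, avg, mul_smul_comm, mul_geom_sum, h, sub_self, smul_zero]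
theorem avg_mul (hp : p ≠ 0) (h : x * e = e) : avg x p * e = e := by
  have : ∀ i, x ^ i * e = e := fun i => by
    induction i with
    | zero => rw [pow_zero, one_mul]
    | succ i ih => rw [pow_succ, mul_assoc, h, ih]
  simp only [avg, smul_mul_assoc, sum_mul, this, sum_const, card_range]
  rw [← Nat.cast_smul_eq_nsmul ℚ, smul_smul, inv_mul_cancel₀ (Nat.cast_ne_zero.2 hp), one_smul]
theorem avg_idem (hp : p ≠ 0) (h : x ^ p = 1) : IsIdempotentElem (avg x p) := avg_mul hp (mul_avg h)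
theorem avg_ne_one (h : x ^ p = 1) (h1 : x ≠ 1) : avg x p ≠ 1 := fun e =>
  h1 (by simpa [e] using mul_avg h)
theorem avg_eq_zero (hp : p ≠ 0) : avg x p = 0 ↔ ∑ i ∈ range p, x ^ i = 0 :=
  smul_eq_zero_iff_right (inv_ne_zero (Nat.cast_ne_zero.2 hp))
theorem avg_two (x : R) : x = (2 : ℚ) • avg x 2 - 1 := by
  simp [avg, sum_range_succ, smul_smul]
theorem avg_two_ne (h : x ≠ -1) : avg x 2 ≠ 0 := fun e => h (by rw [avg_two x, e]; simp)

end Avg

theorem exists_pair {G : Type*} [Group G] [Finite G] {p : ℕ} [hp : Fact p.Prime] (h2 : p ≠ 2)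
    (hG : IsPGroup p G) (hc : ¬ IsCyclic G) : ∃ a b : G, Commute a b ∧
      (∀ k, 0 < k → k < p → a ^ k ≠ 1 ∧ (a ^ k) ^ p = 1) ∧
        ∀ i, a ^ i * b ≠ 1 ∧ (a ^ i * b) ^ p = 1 := by
  obtain ⟨A, -, ⟨h1, h3⟩, h4⟩ := S0126.result h2 hG hc
  have hp1 := hp.out.one_lt
  have := Finite.one_lt_card_iff_nontrivial.1
    (h4 ▸ Nat.one_lt_pow two_ne_zero hp1 : 1 < Nat.card A)
  obtain ⟨⟨a, ha⟩, a1⟩ := exists_ne (1 : A)
  have o : orderOf a = p := orderOf_eq_prime (h3 a ha) fun e => a1 (Subtype.ext e)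
  obtain ⟨b, hb, n⟩ : ∃ b ∈ A, b ∉ zpowers a := by
    by_contra k
    push Not at k
    have := card_le_of_le (show A ≤ zpowers a from k)
    rw [h4, Nat.card_zpowers, o] at this
    nlinarith
  exact ⟨a, b, congrArg Subtype.val (h1.is_comm.comm ⟨a, ha⟩ ⟨b, hb⟩),
    fun k k0 kp => ⟨pow_ne_one_of_lt_orderOf k0.ne' (o ▸ kp), h3 _ (pow_mem ha k)⟩,
    fun i => ⟨fun e => n (eq_inv_of_mul_eq_one_right e ▸ inv_mem (npow_mem_zpowers a i)),
      h3 _ (mul_mem (pow_mem ha i) hb)⟩⟩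

theorem geom_zero {K : Type*} [DivisionRing K] {x : K} {n : ℕ} (h : x ^ n = 1) (h1 : x ≠ 1) :
    ∑ k ∈ range n, x ^ k = 0 :=
  (mul_eq_zero.1 ((geom_sum_mul x n).trans (by rw [h, sub_self]))).resolve_right (sub_ne_zero.2 h1)

theorem cyclic_of_div {K : Type*} [DivisionRing K] [CharZero K] {p : ℕ} [hp : Fact p.Prime]
    (h2 : p ≠ 2) (H : Subgroup Kˣ) [Finite H] (hH : IsPGroup p H) : IsCyclic H := by
  by_contra hc
  obtain ⟨a, b, c, h1, h3⟩ := exists_pair h2 hH hc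
  let f : H →* K := (Units.coeHom K).comp H.subtype
  have hf : Function.Injective f := Units.val_injective.comp H.subtype_injective
  have k : ∀ x : H, x ≠ 1 ∧ x ^ p = 1 → ∑ i ∈ range p, f x ^ i = 0 := fun x hx =>
    geom_zero (by rw [← map_pow, hx.2, map_one]) fun e => hx.1 (hf (e.trans f.map_one.symm))
  exact Nat.cast_ne_zero.2 hp.out.ne_zero (cast_eq_zero_of_sums hp.out.pos (c.map f)
    (fun i h3 h4 => map_pow f a i ▸ k _ (h1 i h3 h4))
    fun i => by rw [← map_pow, ← map_mul]; exact k _ (h3 i))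

variable {R : Type*} [Ring R] {G : Type*} [Group G]

/-- the elements that commute with `e` -/
def Cm (ρ : G →* R) (e : R) : Subgroup G where
  carrier := {g | Commute (ρ g) e}
  one_mem' := by simp
  mul_mem' := fun {a b} ha hb => by simpa using Commute.mul_left ha hb
  inv_mem' := fun {a} ha => Commute.units_inv_left (u := ρ.toHomUnits a) ha

theorem sq_mem_Cm {ρ : G →* R} {e : R} {g : G}
    (h : ρ g * e = e * ρ g ∨ ρ g * e = (1 - e) * ρ g) : g * g ∈ Cm ρ e := by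
  rcases h with h | h
  · exact mul_mem h h
  · change ρ (g * g) * e = e * ρ (g * g)
    rw [map_mul, mul_assoc, h, ← mul_assoc, mul_sub, mul_one, h, sub_mul, sub_mul]
    noncomm_ring

theorem eq_top_of_sq (hG : commutator G = ⊤) {H : Subgroup G} (h : ∀ g, g * g ∈ H) : H = ⊤ :=
  top_le_iff.1 (hG ▸ commutator_le.2 fun a _ b _ => by
    rw [show ⁅a, b⁆ = a * a * (a⁻¹ * b * (a⁻¹ * b)) * (b⁻¹ * b⁻¹) by
      rw [commutatorElement_def]; group]
    exact mul_mem (mul_mem (h _) (h _)) (h _))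

namespace M2

variable {K : Type*} [DivisionRing K] (h : M2 R K) {e f : R}
include h

theorem idem (he : IsIdempotentElem e) (e0 : e ≠ 0) (e1 : e ≠ 1) (hf : IsIdempotentElem f)
    (f0 : f ≠ 0) (f1 : f ≠ 1) (c : Commute f e) : f = e ∨ f = 1 - e := by
  have k : ∀ e, IsIdempotentElem e → e ≠ 0 → e ≠ 1 → Commute f e → f * e = 0 ∨ f * e = e :=
    fun e he e0 e1 c => by
      obtain ⟨π, hπ⟩ := h.line e he e0 e1
      let F : Subring.centralizer {e} := ⟨f, fun _ hx => hx ▸ c.symm.eq⟩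
      have : π F * (π F - 1) = 0 := by
        rw [mul_sub, mul_one, ← map_mul, show F * F = F from Subtype.ext hf.eq, sub_self]
      refine (mul_eq_zero.1 this).imp (hπ F).1 fun r => ?_
      rw [← map_one π, ← map_sub, hπ] at r
      exact sub_eq_zero.1 (by simpa [sub_mul] using r)
  have r : f = f * e + f * (1 - e) := by noncomm_ring
  rcases k e he e0 e1 c with a | a <;>
    rcases k _ he.one_sub (sub_ne_zero.2 e1.symm) (by simpa using e0)
      ((Commute.one_right f).sub_right c) with b | b <;> rw [a, b] at r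
  exacts [absurd (r.trans (add_zero _)) f0, Or.inr (r.trans (zero_add _)),
    Or.inl (r.trans (add_zero _)), absurd (r.trans (add_sub_cancel _ _)) f1]

theorem hom (he : IsIdempotentElem e) (e0 : e ≠ 0) (e1 : e ≠ 1) (ρ : G →* R)
    (c : ∀ g, Commute (ρ g) e) : ∃ π : G →* Kˣ, ∀ g, π g = 1 ↔ ρ g * e = e := by
  obtain ⟨π, hπ⟩ := h.line e he e0 e1
  let σ : G →* Subring.centralizer {e} :=
    ρ.codRestrict (Subring.centralizer {e}).toSubmonoid fun g _ hx => hx ▸ (c g).symm.eq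
  refine ⟨(π.toMonoidHom.comp σ).toHomUnits, fun g => ?_⟩
  rw [Units.ext_iff]
  change π (σ g) = 1 ↔ _
  rw [← sub_eq_zero, ← map_one π, ← map_sub, hπ, ← sub_eq_zero (b := e), ← sub_one_mul]
  rfl

theorem hom2 (he : IsIdempotentElem e) (e0 : e ≠ 0) (e1 : e ≠ 1) (ρ : G →* R)
    (c : ∀ g, Commute (ρ g) e) : ∃ π₁ π₂ : G →* Kˣ, (∀ g, π₁ g = 1 ↔ ρ g * e = e) ∧
      (∀ g, π₂ g = 1 ↔ ρ g * (1 - e) = 1 - e) ∧ ∀ g, π₁ g = 1 → π₂ g = 1 → ρ g = 1 := by
  obtain ⟨π₁, h1⟩ := h.hom he e0 e1 ρ c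
  obtain ⟨π₂, h2⟩ := h.hom he.one_sub (sub_ne_zero.2 e1.symm) (by simpa using e0) ρ
    fun g => (Commute.one_right _).sub_right (c g)
  refine ⟨π₁, π₂, h1, h2, fun g a b => ?_⟩
  rw [h2, mul_sub, (h1 g).1 a, mul_one, sub_left_inj] at b
  exact b

variable [Algebra ℚ R]

theorem invol {a b : R} (ha : a * a = 1) (a1 : a ≠ 1) (a2 : a ≠ -1) (hb : b * b = 1) (b1 : b ≠ 1)
    (b2 : b ≠ -1) (c : Commute a b) : b = a ∨ b = -a := by
  rw [← sq] at ha hb
  refine (h.idem (avg_idem two_ne_zero ha) (avg_two_ne a2) (avg_ne_one ha a1)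
    (avg_idem two_ne_zero hb) (avg_two_ne b2) (avg_ne_one hb b1)
    (avg_comm (avg_comm c).symm)).imp (fun e => ?_) fun e => ?_
  · rw [avg_two b, e, ← avg_two]
  · rw [avg_two b, e]
    nth_rw 2 [avg_two a]
    rw [smul_sub, two_smul ℚ (1 : R)]
    abel

theorem semi {ρ : G →* R} {x g : G} {p : ℕ} (hp : p ≠ 0) (hx : x ^ p = 1) (e0 : avg (ρ x) p ≠ 0)
    (e1 : avg (ρ x) p ≠ 1) (c : g * x * g⁻¹ ∈ Cm ρ (avg (ρ x) p)) : g * g ∈ Cm ρ (avg (ρ x) p) := by
  have r : ρ g * avg (ρ x) p = avg (ρ (g * x * g⁻¹)) p * ρ g :=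
    avg_semi (by rw [← map_mul, ← map_mul, inv_mul_cancel_right])
  have u : ρ g⁻¹ * ρ g = 1 := by rw [← map_mul, inv_mul_cancel, map_one]
  refine sq_mem_Cm ((h.idem (f := avg (ρ (g * x * g⁻¹)) p)
    (avg_idem hp (by rw [← map_pow, hx, map_one])) e0 e1
    (avg_idem hp (by rw [← map_pow, conj_pow, hx]; simp)) (fun k => e0 ?_) (fun k => e1 ?_)
    (avg_comm (Commute.symm c)).symm).imp (fun k => by rw [r, k]) fun k => by rw [r, k])
  · rw [← one_mul (avg _ p), ← u, mul_assoc, r, k, zero_mul, mul_zero]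
  · rw [← one_mul (avg _ p), ← u, mul_assoc, r, k, one_mul]

variable [Finite G] [CharZero K] {ρ : G →* R} (hρ : Function.Injective ρ) {p : ℕ}
  [hp : Fact p.Prime] (h2 : p ≠ 2) {P : Subgroup G} (hP : IsPGroup p P)
include hρ h2 hP

theorem comm_of_le (he : IsIdempotentElem e) (e0 : e ≠ 0) (e1 : e ≠ 1) (hle : P ≤ Cm ρ e) :
    ∀ a ∈ P, ∀ b ∈ P, Commute a b := fun a ha b hb => by
  obtain ⟨π₁, π₂, -, -, k⟩ := h.hom2 he e0 e1 (ρ.comp P.subtype) fun g => hle g.2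
  have c : ∀ π : P →* Kˣ, π ⁅(⟨a, ha⟩ : P), ⟨b, hb⟩⁆ = 1 := fun π => by
    have : Finite π.range := Finite.of_surjective _ π.rangeRestrict_surjective
    have := cyclic_of_div h2 π.range (hP.of_surjective _ π.rangeRestrict_surjective)
    rw [map_commutatorElement, commutatorElement_eq_one_iff_commute]
    exact congrArg Subtype.val (IsCyclic.isMulCommutative.is_comm.comm (π.rangeRestrict ⟨a, ha⟩)
      (π.rangeRestrict ⟨b, hb⟩))
  exact commutatorElement_eq_one_iff_commute.1 (hρ ((k _ (c π₁) (c π₂)).trans ρ.map_one.symm))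

theorem exists_refl (hc : ¬ IsCyclic P) : ∃ x ∈ P, x ^ p = 1 ∧ avg (ρ x) p ≠ 0 ∧
    avg (ρ x) p ≠ 1 ∧ P ≤ Cm ρ (avg (ρ x) p) := by
  have p0 := hp.out.ne_zero
  obtain ⟨x, hx, x1, xp, e0⟩ : ∃ x ∈ P, x ≠ 1 ∧ x ^ p = 1 ∧ avg (ρ x) p ≠ 0 := by
    by_contra k
    push Not at k
    obtain ⟨a, b, c, h1, h3⟩ := exists_pair h2 hP hc
    have k' : ∀ x : P, x ≠ 1 ∧ x ^ p = 1 → ∑ i ∈ range p, (ρ.comp P.subtype) x ^ i = 0 :=
      fun x hx => (avg_eq_zero p0).1 (k x x.2 (fun e => hx.1 (Subtype.ext e))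
        (congrArg Subtype.val hx.2))
    have := cast_eq_zero_of_sums hp.out.pos (c.map (ρ.comp P.subtype))
      (fun i h3 h4 => map_pow (ρ.comp P.subtype) a i ▸ k' _ (h1 i h3 h4))
      fun i => by rw [← map_pow, ← map_mul]; exact k' _ (h3 i)
    refine h.nt ?_
    rw [← one_smul ℚ (1 : R), ← inv_mul_cancel₀ (Nat.cast_ne_zero.2 p0 : (p : ℚ) ≠ 0), mul_smul,
      Nat.cast_smul_eq_nsmul, nsmul_one, this, smul_zero]
  have r : ρ x ^ p = 1 := by rw [← map_pow, xp, map_one]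
  have e1 := avg_ne_one r fun e => x1 (hρ (e.trans ρ.map_one.symm))
  refine ⟨x, hx, xp, e0, e1, subgroupOf_eq_top.1 ?_⟩
  by_contra k
  have := hP.isNilpotent
  obtain ⟨g, hg, n⟩ := SetLike.exists_of_lt
    (Group.normalizerCondition_of_isNilpotent _ (lt_top_iff_ne_top.2 k))
  have h3 : (g * g : P) ∈ (Cm ρ (avg (ρ x) p)).subgroupOf P := h.semi p0 xp e0 e1
    ((mem_normalizer_iff.1 hg ⟨x, hx⟩).1 (avg_comm (Commute.refl _)))
  obtain ⟨m, hm⟩ := hP g
  obtain ⟨l, hl⟩ := (hp.out.odd_of_ne_two h2).pow (n := m)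
  refine n ?_
  have := pow_mem h3 (l + 1)
  rwa [← sq, ← pow_mul, mul_add, mul_one, ← one_add_one_eq_two, ← add_assoc, pow_succ,
    one_add_one_eq_two, ← hl, hm, one_mul] at this

theorem odd_comm : ∀ a ∈ P, ∀ b ∈ P, Commute a b := by
  by_cases hc : IsCyclic P
  · exact fun a ha b hb =>
      congrArg Subtype.val (hc.isMulCommutative.is_comm.comm (⟨a, ha⟩ : P) ⟨b, hb⟩)
  · obtain ⟨x, -, xp, e0, e1, k⟩ := h.exists_refl hρ h2 hP hc
    exact h.comm_of_le hρ h2 hP (avg_idem hp.out.ne_zero (by rw [← map_pow, xp, map_one])) e0 e1 k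

end M2

end Cfsg.Agent.H87.Gl
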