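import Cfsg.Agent.H87.GzA
import Cfsg.Agent.H22.PSolvable

/-!
Glauberman's characterization of the Suzuki groups: reduction to a simple group.
-/

set_option autoImplicit false

namespace Cfsg.Agent.H87.Gz

open Cfsg Subgroup H34

variable {G : Type*} [Group G] [Finite G] {p : ℕ} [hp : Fact p.Prime]

/-- `O^{p'}(G)`. -/
abbrev G1 (P : Sylow p G) : Subgroup G := normalClosure ((P : Subgroup G) : Set G)

theorem pElt_mem (P : Sylow p G) {x : G} (hx : ∃ k, orderOf x = p ^ k) : x ∈ G1 P := by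
  obtain ⟨g, hg⟩ := exists_conj_mem_sylow' P hx
  have := (normalClosure_normal (s := ((P : Subgroup G) : Set G))).conj_mem _
    (le_normalClosure hg) g⁻¹
  rwa [show g⁻¹ * (g * x * g⁻¹) * g⁻¹⁻¹ = x by group] at this

theorem le_cent_sup (P : Sylow p G) {X R : Subgroup G} (hX : HasNormalPComplement p X)
    (hR : IsPGroup p R) (hRX : R ≤ X) : X ≤ centralizer (R : Set G) ⊔ G1 P := by
  obtain ⟨Q, hQ⟩ := (hR.comap_subtype (K := X)).exists_le_sylow
  have h1 : (Q : Subgroup X) ≤ (G1 P).subgroupOf X := fun x hx =>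
    pElt_mem P (by simpa using pElt_of_le Q.isPGroup' hx)
  have h2 := Sylow.normalizer_sup_eq_top' Q h1
  intro g hg
  obtain ⟨n, hn, a, ha, e⟩ := mem_sup_of_normal_right.mp (h2 ▸ mem_top (⟨g, hg⟩ : X))
  obtain ⟨z, hz⟩ := H33.exists_isPPart hp.out n
  have h3 := H33.IsPPart.mem_of_mem hp.out hz _ hn
  have h4 : ((z⁻¹ * n : X) : G) ∈ centralizer (R : Set G) := fun y hy =>
    congrArg Subtype.val (comm_of_nil (H3.hasNormalPComplement_top_iff.mpr hX) Q.isPGroup'
      (mem_top _) (mem_top ⟨y, hRX hy⟩) (H33.IsPPart.regular hz) (hQ hy)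
      (mul_mem (inv_mem h3) hn)).symm
  have h5 : (z : G) ∈ G1 P := pElt_mem P (by simpa using H33.IsPPart.pElt hz)
  have h6 : g = z * ((z⁻¹ * n : X) : G) * a := by
    have e' : (n : G) * a = g := congrArg Subtype.val e
    rw [← e']; simp
  rw [h6]
  exact mul_mem (mul_mem (mem_sup_right h5) (mem_sup_left h4)) (mem_sup_right ha)

theorem ex_Z0 {P : Sylow p G} (h1 : (P : Subgroup G) ≠ ⊥) :
    ∃ w ∈ Z0 p (P : Subgroup G), w ≠ 1 := by
  obtain ⟨w, hw, -, hw1⟩ := exists_Z0 P.isPGroup' le_rfl h1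
    fun y hy a ha => mul_mem (mul_mem hy ha) (inv_mem hy)
  exact ⟨w, hw, hw1⟩

omit [Finite G] hp in
theorem ne_bot_of_not_normal {P : Subgroup G} (h : ¬ P.Normal) : P ≠ ⊥ :=
  fun e => h (e ▸ inferInstance)

/-- The Sylow subgroup `P` of `O^{p'}(G)`. -/
abbrev P1 (P : Sylow p G) : Sylow p (G1 P) := P.subtype le_normalClosure

omit hp in
theorem core_G1 (P : Sylow p G) (hcore : pPrimeCore p G = ⊥) : pPrimeCore p (G1 P) = ⊥ := by
  have h1 := H44.le_pPrimeCore (H44.pPrimeCoreOf_normal (p := p) (G1 P))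
    (H44.pPrimeCoreOf_coprime (G1 P))
  rw [hcore, le_bot_iff, map_eq_bot_iff_of_injective _ (G1 P).subtype_injective] at h1
  exact h1

theorem not_normal_P1 (P : Sylow p G) (hnn : ¬ (P : Subgroup G).Normal) :
    ¬ (P1 P : Subgroup (G1 P)).Normal := fun hN => hnn ⟨fun x hx g => by
  have h1 : g * x * g⁻¹ ∈ G1 P :=
    (normalClosure_normal (s := ((P : Subgroup G) : Set G))).conj_mem _ (le_normalClosure hx) g
  exact Hyp.mem_of_pElt (P := P1 P) (g := ⟨_, h1⟩) (by rw [normalizer_eq_top]; trivial)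
    (by simpa [orderOf_cj] using pElt_of_le P.isPGroup' hx)⟩

theorem gen_P1 (P : Sylow p G) : G1 (P1 P) = ⊤ := by
  have h1 : ∀ x : G1 P, (∃ k, orderOf (x : G) = p ^ k) → x ∈ G1 (P1 P) := fun x hx =>
    pElt_mem (P1 P) (by simpa using hx)
  have h2 : G1 P ≤ (G1 (P1 P)).map (G1 P).subtype := by
    refine closure_le _ |>.mpr fun x hx => ?_
    obtain ⟨y, hy, hc⟩ := Group.mem_conjugatesOfSet_iff.mp hx
    obtain ⟨g, rfl⟩ := isConj_iff.mp hc
    exact ⟨⟨_, subset_closure hx⟩, h1 _ (by simpa [orderOf_cj] using pElt_of_le P.isPGroup' hy),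
      rfl⟩
  refine top_le_iff.mp fun x _ => ?_
  obtain ⟨y, hy, e⟩ := h2 x.2
  rwa [← show y = x from Subtype.ext e]

omit [Finite G] in
theorem pair_G1 (P : Sylow p G)
    (hc : ∀ x y : G, orderOf x = p → orderOf y = p → IsPSolvable p (closure ({x, y} : Set G)))
    (x y : G1 P) (hx : orderOf x = p) (hy : orderOf y = p) :
    IsPSolvable p (closure ({x, y} : Set (G1 P))) := by
  have h1 := hc x y (by simpa using hx) (by simpa using hy)
  have h2 : (closure ({x, y} : Set (G1 P))).map (G1 P).subtype = closure {(x : G), (y : G)} := by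
    rw [MonoidHom.map_closure, Set.image_pair]; rfl
  rw [← h2] at h1
  exact H22.IsPSolvable.of_equiv h1 (equivMapOfInjective _ _ (G1 P).subtype_injective).symm

namespace Hyp

variable {P : Sylow p G} (h : Hyp P)
include h

theorem cent_le {u : G} (hu : u ∈ (P : Subgroup G)) (hu1 : u ≠ 1) :
    Cg u ≤ centralizer ((P : Subgroup G) : Set G) ⊔ G1 P := by
  obtain ⟨w, hw, hw1⟩ := ex_Z0 (P := P) fun e => hu1 (mem_bot.mp (e ▸ hu))
  have h1 := le_cent_sup P (h.nil (pElt_of_le P.isPGroup' hu) hu1)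
    (P.isPGroup'.to_le (zpowers_le_of_mem hw.1))
    (zpowers_le_of_mem (mem_centralizer_singleton_iff.mpr (hw.2.1 u hu).symm))
  have h2 := le_cent_sup P (h.nil (pElt_of_le P.isPGroup' hw.1) hw1) P.isPGroup'
    fun y hy => mem_centralizer_singleton_iff.mpr (hw.2.1 y hy)
  exact h1.trans (sup_le ((centralizer_le (Set.singleton_subset_iff.mpr (mem_zpowers w))).trans h2)
    le_sup_right)

theorem toG1 : Hyp (P1 P) where
  a := by
    rintro x hx y hy ⟨g, hg⟩
    by_cases hx1 : x = 1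
    · exact ⟨1, one_mem _, by rw [← hg, hx1]; simp⟩
    have hg' : (g : G) * x * (g : G)⁻¹ = y := congrArg Subtype.val hg
    obtain ⟨n, hn, e⟩ := h.a x hx y hy ⟨g, hg'⟩
    have h1 : n⁻¹ * g ∈ Cg (x : G) := mem_centralizer_singleton_iff.mpr (by
      calc n⁻¹ * g * x = n⁻¹ * (g * x * (g : G)⁻¹) * g := by group
        _ = _ := by rw [hg', ← e]; group)
    have h2 := mul_mem (mem_sup_right g.2) (inv_mem (h.cent_le hx (fun e => hx1 (Subtype.ext e)) h1))
    obtain ⟨c, hc, a, ha, e2⟩ := mem_sup_of_normal_right.mp h2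
    have e3 : a = c⁻¹ * n := by rw [eq_inv_mul_iff_mul_eq, e2]; group
    have h3 : a ∈ normalizer ((P : Subgroup G) : Set G) :=
      e3 ▸ mul_mem (inv_mem (centralizer_le_normalizer _ hc)) hn
    refine ⟨⟨a, ha⟩, mem_normalizer_fintype fun z hz => conj_mem (x := (z : G)) h3 hz,
      Subtype.ext ?_⟩
    change a * x * a⁻¹ = y
    calc _ = c⁻¹ * (n * x * n⁻¹) * c := by rw [e3]; group
      _ = _ := by rw [e, mul_assoc, hc y hy]; group
  b := fun x hx ho => by
    refine H3.hasNormalPComplement_of_injective (((G1 P).subtype.comp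
      (centralizer {x}).subtype).codRestrict _ fun y => ?_) (fun y z e => ?_)
      (h.b x hx (by simpa using ho))
    · exact mem_centralizer_singleton_iff.mpr
        (congrArg Subtype.val (mem_centralizer_singleton_iff.mp y.2))
    · exact Subtype.ext (Subtype.ext (congrArg Subtype.val e :))

theorem exists_out (hcore : pPrimeCore p G = ⊥) (hnn : ¬ (P : Subgroup G).Normal) :
    ∃ g ∈ normalizer ((P : Subgroup G) : Set G), g ∉ KK (P : Subgroup G) := by
  by_contra! H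
  have h1 : HasNormalPComplement p G :=
    (H3.hasNormalPComplement_iff_sylow_controls_fusion P).mpr fun x hx g hg => by
      obtain ⟨n, hn, e⟩ := h.a x hx _ hg ⟨g, rfl⟩
      obtain ⟨y, hy, e2⟩ := H n hn
      exact ⟨y, hy, by rw [← e2 x hx, e]⟩
  have h2 := (core_facts h1).1 P
  rw [hcore, index_bot] at h2
  exact hnn (eq_top_of_card_eq _ h2.symm ▸ inferInstance)

theorem perfect (hcore : pPrimeCore p G = ⊥) (hnn : ¬ (P : Subgroup G).Normal)
    (hgen : G1 P = ⊤) : commutator G = ⊤ := by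
  obtain ⟨g, hg, hK⟩ := h.exists_out hcore hnn
  refine top_le_iff.mp (hgen ▸ normalClosure_le_normal fun x hx => ?_)
  obtain ⟨b, hb⟩ := (h.bij hg hK le_rfl fun a ha => conj_mem' hg ha).2 ⟨x, hx⟩
  have e : g⁻¹ * (b : G)⁻¹ * g * b = x := congrArg Subtype.val hb
  have := commutator_mem_commutator (mem_top g⁻¹) (mem_top (b : G)⁻¹)
  rwa [commutatorElement_def, inv_inv, inv_inv, e] at this

theorem simple (hcore : pPrimeCore p G = ⊥) (hnn : ¬ (P : Subgroup G).Normal)
    (hgen : G1 P = ⊤) : IsSimpleGroup G := by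
  have hP := ne_bot_of_not_normal hnn
  have : Nontrivial G := by
    obtain ⟨w, -, hw⟩ := ex_Z0 hP
    exact ⟨w, 1, hw⟩
  refine ⟨fun M hM => or_iff_not_imp_left.mpr fun hM1 => ?_⟩
  have h1 : (P : Subgroup G) ⊓ M ≠ ⊥ := fun e => hM1 (le_bot_iff.mp (hcore ▸ H44.le_pPrimeCore hM
    (H3.coprime_card_of_normal_of_inf_sylow_eq_bot P M e)))
  obtain ⟨w, hw, hwM, hw1⟩ := exists_Z0 P.isPGroup' inf_le_left h1 fun y hy a ha =>
    mem_inf.mpr ⟨mul_mem (mul_mem hy (mem_inf.mp ha).1) (inv_mem hy), hM.conj_mem _ ha.2 y⟩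
  have h2 := Sylow.normalizer_sup_eq_top (H3.sylowInf P M)
  rw [H3.coe_sylowInf, subgroupOf_map_subtype] at h2
  have h3 : Cg w ⊔ M = ⊤ := by
    refine top_le_iff.mp (hgen ▸ (closure_le _).mpr fun x hx => ?_)
    obtain ⟨y, hy, hc⟩ := Group.mem_conjugatesOfSet_iff.mp hx
    obtain ⟨g, rfl⟩ := isConj_iff.mp hc
    obtain ⟨l, hl, m, hm, rfl⟩ := mem_sup_of_normal_right.mp (h2 ▸ mem_top g)
    have a1 := h.sc hw (g := l⁻¹) (mem_inf.mp (conj_mem (inv_mem hl) hwM)).1
    have a2 : l * y * l⁻¹ ∈ Cg w := mem_centralizer_singleton_iff.mpr (by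
      calc l * y * l⁻¹ * w = l * (y * (l⁻¹ * w * l⁻¹⁻¹)) * l⁻¹ := by group
        _ = _ := by rw [a1.2.1 y hy]; group)
    have a3 := mem_sup_right (S := Cg w) (hM.conj_mem m hm l)
    have a4 := mul_mem (mul_mem a3 (mem_sup_left a2)) (inv_mem a3)
    rwa [show l * m * l⁻¹ * (l * y * l⁻¹) * (l * m * l⁻¹)⁻¹ = l * m * y * (l * m)⁻¹ by group] at a4
  have h4 : HasNormalPComplement p (G ⧸ M) := by
    refine H3.hasNormalPComplement_of_surjective ((QuotientGroup.mk' M).comp (Cg w).subtype)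
      (fun q => ?_) (h.nil (pElt_of_le P.isPGroup' hw.1) hw1)
    obtain ⟨g, rfl⟩ := QuotientGroup.mk_surjective q
    obtain ⟨c, hc, m, hm, rfl⟩ := mem_sup_of_normal_right.mp (h3 ▸ mem_top g)
    exact ⟨⟨c, hc⟩, by simp [(QuotientGroup.eq_one_iff m).mpr hm]⟩
  obtain ⟨R, hR, hc, k, hk⟩ := H3.hasNormalPComplement_iff_exists_normal.mp h4
  have h5 : IsPGroup p ((G ⧸ M) ⧸ R) := IsPGroup.of_card hk
  have h6 : commutator ((G ⧸ M) ⧸ R) = ⊤ := by
    have hs : Function.Surjective ((QuotientGroup.mk' R).comp (QuotientGroup.mk' M)) :=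
      (QuotientGroup.mk'_surjective R).comp (QuotientGroup.mk'_surjective M)
    have := map_commutator (⊤ : Subgroup G) ⊤ ((QuotientGroup.mk' R).comp (QuotientGroup.mk' M))
    rw [← _root_.commutator_def, h.perfect hcore hnn hgen, map_top_of_surjective _ hs] at this
    exact this.symm
  have h7 : R = ⊤ := by
    by_contra hne
    have := h5.isNilpotent
    have : Nontrivial ((G ⧸ M) ⧸ R) := QuotientGroup.nontrivial_iff.mpr hne
    exact (Group.IsSolvable.commutator_lt_top_of_nontrivial ((G ⧸ M) ⧸ R)).ne h6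
  refine top_le_iff.mp (hgen ▸ normalClosure_le_normal fun x hx => ?_)
  obtain ⟨j, hj⟩ := pElt_of_le P.isPGroup' hx
  obtain ⟨i, -, hi⟩ := (Nat.dvd_prime_pow hp.out).mp
    (hj ▸ orderOf_map_dvd (QuotientGroup.mk' M) x)
  refine (QuotientGroup.eq_one_iff x).mp (H33.eq_one_of_pElt_of_regular ⟨i, hi⟩ fun hd => ?_)
  exact (Nat.Prime.coprime_iff_not_dvd hp.out).mp hc.symm
    (hd.trans (orderOf_dvd_natCard R (h7 ▸ mem_top _)))

end Hyp

end Cfsg.Agent.H87.Gz
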