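import Cfsg.Agent.H87.GzA
import Cfsg.Agent.H22.PConstrained

/-!
Glauberman's characterization of the Suzuki groups: pairs of conjugates of central elements.
-/

set_option autoImplicit false

namespace Cfsg.Agent.H87.Gz

open Cfsg Subgroup H34

variable {G : Type*} [Group G] [Finite G] {p : ℕ} [hp : Fact p.Prime]

theorem exists_conj_le (P : Sylow p G) {R : Subgroup G} (hR : IsPGroup p R) :
    ∃ g : G, ∀ x ∈ R, g * x * g⁻¹ ∈ (P : Subgroup G) := by
  obtain ⟨T, hT⟩ := hR.exists_le_sylow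
  obtain ⟨g, rfl⟩ := MulAction.exists_smul_eq G T P
  exact ⟨g, fun x hx => ⟨x, hT hx, rfl⟩⟩

namespace Hyp

variable {P : Sylow p G} (h : Hyp P)
include h

omit [Finite G] hp in
theorem sc' {w x : G} (hw : w ∈ Z0 p (P : Subgroup G)) (hc : IsConj w x)
    (hx : x ∈ (P : Subgroup G)) : x ∈ Z0 p (P : Subgroup G) := by
  obtain ⟨g, rfl⟩ := isConj_iff.mp hc
  exact h.sc hw hx

theorem pair {w₁ w₂ x y : G} (h₁ : w₁ ∈ Z0 p (P : Subgroup G)) (h₂ : w₂ ∈ Z0 p (P : Subgroup G))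
    (c₁ : IsConj w₁ x) (c₂ : IsConj w₂ y) (hs : IsPSolvable p (closure ({x, y} : Set G))) :
    ∃ a ∈ Z0 p (P : Subgroup G), ∃ b ∈ Z0 p (P : Subgroup G), IsConj x a ∧ IsConj y b ∧
      ∀ (k : ℤ) (r : G), IsPPart p (x * y ^ k) r → IsConj r (a * b ^ k) := by
  set H := closure ({x, y} : Set G) with hH
  have := H33.pPrimeCore_normal' (p := p) (G := H)
  set π := QuotientGroup.mk' (pPrimeCore p H)
  have hU := H33.not_dvd_card_pPrimeCore (G := H) hp.out
  have h1 := H22.IsPSolvable.centralizer_pCore_le (H22.IsPSolvable.quotient hs (pPrimeCore p H))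
    H22.pPrimeCore_quotient_pPrimeCore
  let x' : H := ⟨x, subset_closure (by simp)⟩
  let y' : H := ⟨y, subset_closure (by simp)⟩
  have pe : ∀ {w z : G}, w ∈ Z0 p (P : Subgroup G) → IsConj w z → ∃ k, orderOf z = p ^ k :=
    fun hw hc => by
      obtain ⟨g, rfl⟩ := isConj_iff.mp hc
      rw [orderOf_cj]
      exact pElt_of_le P.isPGroup' hw.1
  obtain ⟨k1, hk1⟩ := pe h₁ c₁
  obtain ⟨R, hR⟩ := (IsPGroup.of_card (p := p) (G := zpowers x') (n := k1)
    (by rw [Nat.card_zpowers, ← hk1, orderOf_mk])).exists_le_sylow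
  have hxR : x' ∈ (R : Subgroup H) := hR (mem_zpowers _)
  obtain ⟨t, ht⟩ := exists_conj_mem_sylow' R (x := y') (by simpa [y'] using pe h₂ c₂)
  obtain ⟨g, hg⟩ := exists_conj_le P (R.isPGroup'.map H.subtype)
  have hg' : ∀ z ∈ (R : Subgroup H), g * z * g⁻¹ ∈ (P : Subgroup G) := fun z hz => hg _ ⟨z, hz, rfl⟩
  have ca : IsConj x (g * x' * g⁻¹) := isConj_iff.mpr ⟨g, rfl⟩
  have cb : IsConj y (g * (t * y' * t⁻¹ : H) * g⁻¹) :=
    isConj_iff.mpr ⟨g * t, by simp [y', mul_assoc]⟩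
  have ha := h.sc' h₁ (c₁.trans ca) (hg' _ hxR)
  have hb := h.sc' h₂ (c₂.trans cb) (hg' _ ht)
  have cen : ∀ z : H, g * z * g⁻¹ ∈ Z0 p (P : Subgroup G) → ∀ u ∈ (R : Subgroup H),
      u * z = z * u := fun z hz u hu => Subtype.ext ((MulAut.conj g).injective (by
    have := hz.2.1 _ (hg' u hu)
    simpa [mul_assoc] using this))
  let Rb := R.mapSurjective (QuotientGroup.mk'_surjective (pPrimeCore p H))
  have cen2 : ∀ z : H, g * z * g⁻¹ ∈ Z0 p (P : Subgroup G) → ∀ u ∈ (Rb : Subgroup _),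
      u * π z = π z * u := by
    rintro z hz _ ⟨u, hu, rfl⟩
    rw [← map_mul, cen z hz u hu, map_mul]
  have m1 : π x' ∈ pCore p _ := h1 fun u hu => cen2 x' ha u (H22.pCore_le_sylow Rb hu)
  have m2 : π (t * y' * t⁻¹) ∈ pCore p _ := h1 fun u hu => cen2 _ hb u (H22.pCore_le_sylow Rb hu)
  have m3 : π y' ∈ pCore p _ := by
    have := (inferInstance : (pCore p (H ⧸ pPrimeCore p H)).Normal).conj_mem _ m2 (π t)⁻¹
    simpa [mul_assoc] using this
  have m4 : ∀ z : H, π z ∈ pCore p _ := by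
    rintro ⟨z, hz⟩
    induction hz using closure_induction with
    | mem z hz => rcases hz with rfl | rfl; exacts [m1, m3]
    | one => exact one_mem _
    | mul a b a1 b1 a2 b2 => exact mul_mem a2 b2
    | inv a a1 a2 => exact inv_mem a2
  have m5 : ∀ z : H, π z ∈ (Rb : Subgroup _) := fun z => H22.pCore_le_sylow Rb (m4 z)
  have e1 : π y' = π (t * y' * t⁻¹) := by
    have := cen2 _ hb _ (m5 t⁻¹)
    simp only [map_mul, map_inv] at this ⊢
    calc π y' = (π t)⁻¹ * (π t * π y' * (π t)⁻¹) * π t := by group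
      _ = _ := by rw [this]; group
  refine ⟨_, ha, _, hb, ca, cb, fun k r hr => ?_⟩
  have r1 : r ∈ H := H33.IsPPart.mem_of_mem hp.out hr H (mul_mem x'.2 (zpow_mem y'.2 k))
  have r2 : IsPPart p (x' * y' ^ k) ⟨r, r1⟩ := H33.isPPart_coe_iff.mp hr
  have r3 : π ⟨r, r1⟩ = π (x' * y' ^ k) := H33.IsPPart.unique hp.out (H33.IsPPart.map hp.out r2 π)
    (H33.isPPart_self hp.out (pElt_of_le H22.isPGroup_pCore (m4 _)))
  obtain ⟨s, hs⟩ := exists_conj_mem_sylow' R (H33.IsPPart.pElt r2)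
  have r4 : π (s * ⟨r, r1⟩ * s⁻¹) = π (x' * (t * y' * t⁻¹) ^ k) := by
    have a1 : Commute (π s) (π x') := cen2 _ ha _ (m5 s)
    have a2 : Commute (π s) (π (t * y' * t⁻¹)) := cen2 _ hb _ (m5 s)
    rw [map_mul, map_mul, r3, map_mul, map_mul π x', map_zpow, map_zpow, e1,
      (a1.mul_right (a2.zpow_right k)).eq, map_inv, mul_inv_cancel_right]
  have r5 : (s * ⟨r, r1⟩ * s⁻¹)⁻¹ * (x' * (t * y' * t⁻¹) ^ k) = 1 :=
    H33.eq_one_of_pElt_of_regular (pElt_of_le R.isPGroup'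
      (mul_mem (inv_mem hs) (mul_mem hxR (zpow_mem ht k)))) fun hd =>
      hU (hd.trans (orderOf_dvd_natCard _ (QuotientGroup.eq.mp r4)))
  have r6 : (s : G) * r * (s : G)⁻¹ = x' * ((t * y' * t⁻¹ : H) : G) ^ k :=
    congrArg Subtype.val (inv_mul_eq_one.mp r5)
  refine isConj_iff.mpr ⟨g * s, ?_⟩
  rw [conj_zpow]
  calc _ = g * (s * r * (s : G)⁻¹) * g⁻¹ := by group
    _ = _ := by rw [r6]; group

end Hyp

end Cfsg.Agent.H87.Gz
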