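import Cfsg.Agent.H87.GzC
import Cfsg.Agent.S0942

/-!
Glauberman's characterization of the Suzuki groups: columns of the principal block.
-/

set_option autoImplicit false

namespace Cfsg.Agent.H87.Gz

open Cfsg Subgroup H34 Finset ComplexConjugate

variable {G : Type*} [Group G] [Fintype G] {p : ℕ} [hp : Fact p.Prime]

open Classical in
/-- The `A`-class of `u`. -/
noncomputable def cls (A : Subgroup G) (u : G) : Finset G :=
  univ.filter fun z => ∃ n ∈ A, n * u * n⁻¹ = z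

open Classical in
/-- The non-identity elements. -/
noncomputable def sh (A : Subgroup G) : Finset G := univ.filter fun z => z ∈ A ∧ z ≠ 1

theorem mem_cls {A : Subgroup G} {u z : G} : z ∈ cls A u ↔ ∃ n ∈ A, n * u * n⁻¹ = z := by
  simp [cls]

theorem mem_sh {A : Subgroup G} {z : G} : z ∈ sh A ↔ z ∈ A ∧ z ≠ 1 := by
  simp [sh]

theorem sum_sh {R : Type*} [AddCommMonoid R] (A : Subgroup G) [Fintype A] (F : G → R) :
    ∑ x : A, F x = F 1 + ∑ x ∈ sh A, F x := by
  classical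
  rw [← sum_subtype (s := insert 1 (sh A)) (p := (· ∈ A)) (fun x => ?_) F,
    sum_insert (by simp [mem_sh])]
  by_cases hx : x = 1 <;> simp [mem_sh, hx]

theorem card_sh (A : Subgroup G) : (sh A).card + 1 = Nat.card A := by
  have := Fintype.ofFinite A
  have := sum_sh A fun _ => (1 : ℕ)
  simp only [sum_const, card_univ, smul_eq_mul, mul_one] at this
  rw [Nat.card_eq_fintype_card, this, add_comm]

theorem card_cls (A : Subgroup G) (u : G) :
    Nat.card A = Nat.card ↥(A ⊓ Cg u) * (cls A u).card := by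
  classical
  have := Fintype.ofFinite A
  have h := sum_conj_eq A u fun _ => 1
  rw [sum_const, card_univ, ← Nat.card_eq_fintype_card, ← sum_filter, sum_const] at h
  simp only [nsmul_eq_mul, mul_one] at h
  have h2 : Nat.card A = Nat.card ↥(A ⊓ Cg u) *
    (univ.filter fun z => ∃ n ∈ A, n * u * n⁻¹ = z).card := by exact_mod_cast h
  rw [h2, cls]

/-- `e = |N(P) : P C(P)|`. -/
noncomputable def ee (P : Subgroup G) : ℕ := (KK P).relIndex (normalizer (P : Set G))

theorem card_N (P : Subgroup G) :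
    Nat.card (normalizer (P : Set G)) = ee P * Nat.card (KK P) := by
  rw [ee, relIndex, ← Nat.card_congr (subgroupOfEquivOfLe (KK_le (P := P))).toEquiv, mul_comm,
    card_mul_index]

namespace Hyp

variable {P : Sylow p G} (h : Hyp P) {M : Ideal AlgInt}
include h

theorem cls_mul {u : G} (hu : u ∈ (P : Subgroup G)) (hu1 : u ≠ 1) :
    (cls (normalizer ((P : Subgroup G) : Set G)) u).card * Nat.card ↥((P : Subgroup G) ⊓ Cg u) =
      ee (P : Subgroup G) * Nat.card P := by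
  have h1 := card_cls (normalizer ((P : Subgroup G) : Set G)) u
  have h2 := card_cls (KK (P : Subgroup G)) u
  have h3 := card_cls (P : Subgroup G) u
  have e1 : normalizer ((P : Subgroup G) : Set G) ⊓ Cg u = KK (P : Subgroup G) ⊓ Cg u :=
    le_antisymm (fun g hg => ⟨h.fpf hg.1 hu hu1 (mem_centralizer_singleton_iff.mp hg.2), hg.2⟩)
      (inf_le_inf_right _ KK_le)
  have e2 : cls (KK (P : Subgroup G)) u = cls (P : Subgroup G) u := by
    ext z
    simp only [mem_cls]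
    exact ⟨fun ⟨n, ⟨y, hy, e⟩, hn⟩ => ⟨y, hy, (e u hu).symm.trans hn⟩,
      fun ⟨n, hn, e⟩ => ⟨n, le_KK hn, e⟩⟩
  rw [card_N, e1, h2, e2, ← mul_assoc, mul_comm (ee _), mul_assoc] at h1
  have h4 := Nat.eq_of_mul_eq_mul_left Nat.card_pos h1
  rw [← h4]
  change _ = _ * Nat.card (P : Subgroup G)
  rw [h3]
  ring

theorem cls_Z0 {w : G} (hw : w ∈ Z0 p (P : Subgroup G)) (hw1 : w ≠ 1) :
    (cls (normalizer ((P : Subgroup G) : Set G)) w).card = ee (P : Subgroup G) := by
  have h1 := h.cls_mul hw.1 hw1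
  rw [inf_eq_left.mpr fun y hy => mem_centralizer_singleton_iff.mpr (hw.2.1 y hy)] at h1
  exact Nat.eq_of_mul_eq_mul_right Nat.card_pos h1

omit hp in
open Classical in
theorem filter_sh {u : G} (hu : u ∈ (P : Subgroup G)) (hu1 : u ≠ 1) :
    (sh (P : Subgroup G)).filter (IsConj u ·) = cls (normalizer ((P : Subgroup G) : Set G)) u := by
  ext z
  simp only [mem_filter, mem_sh, mem_cls]
  refine ⟨fun ⟨⟨a, _⟩, c⟩ => h.a u hu z a (isConj_iff.mp c), ?_⟩
  rintro ⟨n, hn, rfl⟩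
  exact ⟨⟨conj_mem hn hu, by simpa using hu1⟩, isConj_iff.mpr ⟨n, rfl⟩⟩

open Classical in
theorem filter_sh_Z0 {w : G} (hw : w ∈ Z0 p (P : Subgroup G)) (hw1 : w ≠ 1) :
    ((sh (Z0 p (P : Subgroup G))).filter (IsConj w ·)).card = ee (P : Subgroup G) := by
  rw [← h.cls_Z0 hw hw1, ← h.filter_sh hw.1 hw1]
  congr 1
  ext z
  simp only [mem_filter, mem_sh]
  exact ⟨fun ⟨⟨a, b⟩, c⟩ => ⟨⟨a.1, b⟩, c⟩, fun ⟨⟨a, b⟩, c⟩ => ⟨⟨h.sc' hw c a, b⟩, c⟩⟩

theorem apply_eq (hM : IsPModular p M) {χ : IrrCharacter G} (hχ : χ ∈ principalBlock M G)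
    {g r : G} (hr : IsPPart p g r) (hr1 : r ≠ 1) : (χ : G → ℂ) g = (χ : G → ℂ) r := by
  obtain ⟨v, rfl, hc, hk, hv⟩ := hr
  have hv' : v ∈ Cg r := mem_centralizer_singleton_iff.mpr hc.symm.eq
  exact S0942.result p M hM r hk v ⟨⟨v, hv'⟩, (core_facts (h.nil hk hr1)).2 _
    (by rwa [← orderOf_coe]), rfl⟩ χ hχ

variable [M.IsMaximal]

theorem lamC_eq (hM : IsPModular p M) {u : G} (hu : ∃ k, orderOf u = p ^ k) (hu1 : u ≠ 1)
    (Q : Sylow p (Cg u)) : lamC M u = Nat.card Q := by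
  obtain ⟨k, hk⟩ := Q.isPGroup'.exists_card_eq
  have h1 := (core_facts (h.nil hu hu1)).1 Q
  rw [lamC_of_normal_complement hM (h1.trans hk)]
  exact hk.symm

theorem lamC_Z0 (hM : IsPModular p M) {w : G} (hw : w ∈ Z0 p (P : Subgroup G)) (hw1 : w ≠ 1) :
    lamC M w = Nat.card P := by
  have hle : (P : Subgroup G) ≤ Cg w := fun y hy => mem_centralizer_singleton_iff.mpr (hw.2.1 y hy)
  rw [h.lamC_eq hM (pElt_of_le P.isPGroup' hw.1) hw1 (P.subtype hle)]
  exact Nat.card_congr (subgroupOfEquivOfLe hle).toEquiv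

theorem lamC_le (hM : IsPModular p M) {u : G} (hu : u ∈ (P : Subgroup G)) (hu1 : u ≠ 1) :
    lamC M u ≤ Nat.card ↥((P : Subgroup G) ⊓ Cg u) := by
  obtain ⟨k, hk⟩ := pElt_of_le P.isPGroup' hu
  let u' : Cg u := ⟨u, mem_centralizer_singleton_iff.mpr rfl⟩
  obtain ⟨Q, hQ⟩ := (IsPGroup.of_card (p := p) (G := zpowers u') (n := k)
    (by rw [Nat.card_zpowers, ← hk, orderOf_mk])).exists_le_sylow
  obtain ⟨g, hg⟩ := exists_conj_le P (Q.isPGroup'.map (Cg u).subtype)
  obtain ⟨n, hn, e⟩ := h.a u hu _ (hg u ⟨u', hQ (mem_zpowers _), rfl⟩) ⟨g, rfl⟩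
  rw [h.lamC_eq hM ⟨k, hk⟩ hu1 Q]
  refine Nat.card_le_card_of_injective (fun q => ⟨n⁻¹ * (g * (q : Cg u) * g⁻¹) * n,
    conj_mem' hn (hg _ ⟨q, q.2, rfl⟩), mem_centralizer_singleton_iff.mpr ?_⟩) fun a b hab => ?_
  · have := mem_centralizer_singleton_iff.mp (q : Cg u).2
    calc _ = n⁻¹ * (g * (q : Cg u) * g⁻¹) * (n * u * n⁻¹) * n := by group
      _ = n⁻¹ * g * ((q : Cg u) * u) * g⁻¹ * n := by rw [e]; group
      _ = n⁻¹ * (g * u * g⁻¹) * (g * (q : Cg u) * g⁻¹) * n := by rw [this]; group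
      _ = _ := by rw [← e]; group
  · have := congrArg Subtype.val hab
    simp only [mul_left_inj, mul_right_inj] at this
    exact Subtype.ext (Subtype.ext this)

/-- Bessel's inequality. -/
theorem bessel (hM : IsPModular p M) {χ : IrrCharacter G} (hχ : χ ∈ principalBlock M G) :
    ∑ u ∈ sh (P : Subgroup G), Complex.normSq ((χ : G → ℂ) u) ≤
      ee (P : Subgroup G) * Nat.card P := by
  classical
  set S := ∑ u ∈ sh (P : Subgroup G), Complex.normSq ((χ : G → ℂ) u) with hS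
  set F : IrrCharacter G → ℂ := fun ψ => ∑ u ∈ sh (P : Subgroup G),
    conj ((χ : G → ℂ) u) * (ψ : G → ℂ) u with hF
  have h1 : F χ = S := by
    rw [hF, hS]
    push_cast
    exact sum_congr rfl fun u _ => by rw [Complex.normSq_eq_conj_mul_self]
  have h2 : ∑ ψ ∈ H86.fs (principalBlock M G), (Complex.normSq (F ψ) : ℂ) =
      ∑ v ∈ sh (P : Subgroup G), (Complex.normSq ((χ : G → ℂ) v) : ℂ) *
        (((cls (normalizer ((P : Subgroup G) : Set G)) v).card * lamC M v : ℕ) : ℂ) := by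
    have a1 : ∀ ψ : IrrCharacter G, (Complex.normSq (F ψ) : ℂ) =
        ∑ v ∈ sh (P : Subgroup G), ∑ u ∈ sh (P : Subgroup G),
          conj ((χ : G → ℂ) u) * (χ : G → ℂ) v * ((ψ : G → ℂ) u * conj ((ψ : G → ℂ) v)) := by
      intro ψ
      rw [Complex.normSq_eq_conj_mul_self, hF, map_sum, sum_mul_sum]
      refine sum_congr rfl fun v _ => sum_congr rfl fun u _ => ?_
      rw [map_mul, Complex.conj_conj]
      ring
    simp only [a1]
    rw [sum_comm]
    refine sum_congr rfl fun v hv => ?_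
    obtain ⟨hv, hv1⟩ := mem_sh.mp hv
    rw [sum_comm, ← h.filter_sh hv hv1, card_filter]
    push_cast
    rw [sum_mul, mul_sum]
    refine sum_congr rfl fun u hu => ?_
    rw [← mul_sum, ← colS, colS_principal hM (pElt_of_le P.isPGroup' hv)
      (pElt_of_le P.isPGroup' (mem_sh.mp hu).1)]
    split_ifs with hc
    · rw [← irr_isConj χ hc, Complex.normSq_eq_conj_mul_self, one_mul]
    · simp
  have h3 : ∑ ψ ∈ H86.fs (principalBlock M G), Complex.normSq (F ψ) =
      ∑ v ∈ sh (P : Subgroup G), Complex.normSq ((χ : G → ℂ) v) *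
        (((cls (normalizer ((P : Subgroup G) : Set G)) v).card * lamC M v : ℕ) : ℝ) := by
    exact_mod_cast h2
  have h4 := single_le_sum (f := fun ψ => Complex.normSq (F ψ))
    (fun _ _ => Complex.normSq_nonneg _) (H86.mem_fs.mpr hχ)
  have h5 : ∑ v ∈ sh (P : Subgroup G), Complex.normSq ((χ : G → ℂ) v) *
      (((cls (normalizer ((P : Subgroup G) : Set G)) v).card * lamC M v : ℕ) : ℝ) ≤
      S * (ee (P : Subgroup G) * Nat.card P) := by
    rw [hS, sum_mul]
    refine sum_le_sum fun v hv => mul_le_mul_of_nonneg_left ?_ (Complex.normSq_nonneg _)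
    obtain ⟨hv, hv1⟩ := mem_sh.mp hv
    exact_mod_cast (Nat.mul_le_mul_left _ (h.lamC_le hM hv hv1)).trans (h.cls_mul hv hv1).le
  simp only [h1, Complex.normSq_ofReal] at h4
  have h6 : 0 ≤ S := sum_nonneg fun _ _ => Complex.normSq_nonneg _
  rcases h6.eq_or_lt with h0 | h0
  · rw [← h0]; positivity
  · exact le_of_mul_le_mul_left (h4.trans (h3.le.trans h5)) h0

end Hyp

end Cfsg.Agent.H87.Gz
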