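import Cfsg.Agent.H87.GzD

/-!
Glauberman's characterization of the Suzuki groups: a lower bound for `‖χ|P‖²`.
-/

set_option autoImplicit false

namespace Cfsg.Agent.H87.Gz

open Cfsg Subgroup H34 Finset ComplexConjugate

theorem inner_mono {A B : Type*} [Group A] [Group B] [Fintype A] [Fintype B] (f : A →* B)
    {θ : B → ℂ} (hθ : IsCharacter B θ) :
    ((Nat.card B : ℂ)⁻¹ * ∑ b, θ b).re ≤ ((Nat.card A : ℂ)⁻¹ * ∑ a, θ (f a)).re := by
  refine H5.isCharacter_induction (P := fun θ =>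
    ((Nat.card B : ℂ)⁻¹ * ∑ b, θ b).re ≤ ((Nat.card A : ℂ)⁻¹ * ∑ a, θ (f a)).re) (by simp)
    (fun θ h => ?_) (fun θ η _ _ h1 h2 => ?_) hθ
  · by_cases h1 : θ = fun _ => 1
    · subst h1
      simp only [sum_const, card_univ, nsmul_eq_mul, mul_one, ← Nat.card_eq_fintype_card]
      rw [inv_mul_cancel₀ H5.natCard_ne_zero, inv_mul_cancel₀ H5.natCard_ne_zero]
    · obtain ⟨k, hk⟩ := H5.exists_nat_classInner
        (H5.isCharacter_comp (H5.isCharacter_of_isIrr h) f) H5.isCharacter_one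
      rw [H5.classInner_one_right] at hk
      rw [H5.sum_irr_eq_zero h h1, hk]
      simp
  · simp only [Pi.add_apply, sum_add_distrib, mul_add, Complex.add_re]
    exact add_le_add h1 h2

variable {X : Type*} [Group X] [Fintype X]

theorem exists_part {φ : X → ℂ} (hφ : IsCharacter X φ) {w : X} (hw : φ w ≠ φ 1) :
    ∃ ψ γ : X → ℂ, IsIrrCharacter X ψ ∧ IsCharacter X γ ∧ φ = ψ + γ ∧ ψ w ≠ ψ 1 := by
  refine H5.isCharacter_induction (P := fun φ => φ w ≠ φ 1 →
    ∃ ψ γ : X → ℂ, IsIrrCharacter X ψ ∧ IsCharacter X γ ∧ φ = ψ + γ ∧ ψ w ≠ ψ 1) (by simp)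
    (fun θ h hw => ⟨θ, 0, h, H5.isCharacter_zero, by simp, hw⟩) (fun θ η a b h1 h2 hw => ?_) hφ hw
  by_cases h : θ w = θ 1
  · obtain ⟨ψ, γ, c1, c2, rfl, c3⟩ := h2 fun e => hw (by simp only [Pi.add_apply, h, e])
    exact ⟨ψ, θ + γ, c1, H5.isCharacter_add a c2, by abel, c3⟩
  · obtain ⟨ψ, γ, c1, c2, rfl, c3⟩ := h1 h
    exact ⟨ψ, γ + η, c1, H5.isCharacter_add c2 b, by abel, c3⟩

theorem sum_normal_zero {ψ : X → ℂ} (hψ : IsIrrCharacter X ψ) (Z : Subgroup X) [Z.Normal]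
    [Fintype Z] {w : X} (hwZ : w ∈ Z) (hw : ψ w ≠ ψ 1) (g : X) : ∑ a : Z, ψ (a * g) = 0 := by
  classical
  have a1 : ∀ g, ∑ a : Z, ψ (a * g) =
      (∑ x, (if x ∈ Z then (1 : ℂ) else 0) * ψ x) / ψ 1 * ψ g := fun g => by
    rw [← H5.sum_mul_irr_mul hψ (H33.isClassFunction_indicator_normal Z) g]
    simp only [ite_mul, one_mul, zero_mul, ← sum_filter]
    exact (sum_subtype _ (by simp) fun x => ψ (x * g)).symm
  have a2 : ∑ a : Z, ψ (a * w) = ∑ a : Z, ψ (a * 1) :=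
    Fintype.sum_equiv (Equiv.mulRight ⟨w, hwZ⟩) _ _ fun a => by simp
  rw [a1, a1] at a2
  rw [a1, (mul_eq_mul_left_iff.mp a2).resolve_left hw, zero_mul]

theorem normSq_sum_le {ι : Type*} [Fintype ι] (f : ι → ℂ) :
    Complex.normSq (∑ i, f i) ≤ Fintype.card ι * ∑ i, Complex.normSq (f i) := by
  simp only [Complex.normSq_eq_norm_sq]
  exact (pow_le_pow_left₀ (norm_nonneg _) (norm_sum_le _ _) 2).trans sq_sum_le_card_mul_sum_sq

theorem norm_lower {P K Z : Subgroup X} [Z.Normal] [Fintype P] [Fintype Z] (hPK : P ≤ K)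
    (hZ : Z ≤ P) (hb : ∀ g ∉ K, ∃ β : Z → Z, Function.Bijective β ∧
      ∀ b : Z, (β b : X) = g⁻¹ * (b : X)⁻¹ * g * b)
    {φ : X → ℂ} (hφ : IsCharacter X φ) {w : X} (hwZ : w ∈ Z) (hw : φ w ≠ φ 1) {m : ℕ}
    (hm : ∑ a : Z, φ a = Nat.card Z * m) :
    (K.index * Nat.card P + Nat.card Z * m ^ 2 : ℝ) ≤ ∑ u : P, Complex.normSq (φ u) := by
  classical
  have := Fintype.ofFinite K
  obtain ⟨ψ, γ, hψ, hγ, rfl, h1⟩ := exists_part hφ hw
  have hψc := H5.isCharacter_of_isIrr hψ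
  have h2 := sum_normal_zero hψ Z hwZ h1
  have h3 : ∀ g ∉ K, ψ g = 0 := fun g hg => by
    obtain ⟨β, hβ, e⟩ := hb g hg
    have a1 := h2 g
    rw [← hβ.sum_comp fun a : Z => ψ (a * g), sum_congr rfl (g := fun _ => ψ g) fun b _ => by
      rw [H5.isCharacter_mul_comm hψc, e, ← H5.isClassFunction_of_isIrr hψ g (b : X)⁻¹]
      congr 1
      group, sum_const, nsmul_eq_mul] at a1
    exact (mul_eq_zero.mp a1).resolve_left (by simp)
  have h4 : ∑ g : K, ψ g * conj (ψ g) = Nat.card X := by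
    have a1 := H5.classInner_irr_self hψ
    rw [classInner, inv_mul_eq_one₀ H5.natCard_ne_zero] at a1
    rw [a1, ← sum_subtype (univ.filter (· ∈ K)) (by simp) fun g => ψ g * conj (ψ g), sum_filter]
    refine sum_congr rfl fun g _ => ?_
    split_ifs with hg
    · rfl
    · rw [h3 g hg, zero_mul]
  have h5 := inner_mono (inclusion hPK) (H5.isCharacter_restrict (H5.isCharacter_mul hψc
    (H5.isCharacter_of_isIrr (H5.isIrrCharacter_conj hψ))) K)
  simp only [Pi.mul_apply, h4, coe_inclusion] at h5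
  rw [← K.card_mul_index, Nat.cast_mul, inv_mul_cancel_left₀ H5.natCard_ne_zero] at h5
  simp only [Complex.mul_conj, ← Complex.ofReal_sum, ← Complex.ofReal_natCast,
    ← Complex.ofReal_inv, ← Complex.ofReal_mul, Complex.ofReal_re] at h5
  have hP0 : (0 : ℝ) < Nat.card P := by exact_mod_cast Nat.card_pos
  have hZ0 : (0 : ℝ) < Nat.card Z := by exact_mod_cast Nat.card_pos
  rw [le_inv_mul_iff₀ hP0] at h5
  obtain ⟨k, hk⟩ := H5.exists_nat_classInner (H5.isCharacter_restrict hψc P)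
    (H5.isCharacter_restrict hγ P)
  rw [classInner, inv_mul_eq_iff_eq_mul₀ H5.natCard_ne_zero] at hk
  have h6 : 0 ≤ ∑ u : P, (ψ u * conj (γ u)).re := by
    rw [← Complex.re_sum, hk, ← Nat.cast_mul, Complex.natCast_re]
    positivity
  have h7 : ∑ a : Z, γ a = Nat.card Z * m := by
    have a1 := h2 1
    simp only [mul_one] at a1
    simpa only [Pi.add_apply, sum_add_distrib, a1, zero_add] using hm
  have h8 := normSq_sum_le fun a : Z => γ a
  rw [h7, ← Nat.cast_mul, Complex.normSq_natCast, ← Nat.card_eq_fintype_card] at h8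
  have h9 : ∑ a : Z, Complex.normSq (γ a) ≤ ∑ u : P, Complex.normSq (γ u) := by
    rw [sum_sh Z fun x => Complex.normSq (γ x), sum_sh P fun x => Complex.normSq (γ x)]
    exact add_le_add_right (sum_le_sum_of_subset_of_nonneg
      (fun x hx => mem_sh.mpr ⟨hZ (mem_sh.mp hx).1, (mem_sh.mp hx).2⟩)
      fun _ _ _ => Complex.normSq_nonneg _) _
  have h10 : (Nat.card Z * m ^ 2 : ℝ) ≤ ∑ a : Z, Complex.normSq (γ a) :=
    le_of_mul_le_mul_left (by push_cast at h8; linarith) hZ0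
  simp only [Pi.add_apply, Complex.normSq_add, sum_add_distrib, ← mul_sum]
  linarith

variable {G : Type*} [Group G] [Fintype G] {p : ℕ} [hp : Fact p.Prime]

theorem Hyp.deg_bound {P : Sylow p G} (h : Hyp P) {M : Ideal AlgInt} [M.IsMaximal]
    (hM : IsPModular p M) {χ : IrrCharacter G} (hχ : χ ∈ principalBlock M G) {w : G}
    (hwZ : w ∈ Z0 p (P : Subgroup G)) (hw : (χ : G → ℂ) w ≠ (χ : G → ℂ) 1) {m d : ℕ}
    (hd : (χ : G → ℂ) 1 = d)
    (hm : d + ∑ a ∈ sh (Z0 p (P : Subgroup G)), (χ : G → ℂ) a =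
      Nat.card (Z0 p (P : Subgroup G)) * m) :
    Nat.card (Z0 p (P : Subgroup G)) * m ^ 2 ≤ d ^ 2 := by
  classical
  set N := normalizer ((P : Subgroup G) : Set G)
  have hZN : Z0 p (P : Subgroup G) ≤ N := Z0_le.trans le_normalizer
  have : ((Z0 p (P : Subgroup G)).subgroupOf N).Normal := ⟨fun a ha g => Z0_conj g.2 ha⟩
  let eZ := subgroupOfEquivOfLe hZN
  let eP := subgroupOfEquivOfLe (le_normalizer (H := (P : Subgroup G)))
  have h1 := norm_lower (P := (P : Subgroup G).subgroupOf N) (K := (KK (P : Subgroup G)).subgroupOf N)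
    (Z := (Z0 p (P : Subgroup G)).subgroupOf N) (comap_mono le_KK) (comap_mono Z0_le)
    (fun g hg => ?_) (H5.isCharacter_restrict (H5.isCharacter_of_isIrr χ.2) N)
    (w := ⟨w, hZN hwZ⟩) hwZ hw (m := m) ?_
  · rw [Nat.card_congr eZ.toEquiv, Nat.card_congr eP.toEquiv,
      Fintype.sum_equiv eP.toEquiv (fun u => Complex.normSq ((χ : G → ℂ) ((u : N) : G)))
        (fun u => Complex.normSq ((χ : G → ℂ) u)) (fun _ => rfl),
      sum_sh (P : Subgroup G) fun u => Complex.normSq ((χ : G → ℂ) u), hd,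
      Complex.normSq_natCast] at h1
    have h2 := h.bessel hM hχ
    have h3 : (Nat.card (Z0 p (P : Subgroup G)) * m ^ 2 : ℝ) ≤ d ^ 2 := by
      change (ee (P : Subgroup G) * Nat.card P + _ : ℝ) ≤ _ at h1
      nlinarith
    exact_mod_cast h3
  · have hb := h.bij g.2 hg (Z0_le (p := p)) fun a ha => by
      simpa using Z0_conj (inv_mem g.2) ha
    exact ⟨_, eZ.symm.bijective.comp (hb.comp eZ.bijective), fun b => rfl⟩
  · rw [Nat.card_congr eZ.toEquiv,
      Fintype.sum_equiv eZ.toEquiv (fun u => (χ : G → ℂ) ((u : N) : G)) (fun u => (χ : G → ℂ) u)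
        (fun _ => rfl),
      sum_sh (Z0 p (P : Subgroup G)) fun u => (χ : G → ℂ) u, hd, hm]

end Cfsg.Agent.H87.Gz
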