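import Cfsg.Agent.H87.GzA
import Cfsg.Agent.H8.ClsSz
import Cfsg.Agent.H1.Product
import Cfsg.Agent.H1.Frattini
import Cfsg.Agent.H49.Core
import Cfsg.Agent.H95.Kazarin
import Cfsg.Agent.S4207

/-!
`q`-Baer groups: one prime serves for all `q`-elements.
-/

set_option autoImplicit false

namespace Cfsg.Agent.H87.Qb

open Cfsg Subgroup H83 H34 Pointwise

variable {G : Type*} [Group G] [Finite G]

theorem pCore_le_cent {r : ℕ} [Fact r.Prime] {x : G} (h : ¬ r ∣ cs(x)) :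
    pCore r G ≤ centralizer {x} := by
  obtain ⟨P, hP⟩ := not_dvd_index_iff.mp h
  exact (IsPGroup.le_sylow_of_normal H44.pCore_isPGroup P).trans hP

/-- The left stabilizer of a conjugacy class. -/
def lstab (x : G) : Subgroup G := MulAction.stabilizer G {z | IsConj x z}

omit [Finite G] in
theorem conj_of_lstab {x d z : G} (hd : d ∈ lstab x) (hz : IsConj x z) : IsConj x (d * z) := by
  have : d * z ∈ d • {z | IsConj x z} := Set.smul_mem_smul_set hz
  rwa [MulAction.mem_stabilizer_iff.mp hd] at this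

theorem mem_lstab {x d : G} (h : ∀ z, IsConj x z → IsConj x (d * z)) : d ∈ lstab x :=
  (MulAction.mem_stabilizer_set' (Set.toFinite _)).mpr h

theorem lstab_normal (x : G) : (lstab x).Normal := ⟨fun d hd g => mem_lstab fun z hz => by
  have h1 := conj_of_lstab hd (hz.trans (isConj_iff.mpr ⟨g⁻¹, rfl⟩))
  exact h1.trans (isConj_iff.mpr ⟨g, by group⟩)⟩

omit [Finite G] in
theorem card_lstab_dvd (x : G) : Nat.card (lstab x) ∣ cs(x) := by
  let _ : MulAction (lstab x) {z // IsConj x z} :=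
    { smul := fun d z => ⟨d * z, conj_of_lstab d.2 z.2⟩
      one_smul := fun z => Subtype.ext (one_mul _)
      mul_smul := fun a b z => Subtype.ext (mul_assoc _ _ _) }
  have e := MulAction.selfEquivOrbitsQuotientProd (G := lstab x) (X := {z // IsConj x z})
    fun z => eq_bot_iff.mpr fun d hd => mem_bot.mpr (Subtype.ext
      (mul_eq_right.mp (congrArg Subtype.val hd :)))
  rw [← card_isConj, Nat.card_congr e, Nat.card_prod]
  exact dvd_mul_left _ _

theorem quot_mem {p a : ℕ} [Fact p.Prime] {x y y' : G} (hcop : cs(x).Coprime cs(y))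
    (hle : cs(y * x) ≤ cs(x)) (ha : cs(x) = p ^ a) (hy : IsConj y y') : y⁻¹ * y' ∈ pCore p G := by
  have h1 : ∀ x' y', IsConj x x' → IsConj y y' → IsConj (y * x) (y' * x') := fun x' y' hx hy => by
    obtain ⟨h, rfl⟩ := isConj_iff.mp hx
    obtain ⟨g, rfl⟩ := isConj_iff.mp hy
    obtain ⟨c, hc, e, he, hce⟩ := H1.mul_eq_of_coprime _ _ hcop (h⁻¹ * g)
    have e1 : g = h * c * e := by rw [mul_assoc, ← hce]; group
    refine isConj_iff.mpr ⟨h * c, ?_⟩
    calc _ = h * c * (e * y * e⁻¹) * c⁻¹ * (c * x * c⁻¹) * h⁻¹ := by rw [mem_cent'.mp he]; group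
      _ = _ := by rw [mem_cent'.mp hc, e1]; group
  let f : {z // IsConj x z} → {z // IsConj (y * x) z} := fun z => ⟨y * z, h1 _ _ z.2 (.refl y)⟩
  have hf : Function.Injective f := fun a b e =>
    Subtype.ext (mul_left_cancel (congrArg Subtype.val e :))
  have hb := (Nat.bijective_iff_injective_and_card f).mpr ⟨hf, le_antisymm
    (Nat.card_le_card_of_injective f hf) (by rwa [card_isConj, card_isConj])⟩
  obtain ⟨j, -, hj⟩ := (Nat.dvd_prime_pow Fact.out).mp (ha ▸ card_lstab_dvd x)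
  refine H44.le_pCore (lstab_normal x) (IsPGroup.of_card hj) (mem_lstab fun z hz => ?_)
  obtain ⟨w, hw⟩ := hb.2 ⟨_, h1 z y' hz hy⟩
  have e : y * w = y' * z := congrArg Subtype.val hw
  rw [mul_assoc, ← e, inv_mul_cancel_left]
  exact w.2

variable {q : ℕ} [hq : Fact q.Prime]

theorem aux1 {p a : ℕ} (hp : p.Prime) {x y : G} (hcop : cs(x).Coprime cs(y))
    (hle : cs(y * x) ≤ cs(x)) (ha : cs(x) = p ^ a) (hx : x ∉ center G) (hy : y ∉ center G)
    (hyq : ∃ k, orderOf y = q ^ k) : p = q ∧ y ∈ pCore q G := by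
  have := Fact.mk hp
  have h1 : ¬ p ∣ cs(y) := fun hd => hx (cs_eq_one_iff.mp (by
    rcases a with _ | a
    · simpa using ha
    · exact absurd (Nat.eq_one_of_dvd_coprimes hcop (ha ▸ dvd_pow_self p a.succ_ne_zero) hd)
        hp.ne_one))
  have h2 := fun g : G => quot_mem hcop hle ha (isConj_iff.mpr ⟨g, rfl⟩)
  have hpq : p = q := by
    by_contra hne
    refine hy (mem_center_iff.mpr fun g => ?_)
    have c1 : Commute y (y⁻¹ * (g * y * g⁻¹)) := (mem_cent.mp (pCore_le_cent h1 (h2 g))).symm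
    have c2 : Commute y⁻¹ (g * y * g⁻¹) := by
      simpa using ((Commute.refl y).mul_right c1).inv_left
    obtain ⟨k, hk⟩ := H33.pElt_mul hq.out c2 (by simpa using hyq) (by simpa [Gz.orderOf_cj] using hyq)
    have c3 := H33.eq_one_of_pElt_of_regular (pElt_of_le H44.pCore_isPGroup (h2 g)) fun hd =>
      hne ((Nat.prime_dvd_prime_iff_eq hp hq.out).mp (hp.dvd_of_dvd_pow (hk ▸ hd)))
    rw [inv_mul_eq_one, eq_mul_inv_iff_mul_eq] at c3
    exact c3.symm
  subst hpq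
  refine ⟨rfl, ?_⟩
  obtain ⟨k, hk⟩ := hyq
  obtain ⟨j, -, hj⟩ := (Nat.dvd_prime_pow hp).mp
    (hk ▸ orderOf_map_dvd (QuotientGroup.mk' (pCore p G)) y)
  have h3 := H8.mem_pCore_of_cs_pow hj (a := 0) (cs_eq_one_iff.mpr (mem_center_iff.mpr fun g => by
    obtain ⟨g, rfl⟩ := QuotientGroup.mk'_surjective _ g
    have := QuotientGroup.eq.mpr (h2 g)
    rw [← mul_inv_eq_iff_eq_mul]
    exact this.symm))
  rw [H44.pCore_quotient_pCore] at h3
  exact (QuotientGroup.eq_one_iff y).mp h3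

/-- The hypothesis. -/
def Baer (q : ℕ) (G : Type*) [Group G] : Prop :=
  ∀ x : G, (∃ k : ℕ, orderOf x = q ^ k) → ∃ r a : ℕ, r.Prime ∧ cs(x) = r ^ a

theorem Baer.pair (h : Baer q G) {p r a b : ℕ} (hp : p.Prime) (hr : r.Prime) (hne : p ≠ r)
    {x y : G} (hc : Commute x y) (ha : cs(x) = p ^ a) (hb : cs(y) = r ^ b) (hx : x ∉ center G)
    (hy : y ∉ center G) (hxq : ∃ k, orderOf x = q ^ k) (hyq : ∃ k, orderOf y = q ^ k) :
    (p = q ∧ y ∈ pCore q G) ∨ (r = q ∧ x ∈ pCore q G) := by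
  have hcop : cs(x).Coprime cs(y) := by
    rw [ha, hb]; exact Nat.coprime_pow_primes a b hp hr hne
  obtain ⟨s, c, hs, hc'⟩ := h _ (H33.pElt_mul hq.out hc hxq hyq)
  have h1 : s ^ c ∣ p ^ a * r ^ b := by
    rw [← hc', ← ha, ← hb, ← H1.index_inf_of_coprime _ _ hcop]
    exact index_dvd_of_le fun g hg => mem_cent.mpr
      (Commute.mul_right (mem_cent.mp hg.1) (mem_cent.mp hg.2))
  by_cases hsr : s = r
  · subst hsr
    refine Or.inr (aux1 hr hcop.symm (Nat.le_of_dvd (cs_pos _) ?_) hb hy hx hxq)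
    rw [hc', hb]
    exact (Nat.coprime_pow_primes c a hs hp hne.symm).dvd_of_dvd_mul_left h1
  · refine Or.inl (aux1 hp hcop (Nat.le_of_dvd (cs_pos _) ?_) ha hx hy hyq)
    rw [← hc.eq, hc', ha]
    exact (Nat.coprime_pow_primes c b hs hr hsr).dvd_of_dvd_mul_right h1

omit hq [Finite G] in
theorem not_dvd_pow {p r a : ℕ} (hp : p.Prime) (hr : r.Prime) (h : p ≠ r) : ¬ r ∣ p ^ a :=
  fun e => h ((Nat.prime_dvd_prime_iff_eq hr hp).mp (hr.dvd_of_dvd_pow e)).symm

theorem Baer.eq_of_ne (h : Baer q G) {p r a b : ℕ} (hp : p.Prime) (hr : r.Prime) (hpq : p ≠ q)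
    (hrq : r ≠ q) {x y : G} (ha : cs(x) = p ^ a) (hb : cs(y) = r ^ b) (hx : x ∉ center G)
    (hy : y ∉ center G) (hxq : ∃ k, orderOf x = q ^ k) (hyq : ∃ k, orderOf y = q ^ k) :
    p = r := by
  by_contra hne
  obtain ⟨Q⟩ : Nonempty (Sylow q G) := inferInstance
  obtain ⟨g, hg⟩ := H8.exists_conj_mem_cent_sylow Q (ha ▸ not_dvd_pow hp hq.out hpq)
  obtain ⟨k, hk⟩ := H8.exists_conj_mem_cent_sylow Q (hb ▸ not_dvd_pow hr hq.out hrq)
  have hxq' : ∃ j, orderOf (g * x * g⁻¹) = q ^ j := by rwa [Gz.orderOf_cj]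
  have h1 := Gz.Hyp.mem_of_pElt (centralizer_le_normalizer _ hg) hxq'
  rcases h.pair hp hr hne (hk _ h1) ((cs_conj g x).trans ha) ((cs_conj k y).trans hb)
    (fun e => hx (cs_eq_one_iff.mp ((cs_conj g x).symm.trans (cs_eq_one_iff.mpr e))))
    (fun e => hy (cs_eq_one_iff.mp ((cs_conj k y).symm.trans (cs_eq_one_iff.mpr e)))) hxq'
    (by rwa [Gz.orderOf_cj]) with e | e
  exacts [hpq e.1, hrq e.1]

theorem sup_cent (Q : Sylow q G) [(Q : Subgroup G).Normal] {Z : Subgroup G}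
    (hZ : ¬ (Q : Subgroup G) ≤ Z) (h : ∀ z ∈ (Q : Subgroup G), z ∉ Z → ∃ a, cs(z) = q ^ a) :
    (Q : Subgroup G) ⊔ centralizer ((Q : Subgroup G) : Set G) = ⊤ := by
  let φ : G →* MulAut (Q : Subgroup G) := MulAut.conjNormal
  have h1 : ∀ g (z : (Q : Subgroup G)), φ g z * z⁻¹ ∈ commutator (Q : Subgroup G) := fun g => by
    let π := Abelianization.of (G := (Q : Subgroup G))
    have a1 : ∀ z : (Q : Subgroup G), (z : G) ∉ Z →
        z ∈ (π.comp (φ g).toMonoidHom).eqLocus π := fun z hz => by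
      obtain ⟨a, ha⟩ := h z z.2 hz
      obtain ⟨u, hu, c, hc, rfl⟩ := H1.mul_eq_of_coprime (Q : Subgroup G) (centralizer {(z : G)})
        (ha ▸ ((hq.out.coprime_iff_not_dvd.mpr Q.not_dvd_index).symm.pow_right a)) g
      have e : φ (u * c) z = ⟨u, hu⟩ * z * ⟨u, hu⟩⁻¹ := Subtype.ext (by
        change u * c * z * (u * c)⁻¹ = u * z * u⁻¹
        calc _ = u * (c * z * c⁻¹) * u⁻¹ := by group
          _ = _ := by rw [mem_cent'.mp hc])
      change π (φ (u * c) z) = π z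
      rw [e, map_mul, map_mul, map_inv, mul_inv_cancel_comm]
    obtain ⟨w, hw, hwZ⟩ := SetLike.not_le_iff_exists.mp hZ
    intro z
    have a2 : z ∈ (π.comp (φ g).toMonoidHom).eqLocus π := by
      by_cases hz : (z : G) ∈ Z
      · exact (mul_mem_cancel_right (a1 ⟨w, hw⟩ hwZ)).mp
          (a1 _ fun e => hwZ ((mul_mem_cancel_left hz).mp e))
      · exact a1 z hz
    rw [← Abelianization.ker_of, MonoidHom.mem_ker, map_mul, map_inv, mul_inv_eq_one]
    exact a2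
  obtain ⟨n, hn⟩ := Q.isPGroup'.exists_card_eq
  obtain ⟨r, -, hr⟩ := (Nat.dvd_prime_pow hq.out).mp
    (hn ▸ (frattini (Q : Subgroup G)).index_dvd_card)
  have h2 := S4207.result hn hr φ.range (by
    rintro _ ⟨g, rfl⟩ z
    exact H1.commutator_le_frattini Q.isPGroup' (h1 g z))
  rw [← index_ker] at h2
  refine top_le_iff.mp fun g _ => ?_
  obtain ⟨u, hu, c, hc, rfl⟩ := H1.mul_eq_of_coprime (Q : Subgroup G) φ.ker
    (((hq.out.coprime_iff_not_dvd.mpr Q.not_dvd_index).symm.pow_right _).coprime_dvd_right h2) g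
  refine mul_mem (mem_sup_left hu) (mem_sup_right fun z hz => ?_)
  have : c * z * c⁻¹ = z := congrArg Subtype.val (DFunLike.congr_fun hc (⟨z, hz⟩ : (Q : Subgroup G)))
  exact (mul_inv_eq_iff_eq_mul.mp this).symm

theorem Baer.not_mixed (h : Baer q G) {r a b : ℕ} (hr : r.Prime) (hrq : r ≠ q) {x y : G}
    (ha : cs(x) = q ^ a) (hb : cs(y) = r ^ b) (hx : x ∉ center G) (hy : y ∉ center G)
    (hxq : ∃ k, orderOf x = q ^ k) (hyq : ∃ k, orderOf y = q ^ k) : False := by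
  obtain ⟨Q⟩ : Nonempty (Sylow q G) := inferInstance
  have hxO := H8.mem_pCore_of_cs_pow hxq.choose_spec ha
  have h1 : (Q : Subgroup G) = pCore q G := by
    refine le_antisymm (fun z hz => ?_) (IsPGroup.le_sylow_of_normal H44.pCore_isPGroup Q)
    have hzq := pElt_of_le Q.isPGroup' hz
    by_cases hzc : z ∈ center G
    · exact H8.mem_pCore_of_cs_pow hzq.choose_spec (a := 0) (cs_eq_one_iff.mpr hzc)
    obtain ⟨s, c, hs, hc⟩ := h z hzq
    by_cases hsq : s = q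
    · exact H8.mem_pCore_of_cs_pow hzq.choose_spec (hsq ▸ hc)
    rcases h.pair hq.out hs (Ne.symm hsq) (mem_cent.mp (pCore_le_cent
      (hc ▸ not_dvd_pow hs hq.out hsq) hxO)) ha hc hx hzc hxq hzq with e | e
    exacts [e.2, absurd e.1 hsq]
  have : (Q : Subgroup G).Normal := h1 ▸ inferInstance
  have h2 := sup_cent Q (Z := centralizer ((Q : Subgroup G) : Set G)) (fun e => ?_) fun z hz hZ => ?_
  · have a1 : y ∈ (Q : Subgroup G) :=
      Gz.Hyp.mem_of_pElt (by rw [normalizer_eq_top]; trivial) hyq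
    refine hy (cs_eq_one_iff.mp (index_eq_one.mpr (top_le_iff.mp (h2 ▸ sup_le ?_ ?_))))
    · exact h1 ▸ pCore_le_cent (hb ▸ not_dvd_pow hr hq.out hrq)
    · exact centralizer_le (Set.singleton_subset_iff.mpr a1)
  · refine hx (cs_eq_one_iff.mp ?_)
    rcases a with _ | a
    · simpa using ha
    · exact absurd (ha ▸ dvd_pow_self q a.succ_ne_zero) (not_dvd_index_iff.mpr
        ⟨Q, fun u hu => mem_cent.mpr (e (h1 ▸ hxO) u hu)⟩)
  · obtain ⟨s, c, hs, hc⟩ := h z (pElt_of_le Q.isPGroup' hz)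
    by_cases hsq : s = q
    · exact ⟨c, hsq ▸ hc⟩
    · exact absurd (fun u hu => mem_cent.mp (pCore_le_cent (hc ▸ not_dvd_pow hs hq.out hsq)
        (h1 ▸ hu))) hZ

theorem Baer.exists_prime (h : Baer q G) : ∃ p : ℕ, p.Prime ∧
    ∀ x : G, (∃ k : ℕ, orderOf x = q ^ k) → ∃ a : ℕ, cs(x) = p ^ a := by
  by_cases h0 : ∀ x : G, (∃ k : ℕ, orderOf x = q ^ k) → x ∈ center G
  · exact ⟨q, hq.out, fun x hx => ⟨0, cs_eq_one_iff.mpr (h0 x hx)⟩⟩
  push Not at h0
  obtain ⟨x, hxq, hx⟩ := h0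
  obtain ⟨p, a, hp, ha⟩ := h x hxq
  refine ⟨p, hp, fun y hyq => ?_⟩
  by_cases hy : y ∈ center G
  · exact ⟨0, cs_eq_one_iff.mpr hy⟩
  obtain ⟨r, b, hr, hb⟩ := h y hyq
  refine ⟨b, hb.trans (congrArg (· ^ b) ?_)⟩
  by_cases hpq : p = q <;> by_cases hrq : r = q
  · rw [hpq, hrq]
  · exact (h.not_mixed hr hrq (hpq ▸ ha) hb hx hy hxq hyq).elim
  · exact (h.not_mixed hp hpq (hrq ▸ hb) ha hy hx hyq hxq).elim
  · exact h.eq_of_ne hr hp hrq hpq hb ha hy hx hyq hxq

theorem case_eq (Q : Sylow q G) (hQ : q ∣ Nat.card G)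
    (h : ∀ x : G, (∃ k : ℕ, orderOf x = q ^ k) → ∃ a : ℕ, cs(x) = q ^ a) :
    (Q : Subgroup G).Normal ∧ ∃ N : Subgroup G, N.Normal ∧ N.IsComplement' (Q : Subgroup G) := by
  have h1 : (Q : Subgroup G) = pCore q G :=
    le_antisymm (fun z hz => H8.mem_pCore_of_cs_pow (pElt_of_le Q.isPGroup' hz).choose_spec
      (h z (pElt_of_le Q.isPGroup' hz)).choose_spec)
      (IsPGroup.le_sylow_of_normal H44.pCore_isPGroup Q)
  have : (Q : Subgroup G).Normal := h1 ▸ inferInstance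
  exact ⟨this, (H3.hasNormalPComplement_iff_sylow Q).mp (H8.hasNormalPComplement_of_sup_cent Q
    (sup_cent Q (Z := ⊥) (fun e => Q.ne_bot_of_dvd_card hQ (le_bot_iff.mp e))
      fun z hz _ => h z (pElt_of_le Q.isPGroup' hz)))⟩

theorem mem_pCore_of_fitting {x : G} (hx : x ∈ fittingSubgroup G)
    (hxq : ∃ k, orderOf x = q ^ k) : x ∈ pCore q G := by
  obtain ⟨a, ha, b, hb, rfl⟩ :=
    mem_sup_of_normal_right.mp (H44.fitting_le_pCore_sup_pPrimeCore (p := q) hx)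
  obtain ⟨k, hk⟩ := hxq
  obtain ⟨j, -, hj⟩ := (Nat.dvd_prime_pow hq.out).mp
    (hk ▸ orderOf_map_dvd (QuotientGroup.mk' (pCore q G)) (a * b))
  refine (QuotientGroup.eq_one_iff _).mp (H33.eq_one_of_pElt_of_regular ⟨j, hj⟩ fun hd => ?_)
  rw [QuotientGroup.mk_mul, (QuotientGroup.eq_one_iff a).mpr ha, one_mul] at hd
  exact H33.not_dvd_card_pPrimeCore hq.out
    ((hd.trans (orderOf_map_dvd (QuotientGroup.mk' _) b)).trans (Subgroup.orderOf_dvd_natCard _ hb))

theorem mem_pCore_of_bot {p a : ℕ} (hp : p.Prime) (hO : pCore p G = ⊥) {x : G}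
    (ha : cs(x) = p ^ a) (hxq : ∃ k, orderOf x = q ^ k) : x ∈ pCore q G := by
  have h1 : fittingSubgroup G ≤ centralizer {x} := by
    rw [H44.fitting_eq_iSup_pCore]
    refine iSup_le fun r => ?_
    have hr := Nat.prime_of_mem_primeFactors r.2
    have := Fact.mk hr
    by_cases e : p = r
    · rw [← e, hO]; exact bot_le
    · exact pCore_le_cent (ha ▸ not_dvd_pow hp hr e)
  have h2 : fittingOf (H44.solRad G) ≤ fittingSubgroup G :=
    H44.le_fitting (H44.fittingOf_normal _) (H49.fittingOf_nil _)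
  exact mem_pCore_of_fitting (h2 (H49.cent_fittingOf_le H44.solRad_isSolvable
    ⟨H95.kazarin hp G x a ha, fun y hy => mem_cent.mp (h1 (h2 hy))⟩)) hxq

theorem case_ne {p : ℕ} (hp : p.Prime) (hpq : p ≠ q) (Q : Sylow q G)
    (h : ∀ x : G, (∃ k : ℕ, orderOf x = q ^ k) → ∃ a : ℕ, cs(x) = p ^ a) :
    IsMulCommutative (Q : Subgroup G) ∧ (pCore p G ⊔ (Q : Subgroup G)).Normal := by
  have := Fact.mk hp
  set π := QuotientGroup.mk' (pCore p G)
  have hπ := QuotientGroup.mk'_surjective (pCore p G)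
  have h1 : ∀ x ∈ (Q : Subgroup G), ∃ j, cs(π x) = p ^ j := fun x hx => by
    obtain ⟨a, ha⟩ := h x (pElt_of_le Q.isPGroup' hx)
    obtain ⟨j, -, hj⟩ := (Nat.dvd_prime_pow hp).mp (ha ▸ cs_map_dvd π hπ x)
    exact ⟨j, hj⟩
  have h2 : ∀ x ∈ (Q : Subgroup G), π x ∈ pCore q _ := fun x hx =>
    mem_pCore_of_bot hp H44.pCore_quotient_pCore (h1 x hx).choose_spec
      (pElt_of_le (Q.isPGroup'.map π) ⟨x, hx, rfl⟩)
  have h3 : (Q : Subgroup G).map π = pCore q _ := le_antisymm (map_le_iff_le_comap.mpr h2)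
    (IsPGroup.le_sylow_of_normal H44.pCore_isPGroup (Q.mapSurjective hπ))
  refine ⟨⟨⟨fun x y => Subtype.ext ?_⟩⟩, ?_⟩
  · have a1 := mem_cent.mp (pCore_le_cent ((h1 y y.2).choose_spec ▸ not_dvd_pow hp hq.out hpq)
      (h2 x x.2))
    rw [← map_mul, ← map_mul] at a1
    have a2 := QuotientGroup.eq.mp a1
    obtain ⟨k, hk⟩ := pElt_of_le Q.isPGroup' (mul_mem (inv_mem (x * y).2) (y * x).2)
    exact inv_mul_eq_one.mp (H33.eq_one_of_pElt_of_regular (pElt_of_le H44.pCore_isPGroup a2)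
      fun hd => not_dvd_pow hq.out hp (Ne.symm hpq) (hk ▸ hd))
  · have a1 := comap_map_eq π (Q : Subgroup G)
    rw [QuotientGroup.ker_mk', h3, sup_comm] at a1
    exact a1 ▸ inferInstance

end Cfsg.Agent.H87.Qb
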