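import Mathlib

/-!
`q`-Baer groups: matrix lemmas.
-/

set_option autoImplicit false

namespace Cfsg.Agent.H87.Qb

open Matrix Polynomial

variable {q n : ℕ} [hq : Fact q.Prime]

theorem unip (hn : n ≤ 2) (M : Matrix (Fin n) (Fin n) (ZMod q)) (hd : M.det = 1)
    {v : Fin n → ZMod q} (hv : v ≠ 0) (h : M *ᵥ v = v) : M ^ q = 1 := by
  have h1 : (M - 1).det = 0 := exists_mulVec_eq_zero_iff.mp ⟨v, hv, by simp [sub_mulVec, h]⟩
  have h2 : (M - 1) * (M - 1) = 0 := by
    interval_cases n
    · exact Subsingleton.elim _ _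
    · ext i j
      fin_cases i; fin_cases j
      simp only [det_fin_one] at hd
      simp [Matrix.mul_apply, hd]
    · simp only [det_fin_two, Matrix.sub_apply, one_apply_eq, one_apply_ne (zero_ne_one' (Fin 2)),
        one_apply_ne (zero_ne_one' (Fin 2)).symm] at hd h1
      ext i j
      fin_cases i <;> fin_cases j <;> simp [Matrix.mul_apply, Fin.sum_univ_two]
      · linear_combination (M 0 0 - 1) * (hd - h1) - h1
      · linear_combination (M 0 1) * (hd - h1)
      · linear_combination (M 1 0) * (hd - h1)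
      · linear_combination (M 1 1 - 1) * (hd - h1) - h1
  have h3 : ∀ k : ℕ, (1 + (M - 1)) ^ k = 1 + k • (M - 1) := fun k => by
    induction k with
    | zero => simp
    | succ k ih =>
      rw [pow_succ, ih, mul_add, mul_one, add_mul, one_mul, smul_mul_assoc, h2, succ_nsmul,
        smul_zero, add_zero, add_assoc]
  have h4 := h3 q
  rwa [add_sub_cancel, ← Nat.cast_smul_eq_nsmul (ZMod q), ZMod.natCast_self, zero_smul,
    add_zero] at h4

theorem card_fix_le {R : Type*} [Field R] [Finite R] {m : ℕ} (hm : 1 < m) :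
    Nat.card {r : R // r ^ m = r} ≤ m := by
  classical
  have := Fintype.ofFinite R
  rw [Nat.card_eq_fintype_card, Fintype.card_subtype]
  refine (card_le_degree_of_subset_roots fun r hr => ?_).trans
    (FiniteField.X_pow_card_sub_X_natDegree_eq R hm).le
  rw [mem_roots (FiniteField.X_pow_card_sub_X_ne_zero R hm)]
  simpa [sub_eq_zero] using hr

theorem frob_sq {R : Type*} [Field R] [Finite R] [Algebra (ZMod q) R] (hq2 : q ≠ 2)
    (σ : R ≃ₐ[ZMod q] R) {x i : R} {M : ℕ} (hx : x ^ 2 ^ (M + 1) = 1) (h2 : σ (σ x) = x)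
    (hi : i ^ 4 = 1) (hσ : σ i ≠ i) : x ^ q ^ 2 = x := by
  obtain ⟨e, he⟩ := FiniteField.exists_forall_apply_eq_pow (ZMod q) q R σ
  rw [Nat.card_zmod] at he
  have ho := hq.out.odd_of_ne_two hq2
  have h1 : Odd e := by
    by_contra h
    obtain ⟨k, rfl⟩ := Nat.not_odd_iff_even.mp h
    obtain ⟨t, ht⟩ := ho.pow (n := k)
    refine hσ ?_
    rw [he, pow_add, ht, show (2 * t + 1) * (2 * t + 1) = 4 * (t * t + t) + 1 by ring, pow_succ,
      pow_mul, hi, one_pow, one_mul]
  have p1 : Function.IsPeriodicPt (fun r : R => r ^ q) (2 * e) x := by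
    change _ = x
    rw [pow_iterate]
    change x ^ q ^ (2 * e) = x
    rw [two_mul, pow_add, pow_mul, ← he, ← he, h2]
  have p2 : Function.IsPeriodicPt (fun r : R => r ^ q) (2 ^ M) x := by
    change _ = x
    have := Nat.ModEq.pow_totient (Nat.Coprime.pow_right (M + 1) (Nat.coprime_two_right.mpr ho))
    rw [Nat.totient_prime_pow_succ Nat.prime_two, Nat.add_one_sub_one, mul_one] at this
    rw [pow_iterate]
    exact (pow_eq_pow_of_modEq this hx).trans (pow_one x)
  have p3 := (p1.gcd p2).trans_dvd (n := 2) (((Nat.coprime_two_left.mpr h1).pow_left M).coprime_dvd_left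
    (Nat.gcd_dvd_right _ _) |>.dvd_of_dvd_mul_right (Nat.gcd_dvd_left _ _))
  have := p3.eq
  rwa [pow_iterate] at this

theorem field_bound (hq2 : q ≠ 2) {x y y' : Matrix (Fin n) (Fin n) (ZMod q)} (hy : y * y' = 1)
    (hy' : y' * y = 1) {M j t : ℕ} (hx : x ^ 2 ^ (M + 1) = 1) (hc : y' * x * y = x ^ j)
    (h2 : y * (y * x * y') * y' = x) (hi : (x ^ t) ^ 4 = 1) (hσ : y * x ^ t * y' ≠ x ^ t)
    (hirr : ∀ W : AddSubgroup (Fin n → ZMod q), (∀ v ∈ W, x *ᵥ v ∈ W) → W = ⊥ ∨ W = ⊤) :
    n ≤ 2 := by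
  classical
  by_contra hn
  have : Nonempty (Fin n) := ⟨⟨0, by omega⟩⟩
  set R := Subalgebra.centralizer (ZMod q) ({x} : Set (Matrix (Fin n) (Fin n) (ZMod q)))
  have hR : ∀ {r}, r ∈ R ↔ x * r = r * x := by simp [R, Subalgebra.mem_centralizer_iff]
  have inj : ∀ r ∈ R, r ≠ 0 → ∀ v, r *ᵥ v = 0 → v = 0 := fun r hr hr0 v hv => by
    rcases hirr (mulVecLin r).toAddMonoidHom.ker (fun w hw => by
      change r *ᵥ (x *ᵥ w) = 0
      rw [mulVec_mulVec, ← hR.mp hr, ← mulVec_mulVec, show r *ᵥ w = 0 from hw, mulVec_zero])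
      with h | h
    · exact AddSubgroup.mem_bot.mp (h ▸ hv)
    · exact absurd (ext_iff_mulVec.mpr fun w => by
        rw [zero_mulVec]; exact (h ▸ AddSubgroup.mem_top w :)) hr0
  have : NoZeroDivisors R := ⟨fun {a b} h => or_iff_not_imp_left.mpr fun ha =>
    Subtype.ext (ext_iff_mulVec.mpr fun v => by
      rw [ZeroMemClass.coe_zero, zero_mulVec]
      refine inj a a.2 (fun e => ha (Subtype.ext e)) _ ?_
      rw [mulVec_mulVec, show a.1 * b.1 = 0 from congrArg Subtype.val h, zero_mulVec])⟩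
  have := NoZeroDivisors.to_isDomain R
  let _ := (Finite.isDomain_to_isField R).toField
  let σ0 : R →ₐ[ZMod q] R :=
    { toFun := fun r => ⟨y * r * y', hR.mpr (by
        have h3 : Commute (x ^ j) r := Commute.pow_left (hR.mp r.2) j
        calc x * (y * r * y') = (y * y') * x * (y * r * y') := by rw [hy, one_mul]
          _ = y * ((y' * x * y) * r) * y' := by simp only [mul_assoc]
          _ = y * (r * (y' * x * y)) * y' := by rw [hc, h3.eq]
          _ = y * r * y' * x * (y * y') := by simp only [mul_assoc]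
          _ = _ := by rw [hy, mul_one])⟩
      map_one' := Subtype.ext (by simp [hy])
      map_mul' := fun a b => Subtype.ext (by
        change y * (a * b) * y' = y * a * y' * (y * b * y')
        calc _ = y * a * (y' * y) * b * y' := by rw [hy']; simp only [mul_assoc, one_mul]
          _ = _ := by simp only [mul_assoc])
      map_zero' := Subtype.ext (by simp)
      map_add' := fun a b => Subtype.ext (by simp [mul_add, add_mul])
      commutes' := fun c => Subtype.ext (by simp [Algebra.algebraMap_eq_smul_one, hy]) }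
  let σ := AlgEquiv.ofBijective σ0 (Finite.injective_iff_bijective.mp σ0.toRingHom.injective)
  let x' : R := ⟨x, hR.mpr rfl⟩
  have h4 : x' ^ q ^ 2 = x' := frob_sq hq2 σ (i := x' ^ t) (M := M) (Subtype.ext hx)
    (Subtype.ext h2) (Subtype.ext hi) fun e => hσ (congrArg Subtype.val e)
  have : CharP R q := (Algebra.charP_iff (ZMod q) R q).mp inferInstance
  let S := (iterateFrobenius R q 2).eqLocus (RingHom.id R)
  obtain ⟨v, hv⟩ := exists_ne (0 : Fin n → ZMod q)
  let f : S →+ (Fin n → ZMod q) :=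
    { toFun := fun r => ((r : R) : Matrix _ _ _) *ᵥ v
      map_zero' := zero_mulVec v
      map_add' := fun a b => add_mulVec _ _ v }
  rcases hirr f.range (by
    rintro _ ⟨r, rfl⟩
    exact ⟨⟨x', h4⟩ * r, (mulVec_mulVec v x _).symm⟩) with h | h
  · exact hv (AddSubgroup.mem_bot.mp (h ▸ ⟨1, one_mulVec v⟩))
  · have h5 := (Nat.card_le_card_of_surjective f (AddMonoidHom.range_eq_top.mp h)).trans
      (card_fix_le (R := R) (m := q ^ 2) (Nat.one_lt_pow two_ne_zero hq.out.one_lt))
    rw [Nat.card_fun, Nat.card_zmod, Nat.card_eq_fintype_card, Fintype.card_fin] at h5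
    exact hn ((Nat.pow_le_pow_iff_right hq.out.one_lt).mp h5)

end Cfsg.Agent.H87.Qb
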