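import Cfsg.Agent.H87.QbB
import Cfsg.Agent.H83.ClassSize
import Cfsg.Agent.H1.Product
import Cfsg.Agent.H84.Kulak
import Cfsg.Agent.S0112
import Cfsg.Agent.S0113

/-!
`q`-Baer groups: a perfect linear `q'`-group all of whose orbits have `2`-power length is trivial.
-/

set_option autoImplicit false

namespace Cfsg.Agent.H87.Qb

open Cfsg Subgroup Matrix H83

theorem two_group_data {P : Type*} [Group P] [Finite P] (hP : IsPGroup 2 P) (hnc : ¬ IsCyclic P)
    (h4 : ∀ U : Subgroup P, U.Normal → IsElementaryAbelian 2 U → Nat.card U ≠ 4) :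
    ∃ (a b : P) (M j t : ℕ), (zpowers a).index = 2 ∧ a ^ 2 ^ (M + 1) = 1 ∧ b⁻¹ * a * b = a ^ j ∧
      b * (b * a * b⁻¹) * b⁻¹ = a ∧ (a ^ t) ^ 4 = 1 ∧ b * a ^ t * b⁻¹ ≠ a ^ t := by
  obtain ⟨k, hk⟩ := hP.exists_card_eq
  have hk3 : 3 ≤ k := by
    by_contra! hlt
    interval_cases k
    · have := (Nat.card_eq_one_iff_unique.mp hk).1
      exact hnc inferInstance
    · exact hnc (isCyclic_of_prime_card (p := 2) hk)
    · have h1 := (not_isCyclic_iff_exponent_eq_prime Nat.prime_two hk).mp hnc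
      have h2 := IsPGroup.isMulCommutative_of_card_eq_prime_sq hk
      exact h4 ⊤ inferInstance ⟨inferInstance, fun a _ => h1 ▸ Monoid.pow_exponent_eq_one a⟩
        (card_top.trans hk)
  have h8 : 8 ≤ Nat.card P := hk ▸ Nat.pow_le_pow_right two_pos hk3
  obtain ⟨w, hw⟩ : ∃ w : P, Nat.card (centralizer ({w} : Set P)) ≤ 4 := by
    by_contra! H
    obtain ⟨U, h1, h2, h3⟩ := H84.exists_normal_four' hP hnc H
    exact h4 U h1 h2 h3
  have hwc : w ∉ center P := fun e => by
    rw [centralizer_eq_top_iff_subset.mpr (Set.singleton_subset_iff.mpr e), card_top] at hw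
    omega
  have : Nontrivial P := ⟨w, 1, fun e => hwc (e ▸ one_mem _)⟩
  have hle : center P ≤ centralizer {w} := center_le_centralizer _
  have hA : Nat.card (centralizer ({w} : Set P)) = 2 ^ 2 := by
    have a1 := hP.center_nontrivial
    have a2 : 1 < Nat.card (center P) := Finite.one_lt_card
    have a3 : Nat.card (center P) < Nat.card (centralizer ({w} : Set P)) :=
      lt_of_le_of_ne (card_le_of_le hle) fun e =>
        hwc (eq_of_le_of_card_ge hle e.ge ▸ self_mem_cent w)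
    obtain ⟨s, hs⟩ := (hP.to_subgroup (centralizer {w})).exists_card_eq
    have a4 : s ≤ 2 := (Nat.pow_le_pow_iff_right one_lt_two).mp (hs ▸ hw)
    interval_cases s <;> omega
  obtain ⟨C, hC, hi⟩ := S0113.result k hk3 hk (S0112.result k hk _ hA (le_antisymm
    (centralizer_le (Set.singleton_subset_iff.mpr (self_mem_cent w))) fun x hx y hy =>
      congrArg Subtype.val ((IsPGroup.isMulCommutative_of_card_eq_prime_sq hA).is_comm.comm
        ⟨y, hy⟩ ⟨x, hx⟩)))
  obtain ⟨a, rfl⟩ := (Subgroup.isCyclic_iff_exists_zpowers_eq_top C).mp hC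
  have hN := normal_of_index_eq_two hi
  obtain ⟨m, rfl⟩ := Nat.exists_eq_add_of_le' hk3
  have ho : orderOf a = 2 ^ (m + 2) := by
    have := (zpowers a).card_mul_index
    rw [Nat.card_zpowers, hi, hk, pow_succ] at this
    omega
  obtain ⟨b, hb⟩ := index_eq_two_iff'.mp hi
  have hb1 : b ∉ zpowers a := by simpa using (hb 1).symm
  obtain ⟨j, hj⟩ := mem_powers_iff_mem_zpowers.mpr (hN.conj_mem' a (mem_zpowers a) b)
  have ho4 : orderOf (a ^ 2 ^ m) = 2 ^ 2 := by
    rw [orderOf_pow' _ (by positivity), ho, Nat.gcd_eq_right (pow_dvd_pow _ (by omega)), pow_add,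
      Nat.mul_div_cancel_left _ (by positivity)]
  refine ⟨a, b, m + 1, j, 2 ^ m, hi, ho ▸ pow_orderOf_eq_one a, hj.symm, ?_,
    (ho4 ▸ pow_orderOf_eq_one (a ^ 2 ^ m) : (a ^ 2 ^ m) ^ 2 ^ 2 = 1), fun e => hwc ?_⟩
  · obtain ⟨s, hs⟩ := (mul_mem_iff_of_index_two hi (a := b) (b := b)).mpr Iff.rfl
    calc _ = (b * b) * a * (b * b)⁻¹ := by group
      _ = _ := by rw [← hs]; group
  · have a1 : a ^ 2 ^ m ∈ center P := mem_center_iff.mpr fun g => by
      have a2 : ∀ g ∈ zpowers a, g * a ^ 2 ^ m = a ^ 2 ^ m * g := by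
        rintro _ ⟨s, rfl⟩
        exact ((Commute.refl a).zpow_left s |>.pow_right _).eq
      by_cases hg : g ∈ zpowers a
      · exact a2 g hg
      · have a3 := a2 _ ((mul_mem_iff_of_index_two hi (a := b⁻¹) (b := g)).mpr (by simp [hb1, hg]))
        calc _ = b * (b⁻¹ * g * a ^ 2 ^ m) := by group
          _ = b * a ^ 2 ^ m * b⁻¹ * g := by rw [a3]; group
          _ = _ := by rw [e]
    have a4 := zpowers_le_of_mem a1
    exact a4 (eq_of_le_of_card_ge (a4.trans hle) (by rw [hA, Nat.card_zpowers, ho4]) ▸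
      self_mem_cent w)

theorem eq_top_of_perfect {H : Type*} [Group H] (hper : commutator H = ⊤) {S : Subgroup H} {b : H}
    (h : ∀ g, g ∈ S ∨ b * g ∈ S) : S = ⊤ := by
  by_cases hb : b ∈ S
  · exact top_le_iff.mp fun g _ => (h g).elim id (mul_mem_cancel_left hb).mp
  have hi : S.index = 2 := index_eq_two_iff'.mpr ⟨b, fun g => (h g).elim
    (fun e => Or.inr ⟨e, fun e' => hb ((mul_mem_cancel_right e).mp e')⟩)
    fun e => Or.inl ⟨e, fun e' => hb ((mul_mem_cancel_right e').mp e)⟩⟩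
  have := normal_of_index_eq_two hi
  exact top_le_iff.mp (hper ▸ Normal.quotient_commutative_iff_commutator_le.mp
    (isCyclic_of_prime_card (p := 2) hi).isMulCommutative)

variable {H : Type*} [Group H] {q n : ℕ} [hq : Fact q.Prime]
  (ρ : H →* Matrix (Fin n) (Fin n) (ZMod q))

theorem act_mul (a b : H) (v : Fin n → ZMod q) : ρ (a * b) *ᵥ v = ρ a *ᵥ (ρ b *ᵥ v) := by
  rw [map_mul, mulVec_mulVec]

/-- The stabilizer of a vector. -/
def stab (v : Fin n → ZMod q) : Subgroup H where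
  carrier := {h | ρ h *ᵥ v = v}
  one_mem' := by simp
  mul_mem' := fun {a b} (ha : _ = _) (hb : _ = _) => (act_mul ρ a b v).trans (by rw [hb, ha])
  inv_mem' := fun {a} (ha : _ = _) => by
    change _ = _
    rw [← ha, ← act_mul, inv_mul_cancel, map_one, one_mulVec, ha]

/-- The hypotheses. -/
structure LH : Prop where
  inj : Function.Injective ρ
  q2 : q ≠ 2
  nd : ¬ q ∣ Nat.card H
  per : commutator H = ⊤
  irr : ∀ W : AddSubgroup (Fin n → ZMod q), (∀ h, ∀ v ∈ W, ρ h *ᵥ v ∈ W) → W = ⊥ ∨ W = ⊤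
  idx : ∀ v, ∃ k, (stab ρ v).index = 2 ^ k

namespace LH

variable {ρ} [Finite H] (h : LH ρ) (P : Sylow 2 H)
include h

theorem orb (g : H) (v : Fin n → ZMod q) : ∃ u ∈ (P : Subgroup H), ρ g *ᵥ v = ρ u *ᵥ v := by
  obtain ⟨k, hk⟩ := h.idx v
  obtain ⟨u, hu, c, hc, rfl⟩ := H1.mul_eq_of_coprime (P : Subgroup H) (stab ρ v)
    (hk ▸ (Nat.prime_two.coprime_iff_not_dvd.mpr P.not_dvd_index).symm.pow_right k) g
  exact ⟨u, hu, by rw [act_mul, show ρ c *ᵥ v = v from hc]⟩

theorem two {A : Subgroup (P : Subgroup H)} (hA : A.index ≤ 2)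
    (W : AddSubgroup (Fin n → ZMod q)) (hW : ∀ a ∈ A, ∀ v ∈ W, ρ a *ᵥ v ∈ W) : W = ⊥ ∨ W = ⊤ := by
  obtain ⟨b, hb⟩ : ∃ b : (P : Subgroup H), ∀ u, u ∈ A ∨ b * u ∈ A := by
    have := index_ne_zero_of_finite (H := A)
    rcases (by omega : A.index = 1 ∨ A.index = 2) with e | e
    · exact ⟨1, fun u => Or.inl (index_eq_one.mp e ▸ mem_top u)⟩
    · obtain ⟨b, hb⟩ := index_eq_two_iff'.mp e
      exact ⟨b, fun u => (hb u).or.symm⟩
  let S0 : Submonoid H :=
    { carrier := {g | ∀ v ∈ W, ρ g *ᵥ v ∈ W}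
      one_mem' := fun v hv => by simpa using hv
      mul_mem' := fun {a b} ha hb v hv => act_mul ρ a b v ▸ ha _ (hb v hv) }
  let S : Subgroup H :=
    { S0 with
      inv_mem' := fun {a} ha => by
        have := S0.pow_mem ha (orderOf a - 1)
        rwa [eq_inv_of_mul_eq_one_left (show a ^ (orderOf a - 1) * a = 1 by
          rw [← pow_succ, Nat.sub_add_cancel (orderOf_pos a), pow_orderOf_eq_one])] at this }
  have h1 : S = ⊤ := eq_top_of_perfect h.per (b := b) fun g => by
    have a1 : ∀ v ∈ W, ρ g *ᵥ v ∈ W ∨ ρ (b * g) *ᵥ v ∈ W := fun v hv => by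
      obtain ⟨u, hu, e⟩ := h.orb P g v
      rw [act_mul, e, ← act_mul]
      exact (hb ⟨u, hu⟩).imp (fun a => hW _ a v hv) fun a => hW _ a v hv
    by_contra H
    obtain ⟨H1, H2⟩ := not_or.mp H
    change ¬ ∀ v ∈ W, _ at H1 H2
    push Not at H1 H2
    obtain ⟨v, hv, hv'⟩ := H1
    obtain ⟨w, hw, hw'⟩ := H2
    rcases a1 _ (W.add_mem hv hw) with e | e <;> rw [mulVec_add] at e
    · exact hv' ((W.add_mem_cancel_right ((a1 w hw).resolve_right hw')).mp e)
    · exact hw' ((W.add_mem_cancel_left ((a1 v hv).resolve_left hv')).mp e)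
  exact h.irr W fun g => (h1 ▸ mem_top g : g ∈ S)

theorem inv_eq {t : (P : Subgroup H)} (ht : t * t = 1) (ht1 : t ≠ 1) (hc : cs(t) ≤ 2) :
    ρ t = -1 := by
  rcases h.two P hc (mulVecLin (ρ t - 1)).toAddMonoidHom.ker (fun a ha v hv => by
    have hv' : (ρ t - 1) *ᵥ v = 0 := hv
    change (ρ t - 1) *ᵥ (ρ a *ᵥ v) = 0
    have e : (a : H) * t = t * a := congrArg Subtype.val (mem_cent.mp ha)
    rw [mulVec_mulVec, sub_mul, ← map_mul, ← e, map_mul, one_mul, ← mul_sub_one, ← mulVec_mulVec,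
      hv', mulVec_zero]) with e | e
  · refine eq_neg_of_add_eq_zero_left (ext_iff_mulVec.mpr fun v => ?_)
    rw [zero_mulVec]
    refine AddSubgroup.mem_bot.mp (e ▸ ?_)
    change (ρ t - 1) *ᵥ ((ρ t + 1) *ᵥ v) = 0
    rw [mulVec_mulVec, sub_mul, mul_add, ← map_mul, show (t : H) * t = 1 from congrArg Subtype.val ht]
    simp [add_comm]
  · refine absurd (Subtype.ext (h.inj ?_)) ht1
    rw [coe_one, map_one, ← sub_eq_zero]
    exact ext_iff_mulVec.mpr fun v => by rw [zero_mulVec]; exact (e ▸ AddSubgroup.mem_top v :)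

theorem no_four (U : Subgroup (P : Subgroup H)) (hU : U.Normal) (hE : IsElementaryAbelian 2 U) :
    Nat.card U ≠ 4 := fun h4 => by
  have h1 : ∀ t : U, t ≠ 1 → ρ (t : (P : Subgroup H)) = -1 := fun t ht => by
    have ht1 : (t : (P : Subgroup H)) ≠ 1 := fun e => ht (Subtype.ext e)
    refine h.inv_eq P ((pow_two _).symm.trans (hE.2 _ t.2)) ht1 ?_
    let f : Option {y // IsConj (t : (P : Subgroup H)) y} → U := fun o => o.elim 1 fun y =>
      ⟨y, by obtain ⟨y, hy⟩ := y; obtain ⟨g, rfl⟩ := isConj_iff.mp hy; exact hU.conj_mem _ t.2 g⟩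
    have a1 : ∀ y : {y // IsConj (t : (P : Subgroup H)) y}, y.1 ≠ 1 := fun y e =>
      ht1 (isConj_one_left.mp (e ▸ y.2))
    have a2 := Nat.card_le_card_of_injective f (by
      rintro (_ | x) (_ | y) e
      · rfl
      · exact absurd (congrArg Subtype.val e).symm (a1 y)
      · exact absurd (congrArg Subtype.val e) (a1 x)
      · exact congrArg some (Subtype.ext (congrArg Subtype.val e :)))
    rw [Finite.card_option, card_isConj, h4] at a2
    obtain ⟨k, hk⟩ := P.isPGroup'.exists_card_eq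
    obtain ⟨s, -, hs⟩ := (Nat.dvd_prime_pow Nat.prime_two).mp
      (hk ▸ cs_dvd_card (t : (P : Subgroup H)))
    have a3 : s < 2 := (Nat.pow_lt_pow_iff_right one_lt_two).mp (by omega)
    interval_cases s <;> omega
  have h2 : ∀ s t : U, s ≠ 1 → t ≠ 1 → s = t := fun s t hs ht =>
    Subtype.ext (Subtype.ext (h.inj ((h1 s hs).trans (h1 t ht).symm)))
  have := Fintype.ofFinite U
  obtain ⟨a, b, c, hab, hac, hbc⟩ := Fintype.two_lt_card_iff.mp
    (by rw [← Nat.card_eq_fintype_card, h4]; norm_num : 2 < Fintype.card U)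
  by_cases ha : a = 1
  · exact hbc (h2 b c (ha ▸ hab.symm) (ha ▸ hac.symm))
  by_cases hb : b = 1
  · exact hac (h2 a c ha (hb ▸ hbc.symm))
  · exact hab (h2 a b ha hb)

omit P in
theorem trivial : Subsingleton H := by
  by_contra hnt
  have : Nontrivial H := not_subsingleton_iff_nontrivial.mp hnt
  obtain ⟨P⟩ : Nonempty (Sylow 2 H) := inferInstance
  have hP : (P : Subgroup H) ≠ ⊥ := fun e => by
    obtain ⟨g, hg⟩ := exists_ne (1 : H)
    refine hg (h.inj (ext_iff_mulVec.mpr fun v => ?_))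
    obtain ⟨u, hu, e'⟩ := h.orb P g v
    rw [e] at hu
    rw [e', mem_bot.mp hu]
  have hnc : ¬ IsCyclic (P : Subgroup H) := fun hc => by
    have a1 : (Nat.card H).minFac = 2 := (Nat.minFac_eq_two_iff _).mpr
      ((P.isPGroup'.card_eq_or_dvd.resolve_left fun e => hP (card_eq_one.mp e)).trans
        (card_subgroup_dvd_card _))
    have a2 := hc.isComplement' a1
    have a3 : commutator H ≤ (MonoidHom.transferSylow P (hc.normalizer_le_centralizer a1)).ker :=
      commutator_le.mpr fun a _ b _ => by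
        rw [MonoidHom.mem_ker, map_commutatorElement, commutatorElement_eq_one_iff_mul_comm]
        exact hc.isMulCommutative.is_comm.comm _ _
    rw [h.per, top_le_iff] at a3
    exact hP (disjoint_top.mp (a3 ▸ a2.disjoint.symm))
  obtain ⟨a, b, M, j, t, h1, h2, h3, h4, h5, h6⟩ :=
    two_group_data P.isPGroup' hnc (h.no_four P)
  let τ := ρ.comp (P : Subgroup H).subtype
  have hn := field_bound h.q2 (x := τ a) (y := τ b) (y' := τ b⁻¹) (M := M) (j := j) (t := t)
    (by rw [← map_mul, mul_inv_cancel, map_one]) (by rw [← map_mul, inv_mul_cancel, map_one])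
    (by rw [← map_pow, h2, map_one]) (by simp only [← map_mul, ← map_pow, h3])
    (by simp only [← map_mul, h4]) (by rw [← map_pow, ← map_pow, h5, map_one])
    (fun e => h6 (Subtype.ext (h.inj (by simp only [← map_mul, ← map_pow] at e; exact e))))
    fun W hW => h.two P h1.le W fun u hu v hv => by
      obtain ⟨k, rfl⟩ := mem_powers_iff_mem_zpowers.mpr hu
      induction k with
      | zero => simpa using hv
      | succ k ih =>
        change ρ ((a ^ (k + 1) : (P : Subgroup H)) : H) *ᵥ v ∈ W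
        rw [pow_succ', coe_mul, act_mul]
        exact hW _ (ih (pow_mem (mem_zpowers a) k))
  have hdet : ∀ g, (ρ g).det = 1 := fun g => congrArg Units.val
    (Abelianization.commutator_subset_ker (detMonoidHom.comp ρ).toHomUnits (h.per ▸ mem_top g))
  obtain ⟨v, hv⟩ : ∃ v : Fin n → ZMod q, v ≠ 0 := by
    by_contra! h0
    obtain ⟨g, hg⟩ := exists_ne (1 : H)
    exact hg (h.inj (ext_iff_mulVec.mpr fun v => (h0 _).trans (h0 _).symm))
  have hs : stab ρ v = ⊥ := eq_bot_iff.mpr fun g hg => by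
    have a1 : g ^ q = 1 := h.inj (by rw [map_pow, unip hn _ (hdet g) hv hg, map_one])
    by_contra hg1
    exact h.nd (orderOf_eq_prime a1 hg1 ▸ _root_.orderOf_dvd_natCard g)
  obtain ⟨k, hk⟩ := h.idx v
  rw [hs, index_bot] at hk
  have := (IsPGroup.of_card hk).isNilpotent
  exact (Group.IsSolvable.commutator_lt_top_of_nontrivial H).ne h.per

end LH

end Cfsg.Agent.H87.Qb
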