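import Mathlib.Algebra.BigOperators.Ring.Finset
import Mathlib.Algebra.Order.BigOperators.Ring.Finset
import Mathlib.Tactic

/-! Integral lattices occurring for principal `3`-blocks with extraspecial defect group. -/

set_option autoImplicit false

open Finset

namespace Cfsg.Agent.H87

variable {I J : Type*} {s H U : Finset I} {T : Finset J} {σ v w : I → ℤ} {A C : J → I → ℤ}
  {g : J → J → ℤ}

variable (s T A C g) in
/-- The vectors `A j`, `C j` have Gram matrix `g ⊗ A₂`. -/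
structure GA2 : Prop where
  aa : ∀ j ∈ T, ∀ k ∈ T, ∑ i ∈ s, A j i * A k i = 2 * g j k
  cc : ∀ j ∈ T, ∀ k ∈ T, ∑ i ∈ s, C j i * C k i = 2 * g j k
  ac : ∀ j ∈ T, ∀ k ∈ T, ∑ i ∈ s, A j i * C k i = g j k

theorem GA2.ca (h : GA2 s T A C g) {j k : J} (hj : j ∈ T) (hk : k ∈ T) :
    ∑ i ∈ s, C j i * A k i = g j k := by
  have h1 := h.aa j hj k hk
  have h2 := h.aa k hk j hj
  have h3 := h.ac k hk j hj
  simp only [mul_comm (A k _)] at h2 h3
  omega

theorem GA2.bessel (h : GA2 s T A C g) {i₀ : I} (hi : i₀ ∈ s) (x y : J → ℤ) :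
    (∑ j ∈ T, (x j * A j i₀ + y j * C j i₀)) ^ 2 ≤
      ∑ j ∈ T, ∑ k ∈ T, g j k * (2 * x j * x k + x j * y k + y j * x k + 2 * y j * y k) := by
  refine (single_le_sum (f := fun i => (∑ j ∈ T, (x j * A j i + y j * C j i)) ^ 2)
    (fun i _ => sq_nonneg _) hi).trans_eq ?_
  simp only [sq, sum_mul_sum]
  rw [sum_comm]
  refine sum_congr rfl fun j hj => ?_
  rw [sum_comm]
  refine sum_congr rfl fun k hk => ?_
  rw [sum_congr rfl (g := fun i => x j * x k * (A j i * A k i) + x j * y k * (A j i * C k i) +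
    y j * x k * (C j i * A k i) + y j * y k * (C j i * C k i)) fun i _ => by ring]
  simp only [sum_add_distrib, ← mul_sum]
  rw [h.aa j hj k hk, h.ac j hj k hk, h.ca hj hk, h.cc j hj k hk]
  ring

theorem one_le_nrm {a c : ℤ} (h : a ≠ 0 ∨ c ≠ 0) : 1 ≤ a ^ 2 - a * c + c ^ 2 := by
  rcases h with h | h
  · nlinarith [sq_nonneg (a - 2 * c), sq_pos_of_ne_zero h]
  · nlinarith [sq_nonneg (2 * a - c), sq_pos_of_ne_zero h]

theorem nrm_nonneg (a c : ℤ) : 0 ≤ a ^ 2 - a * c + c ^ 2 := by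
  nlinarith [sq_nonneg (a - c), sq_nonneg a, sq_nonneg c]

section six

variable [DecidableEq J]

theorem GA2.nrm_le (h : GA2 s T A C fun j k => if j = k then 1 else 0) {i : I} (hi : i ∈ s) :
    ∑ j ∈ T, (A j i ^ 2 - A j i * C j i + C j i ^ 2) ≤ 1 := by
  have h1 := h.bessel hi (fun j => 2 * A j i - C j i) fun j => 2 * C j i - A j i
  rw [sum_congr rfl (g := fun j => 2 * (A j i ^ 2 - A j i * C j i + C j i ^ 2)) fun j _ => by ring,
    ← mul_sum, sum_congr (f := fun j => ∑ k ∈ T, _) rfl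
      (g := fun j => 6 * (A j i ^ 2 - A j i * C j i + C j i ^ 2)) fun j hj => by
      simp only [ite_mul, one_mul, zero_mul, sum_ite_eq, if_pos hj]; ring, ← mul_sum] at h1
  nlinarith

theorem GA2.sum_nrm (h : GA2 s T A C fun j k => if j = k then 1 else 0) {j : J} (hj : j ∈ T) :
    ∑ i ∈ s, (A j i ^ 2 - A j i * C j i + C j i ^ 2) = 3 := by
  simp only [sq, sum_add_distrib, sum_sub_distrib]
  rw [h.aa j hj j hj, h.ac j hj j hj, h.cc j hj j hj]
  simp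

variable [DecidableEq I]

theorem GA2.card_le (h : GA2 s T A C fun j k => if j = k then 1 else 0) (hH : H ⊆ s) (hU : U ⊆ s)
    (h0 : ∀ j ∈ T, ∀ i ∈ U, A j i = 0 ∧ C j i = 0) (h1 : ∀ j ∈ T, ∃ i ∈ H, A j i ≠ 0)
    (h2 : ∀ i ∈ s, i ∉ H → ∃ j ∈ T, A j i ≠ 0 ∨ C j i ≠ 0) :
    3 * T.card + U.card ≤ s.card ∧ s.card ≤ H.card + 2 * T.card := by
  set N : I → ℤ := fun i => ∑ j ∈ T, (A j i ^ 2 - A j i * C j i + C j i ^ 2) with hN
  have h3 : ∑ i ∈ s, N i = 3 * T.card := by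
    rw [sum_comm, sum_congr rfl fun j hj => h.sum_nrm hj, sum_const, nsmul_eq_mul, mul_comm]
  have h4 := sum_le_card_nsmul (s \ U) N 1 fun i hi => h.nrm_le (mem_sdiff.1 hi).1
  have h5 : ∑ i ∈ U, N i = 0 := sum_eq_zero fun i hi => sum_eq_zero fun j hj => by
    simp [(h0 j hj i hi).1, (h0 j hj i hi).2]
  have h6 := card_nsmul_le_sum (s \ H) N 1 fun i hi => by
    obtain ⟨j, hj, h6⟩ := h2 i (mem_sdiff.1 hi).1 (mem_sdiff.1 hi).2
    exact (one_le_nrm h6).trans (single_le_sum (f := fun j => A j i ^ 2 - A j i * C j i + C j i ^ 2)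
      (fun j _ => nrm_nonneg _ _) hj)
  have h7 : T.card • (1 : ℤ) ≤ ∑ i ∈ H, N i := by
    rw [sum_comm]
    refine card_nsmul_le_sum _ _ _ fun j hj => ?_
    obtain ⟨i, hi, h7⟩ := h1 j hj
    exact (one_le_nrm (Or.inl h7)).trans (single_le_sum
      (f := fun i => A j i ^ 2 - A j i * C j i + C j i ^ 2) (fun j _ => nrm_nonneg _ _) hi)
  have h8 := sum_sdiff (f := N) hU
  have h9 := sum_sdiff (f := N) hH
  have := card_sdiff_add_card_eq_card hU
  have := card_sdiff_add_card_eq_card hH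
  simp only [nsmul_eq_mul, mul_one] at h4 h6 h7
  constructor <;> zify at * <;> linarith

variable (s H U σ v) in
/-- Congruences and orthogonality relations of a column. -/
structure Gd : Prop where
  one : ∀ i ∈ H, 3 ∣ σ i * v i - 1
  zero : ∀ i ∈ s, i ∉ H → 3 ∣ v i
  orth : ∀ u ∈ U, ∑ i ∈ H, σ i * v i = 3 * (σ u * v u)

variable (H σ) in
/-- Coordinates with respect to the orthogonal basis `1 - 3 e_i`. -/
def rf (u : I) (v : I → ℤ) (i : I) : ℤ := if i ∈ H then (σ u * v u - σ i * v i) / 3 else v i / 3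

variable {u i : I}

theorem Gd.rf_mem (h : Gd s H U σ v) (hu : u ∈ H) (hi : i ∈ H) :
    3 * rf H σ u v i = σ u * v u - σ i * v i := by
  have h1 := h.one u hu
  have h2 := h.one i hi
  rw [rf, if_pos hi]
  omega

theorem Gd.rf_notMem (h : Gd s H U σ v) (hi : i ∈ s) (hi' : i ∉ H) : 3 * rf H σ u v i = v i := by
  have h1 := h.zero i hi hi'
  rw [rf, if_neg hi']
  omega

theorem Gd.rf_eq_zero (h : Gd s H U σ v) (hU : U ⊆ H) (hu : u ∈ U) (hi : i ∈ U) :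
    rf H σ u v i = 0 := by
  have h1 := h.rf_mem (hU hu) (hU hi)
  have h2 := h.orth u hu
  have h3 := h.orth i hi
  omega

theorem Gd.exists_rf_ne (h : Gd s H U σ v) (hU : U ⊆ H) (hu : u ∈ U) (h6 : H.card = 6) :
    ∃ i ∈ H, rf H σ u v i ≠ 0 := by
  by_contra! h1
  have h2 := h.orth u hu
  rw [sum_congr rfl (g := fun _ => σ u * v u) fun i hi => by
    have := h.rf_mem (hU hu) hi
    rw [h1 i hi] at this
    omega, sum_const, h6, nsmul_eq_mul] at h2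
  have h3 := h.one u (hU hu)
  omega

theorem Gd.sum_rf (h : Gd s H U σ v) (h' : Gd s H U σ w) (hH : H ⊆ s) (hU : U ⊆ H) (hu : u ∈ U)
    (h6 : H.card = 6) (hσ : ∀ i ∈ H, σ i * σ i = 1) :
    9 * ∑ i ∈ s, rf H σ u v i * rf H σ u w i = ∑ i ∈ s, v i * w i := by
  rw [mul_sum, ← sum_sdiff hH, ← sum_sdiff hH]
  congr 1
  · refine sum_congr rfl fun i hi => ?_
    rw [← h.rf_notMem (u := u) (mem_sdiff.1 hi).1 (mem_sdiff.1 hi).2,
      ← h'.rf_notMem (u := u) (mem_sdiff.1 hi).1 (mem_sdiff.1 hi).2]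
    ring
  · rw [sum_congr rfl (g := fun i => σ u * v u * (σ u * w u) - σ u * v u * (σ i * w i) -
      σ u * w u * (σ i * v i) + v i * w i) fun i hi => by
        linear_combination (3 * rf H σ u w i) * h.rf_mem (hU hu) hi +
          (σ u * v u - σ i * v i) * h'.rf_mem (hU hu) hi + v i * w i * hσ i hi]
    simp only [sum_add_distrib, sum_sub_distrib, ← mul_sum]
    rw [h.orth u hu, h'.orth u hu, sum_const, h6, nsmul_eq_mul]
    ring

theorem lat_six (h : GA2 s T A C fun j k => if j = k then 9 else 0) (hH : H ⊆ s) (hU : U ⊆ H)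
    (hUn : U.Nonempty) (h6 : H.card = 6) (hσ : ∀ i ∈ H, σ i * σ i = 1)
    (hA : ∀ j ∈ T, Gd s H U σ (A j)) (hC : ∀ j ∈ T, Gd s H U σ (C j))
    (h2 : ∀ i ∈ s, i ∉ H → ∃ j ∈ T, A j i ≠ 0 ∨ C j i ≠ 0) :
    3 * T.card + U.card ≤ s.card ∧ s.card ≤ 6 + 2 * T.card := by
  obtain ⟨u, hu⟩ := hUn
  rw [← h6]
  refine GA2.card_le (A := fun j => rf H σ u (A j)) (C := fun j => rf H σ u (C j))
    ⟨fun j hj k hk => ?_, fun j hj k hk => ?_, fun j hj k hk => ?_⟩ hH (hU.trans hH)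
    (fun j hj i hi => ⟨(hA j hj).rf_eq_zero hU hu hi, (hC j hj).rf_eq_zero hU hu hi⟩)
    (fun j hj => (hA j hj).exists_rf_ne hU hu h6) fun i hi hi' => ?_
  · have h1 := (hA j hj).sum_rf (hA k hk) hH hU hu h6 hσ
    rw [h.aa j hj k hk] at h1
    split_ifs at h1 ⊢ <;> omega
  · have h1 := (hC j hj).sum_rf (hC k hk) hH hU hu h6 hσ
    rw [h.cc j hj k hk] at h1
    split_ifs at h1 ⊢ <;> omega
  · have h1 := (hA j hj).sum_rf (hC k hk) hH hU hu h6 hσ
    rw [h.ac j hj k hk] at h1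
    split_ifs at h1 ⊢ <;> omega
  · obtain ⟨j, hj, h3⟩ := h2 i hi hi'
    have h4 := (hA j hj).rf_notMem (u := u) hi hi'
    have h5 := (hC j hj).rf_notMem (u := u) hi hi'
    exact ⟨j, hj, by omega⟩

end six

theorem lat_nine [DecidableEq I] (hH : H ⊆ s) (h9 : H.card = 9) (hσ : ∀ i ∈ H, σ i * σ i = 1)
    (h1 : ∀ i ∈ H, 3 ∣ σ i * v i - 1) (h0 : ∑ i ∈ H, σ i * v i = 0)
    (h18 : ∑ i ∈ s, v i * v i = 18) {i : I} (hi : i ∈ s) (hi' : i ∉ H) : v i = 0 := by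
  have h2 : ∑ i ∈ H, (2 - σ i * v i) ≤ ∑ i ∈ H, v i * v i := sum_le_sum fun i hi => by
    obtain ⟨t, ht⟩ := h1 i hi
    have h3 : v i * v i = (3 * t + 1) ^ 2 := by
      linear_combination (σ i * v i + 3 * t + 1) * ht - v i * v i * hσ i hi
    rcases le_or_gt 0 t with h4 | h4 <;> nlinarith
  rw [sum_sub_distrib, h0, sum_const, h9, nsmul_eq_mul] at h2
  have h3 := single_le_sum (f := fun i => v i * v i) (fun i _ => mul_self_nonneg _)
    (mem_sdiff.2 ⟨hi, hi'⟩)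
  have h4 := sum_sdiff (f := fun i => v i * v i) hH
  exact mul_self_eq_zero.1 (le_antisymm (by push_cast at h2; linarith) (mul_self_nonneg _))

theorem sum_cen_mul (h9 : T.card = 9) {x y : J → ℤ} {t r : ℤ} (hx : ∑ j ∈ T, x j = 3 * t)
    (hy : ∑ j ∈ T, y j = 3 * r) :
    ∑ j ∈ T, (3 * x j - t) * (3 * y j - r) = 9 * (∑ j ∈ T, x j * y j - t * r) := by
  rw [sum_congr rfl (g := fun j => 9 * (x j * y j) - 3 * r * x j - 3 * t * y j + t * r)
    fun j _ => by ring]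
  simp only [sum_add_distrib, sum_sub_distrib, ← mul_sum]
  rw [hx, hy, sum_const, h9, nsmul_eq_mul]
  ring

theorem cen_cases (h9 : T.card = 9) {x : J → ℤ} {t : ℤ} (hx : ∑ j ∈ T, x j = 3 * t) :
    2 ≤ ∑ j ∈ T, x j * x j - t * t ∨ (∑ j ∈ T, x j * x j - t * t = 0 ∧ ∀ j ∈ T, 3 * x j = t) := by
  have h1 := sum_cen_mul h9 hx hx
  have h2 : 0 ≤ ∑ j ∈ T, (3 * x j - t) * (3 * x j - t) := sum_nonneg fun j _ => mul_self_nonneg _
  have h3 : 2 ∣ ∑ j ∈ T, (x j * x j - x j) := dvd_sum fun j _ => by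
    simpa [mul_sub] using (Int.even_mul_pred_self (x j)).two_dvd
  have h4 : 2 ∣ t * t - t := by simpa [mul_sub] using (Int.even_mul_pred_self t).two_dvd
  rw [sum_sub_distrib, hx] at h3
  refine or_iff_not_imp_left.2 fun h5 => ?_
  have h6 : ∑ j ∈ T, x j * x j - t * t = 0 := by omega
  rw [h6, mul_zero, sum_eq_zero_iff_of_nonneg fun j _ => mul_self_nonneg _] at h1
  exact ⟨h6, fun j hj => sub_eq_zero.1 (mul_self_eq_zero.1 (h1 j hj))⟩

theorem lat_eight [DecidableEq J] {j₀ : J} (hj₀ : j₀ ∈ T) (h9 : T.card = 9)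
    (h : GA2 s T A C fun j k => (if j = k then 1 else 0) - (if j = j₀ then 1 else 0) -
      (if k = j₀ then 1 else 0) + 1) {i : I} (hi : i ∈ s) (hA : 3 ∣ ∑ j ∈ T, A j i)
    (hC : 3 ∣ ∑ j ∈ T, C j i) {j : J} (hj : j ∈ T) : A j i = 0 ∧ C j i = 0 := by
  obtain ⟨t, ht⟩ := hA
  obtain ⟨r, hr⟩ := hC
  have h0 : ∀ {x : J → ℤ} {t : ℤ}, ∑ j ∈ T, x j = 3 * t → ∑ j ∈ T, (3 * x j - t) = 0 := fun h0 => by
    rw [sum_sub_distrib, ← mul_sum, h0, sum_const, h9, nsmul_eq_mul]; ring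
  have h1 : ∀ x y : J → ℤ, ∑ j ∈ T, x j = 0 → ∑ j ∈ T, y j = 0 → ∑ j ∈ T, ∑ k ∈ T,
      ((if j = k then 1 else 0) - (if j = j₀ then 1 else 0) - (if k = j₀ then 1 else 0) + 1) *
        (x j * y k) = ∑ j ∈ T, x j * y j := fun x y hx hy => by
    simp only [add_mul, sub_mul, ite_mul, one_mul, zero_mul, sum_add_distrib, sum_sub_distrib,
      sum_ite_eq, sum_ite_irrel, ← mul_sum, hy, sum_ite_eq', if_pos hj₀, ← sum_mul, hx]
    simp [sum_congr rfl fun j (hj : j ∈ T) => if_pos (t := x j * y j) (e := 0) hj]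
  set a : J → ℤ := fun j => 3 * A j i - t
  set c : J → ℤ := fun j => 3 * C j i - r
  have ha : ∑ j ∈ T, (2 * a j - c j) = 0 := by rw [sum_sub_distrib, ← mul_sum, h0 ht, h0 hr]; rfl
  have hc : ∑ j ∈ T, (2 * c j - a j) = 0 := by rw [sum_sub_distrib, ← mul_sum, h0 ht, h0 hr]; rfl
  have h2 := h.bessel hi (fun j => 2 * a j - c j) fun j => 2 * c j - a j
  simp only [mul_add, sum_add_distrib, mul_assoc, mul_left_comm _ (2 : ℤ), ← mul_sum] at h2
  rw [h1 _ _ ha ha, h1 _ _ ha hc, h1 _ _ hc ha, h1 _ _ hc hc] at h2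
  have e1 := sum_cen_mul h9 ht ht
  have e2 := sum_cen_mul h9 ht hr
  have e3 := sum_cen_mul h9 hr hr
  have e4 : ∑ j ∈ T, (A j i - C j i) = 3 * (t - r) := by rw [sum_sub_distrib, ht, hr, mul_sub]
  have e5 : ∑ j ∈ T, (A j i - C j i) * (A j i - C j i) = ∑ j ∈ T, A j i * A j i -
      2 * ∑ j ∈ T, A j i * C j i + ∑ j ∈ T, C j i * C j i := by
    rw [mul_sum, ← sum_sub_distrib, ← sum_add_distrib]
    exact sum_congr rfl fun j _ => by ring
  set n₁ := ∑ j ∈ T, A j i * A j i - t * t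
  set n₂ := ∑ j ∈ T, A j i * C j i - t * r
  set n₃ := ∑ j ∈ T, C j i * C j i - r * r
  have e6 : ∑ j ∈ T, (2 * a j - c j) * A j i + ∑ j ∈ T, (2 * c j - a j) * C j i =
      6 * (n₁ - n₂ + n₃) := by
    rw [← sum_add_distrib, sum_congr rfl (g := fun j => 6 * (A j i * A j i) - 6 * (A j i * C j i) +
      6 * (C j i * C j i) + (r - 2 * t) * A j i + (t - 2 * r) * C j i) fun j _ => by ring]
    simp only [sum_add_distrib, sum_sub_distrib, ← mul_sum]
    rw [ht, hr]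
    ring
  have e7 : 2 * ∑ j ∈ T, (2 * a j - c j) * (2 * a j - c j) + ∑ j ∈ T, (2 * a j - c j) * (2 * c j - a j)
      + ∑ j ∈ T, (2 * c j - a j) * (2 * a j - c j) + 2 * ∑ j ∈ T, (2 * c j - a j) * (2 * c j - a j) =
      54 * (n₁ - n₂ + n₃) := by
    rw [show 54 * (n₁ - n₂ + n₃) = 6 * (9 * n₁) - 6 * (9 * n₂) + 6 * (9 * n₃) by ring, ← e1, ← e2, ← e3]
    simp only [mul_sum, ← sum_add_distrib, ← sum_sub_distrib]
    exact sum_congr rfl fun j _ => by ring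
  rw [e6, e7] at h2
  have h3 : n₁ - n₂ + n₃ ≤ 1 := by nlinarith
  have h4 : ∀ {B : J → I → ℤ}, ∑ i ∈ s, B j₀ i * B j₀ i = 0 → B j₀ i = 0 := fun h4 =>
    mul_self_eq_zero.1 ((sum_eq_zero_iff_of_nonneg fun j _ => mul_self_nonneg _).1 h4 i hi)
  have h5 := h4 (B := A) (by simpa using h.aa j₀ hj₀ j₀ hj₀)
  have h6 := h4 (B := C) (by simpa using h.cc j₀ hj₀ j₀ hj₀)
  have h7 := cen_cases h9 e4
  rw [e5, show ∑ j ∈ T, A j i * A j i - 2 * ∑ j ∈ T, A j i * C j i + ∑ j ∈ T, C j i * C j i -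
    (t - r) * (t - r) = n₁ - 2 * n₂ + n₃ by ring] at h7
  rcases cen_cases h9 ht with a1 | ⟨a1, a2⟩ <;> rcases cen_cases h9 hr with b1 | ⟨b1, b2⟩ <;>
    rcases h7 with c1 | ⟨c1, c2⟩ <;> try omega
  · have := b2 j hj; have := b2 j₀ hj₀; have := c2 j hj; have := c2 j₀ hj₀; omega
  · have := a2 j hj; have := a2 j₀ hj₀; have := c2 j hj; have := c2 j₀ hj₀; omega
  · have := a2 j hj; have := a2 j₀ hj₀; have := b2 j hj; have := b2 j₀ hj₀; omega
  · have := a2 j hj; have := a2 j₀ hj₀; have := b2 j hj; have := b2 j₀ hj₀; omega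

end Cfsg.Agent.H87
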