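import Cfsg.Agent.H87.X3Quo
import Cfsg.Agent.H87.X3Lat
import Cfsg.Agent.H34.PSolvB
import Cfsg.Agent.S4646
import Cfsg.Agent.H86.Wat

/-! Columns of norm `9` in principal `3`-blocks. -/

set_option autoImplicit false
set_option linter.unusedSectionVars false

open Subgroup Finset ComplexConjugate

namespace Cfsg.Agent.H87

open Cfsg Cfsg.Agent.H34 Cfsg.Agent.H32 Cfsg.Agent.H86

section eis

variable {ω : ℂ} (hω : IsPrimitiveRoot ω 3)
include hω

theorem om_sq : ω ^ 2 = -1 - ω := by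
  have := hω.geom_sum_eq_zero (by norm_num)
  simp only [sum_range_succ, range_zero, sum_empty] at this
  linear_combination this

theorem conj_om : conj ω = -1 - ω := by
  rw [← H5.inv_eq_conj_of_pow_eq_one three_ne_zero hω.pow_eq_one, ← om_sq hω]
  exact inv_eq_of_mul_eq_one_left (by rw [← pow_succ, hω.pow_eq_one])

theorem om_indep {a b : ℤ} (h : (a : ℂ) + b * ω = 0) : a = 0 ∧ b = 0 := by
  have h1 := congrArg conj h
  simp only [map_add, map_mul, map_intCast, conj_om hω, map_zero] at h1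
  have h2 : (b : ℂ) * 3 = 0 := by
    linear_combination (1 + 2 * ω) * (h1 - h) + 4 * b * om_sq hω
  obtain rfl : b = 0 := by simpa using h2
  simpa using h

theorem cube_cases {μ : ℂ} (h : μ ^ 3 = 1) : μ = 1 ∨ μ = ω ∨ μ = -1 - ω := by
  obtain ⟨i, hi, rfl⟩ := hω.eq_pow_of_pow_eq_one h
  interval_cases i <;> simp [om_sq hω]

/-- The Eisenstein integers. -/
def eis : Subring ℂ where
  carrier := {x | ∃ a b : ℤ, x = a + b * ω}
  zero_mem' := ⟨0, 0, by simp⟩
  one_mem' := ⟨1, 0, by simp⟩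
  add_mem' := by
    rintro _ _ ⟨a, b, rfl⟩ ⟨c, d, rfl⟩
    exact ⟨a + c, b + d, by push_cast; ring⟩
  neg_mem' := by
    rintro _ ⟨a, b, rfl⟩
    exact ⟨-a, -b, by push_cast; ring⟩
  mul_mem' := by
    rintro _ _ ⟨a, b, rfl⟩ ⟨c, d, rfl⟩
    exact ⟨a * c - b * d, a * d + b * c - b * d, by push_cast; linear_combination b * d * om_sq hω⟩

theorem om_mem : ω ∈ eis hω := ⟨0, 1, by simp⟩

theorem mem_eis_of_cube {μ : ℂ} (h : μ ^ 3 = 1) : μ ∈ eis hω := by
  rcases cube_cases hω h with rfl | rfl | rfl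
  exacts [one_mem _, om_mem hω, sub_mem (neg_mem (one_mem _)) (om_mem hω)]

theorem mem_eis_of_fam {F : ℕ → ℂ} (h : Fam 3 ω F) : F 1 ∈ eis hω := by
  obtain ⟨P, hP⟩ := h
  rw [hP 1 (by norm_num), pow_one, Polynomial.aeval_eq_sum_range]
  exact sum_mem fun i _ => zsmul_mem (pow_mem (om_mem hω) _) _

end eis

theorem exists_om : ∃ ω : ℂ, IsPrimitiveRoot ω 3 := exists_primitiveRoot Nat.prime_three 1

variable {G : Type*} [Group G] [Finite G] {M : Ideal AlgInt} [hMm : M.IsMaximal]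

theorem exists_int_cube (χ : IrrCharacter G) {u : G} (h3 : u ^ 3 = 1) (hr : IsConj u u⁻¹) :
    ∃ x : ℤ, (χ : G → ℂ) u = x ∧ 3 ∣ x - charDegree (χ : G → ℂ) := by
  obtain ⟨ω, hω⟩ := exists_om
  obtain ⟨d, μ, h0, h1, h2⟩ := H5.exists_eigenvalues (irr_isCharacter χ) u
  have h4 : ∃ a b : ℤ, 3 ∣ a + b ∧ ∑ i, (μ i - 1) = a + b * ω := by
    refine sum_induction _ (fun x => ∃ a b : ℤ, 3 ∣ a + b ∧ x = a + b * ω) ?_ ⟨0, 0, by simp⟩
      fun i _ => ?_
    · rintro _ _ ⟨a, b, e, rfl⟩ ⟨c, d, e', rfl⟩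
      exact ⟨a + c, b + d, by omega, by push_cast; ring⟩
    · obtain ⟨k, hk⟩ := orderOf_dvd_of_pow_eq_one h3
      rcases cube_cases hω (μ := μ i) (by rw [hk, pow_mul, h1, one_pow]) with e | e | e <;> rw [e]
      exacts [⟨0, 0, by simp⟩, ⟨-1, 1, by simp, by push_cast; ring⟩,
        ⟨-2, -1, by simp, by push_cast; ring⟩]
  obtain ⟨a, b, h5, h6⟩ := h4
  have h7 : (χ : G → ℂ) u = charDegree (χ : G → ℂ) + a + b * ω := by
    have := h2 1
    simp only [zpow_one] at this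
    rw [sum_sub_distrib, ← this, sum_const, card_univ, Fintype.card_fin, nsmul_eq_mul, mul_one,
      ← h0, ← irr_degree_cast] at h6
    linear_combination h6
  have h8 := irr_isConj χ hr
  rw [irr_inv, h7] at h8
  simp only [map_add, map_mul, map_intCast, map_natCast, conj_om hω] at h8
  obtain ⟨rfl, -⟩ := om_indep hω (a := b) (b := 2 * b) (by push_cast; linear_combination h8)
  exact ⟨charDegree (χ : G → ℂ) + a, by simp [h7], by simpa using h5⟩

theorem col_int {I : Type*} [DecidableEq I] {s H : Finset I} {x d σ : I → ℤ} {i₀ : I} (hH : H ⊆ s)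
    (hi₀ : i₀ ∈ H) (h1 : x i₀ = 1) (h1' : σ i₀ = 1) (hd : d i₀ = 1) (hσ : ∀ i ∈ H, σ i * σ i = 1)
    (h2 : ∀ i ∈ H, 3 ∣ σ i * x i - 1) (h3 : ∀ i ∈ s, i ∉ H → 3 ∣ x i)
    (h9 : ∑ i ∈ s, x i * x i = 9) (h0 : ∑ i ∈ s, x i * d i = 0) :
    (∀ i ∈ s, i ∉ H → x i = 0) ∧ ((H.card = 9 ∧ ∀ i ∈ H, x i = σ i) ∨
      (H.card = 6 ∧ ∃ c ∈ H, ∀ i ∈ H, x i = σ i * (1 - 3 * if i = c then 1 else 0))) := by
  have h4 : ∀ i ∈ s, i ≠ i₀ → x i * x i ≤ 8 := fun i hi h4 => by
    have := single_le_sum (f := fun i => x i * x i) (fun i _ => mul_self_nonneg _)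
      (mem_erase.2 ⟨h4, hi⟩)
    have h5 := add_sum_erase s (fun i => x i * x i) (hH hi₀)
    simp only [h1] at h5
    omega
  have h5 : ∀ i ∈ s, i ∉ H → x i = 0 := fun i hi hi' => by
    have := h4 i hi fun e => hi' (e ▸ hi₀)
    obtain ⟨t, ht⟩ := h3 i hi hi'
    rw [ht] at this ⊢
    nlinarith [sq_nonneg (2 * t - 1), sq_nonneg (2 * t + 1), show t * t ≤ 0 by nlinarith]
  have h6 : ∀ i ∈ H, x i = σ i ∨ x i = -2 * σ i := fun i hi => by
    by_cases e : i = i₀
    · left; rw [e, h1, h1']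
    have h6 := h4 i (hH hi) e
    have h7 := h2 i hi
    have h8 : x i ≤ 2 := by nlinarith
    have h9 : -2 ≤ x i := by nlinarith
    rcases Int.eq_one_or_neg_one_of_mul_eq_one (hσ i hi) with e | e <;> rw [e] at h7 ⊢ <;> omega
  set W := H.filter fun i => x i = -2 * σ i with hW
  have h7 : ∀ i ∈ H, i ∉ W → x i = σ i := fun i hi hi' =>
    (h6 i hi).resolve_right fun e => hi' (mem_filter.2 ⟨hi, e⟩)
  have h8 : (H.card : ℤ) + 3 * W.card = 9 := by
    rw [← h9, ← sum_subset hH fun i hi hi' => by rw [h5 i hi hi', mul_zero],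
      sum_congr rfl (g := fun i => 1 + 3 * if x i = -2 * σ i then 1 else 0) fun i hi => by
        split_ifs with e
        · rw [e]; linear_combination 4 * hσ i hi
        · rw [(h6 i hi).resolve_right e, hσ i hi]; ring]
    rw [sum_add_distrib, ← mul_sum, sum_boole, sum_const, nsmul_eq_mul, mul_one]
  have h10 : W ⊆ H.erase i₀ := fun i hi => mem_erase.2 ⟨fun e => by
    have := (mem_filter.1 hi).2
    rw [e, h1, h1'] at this
    omega, (mem_filter.1 hi).1⟩
  have h11 := card_le_card h10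
  have h12 := card_erase_add_one hi₀
  refine ⟨h5, ?_⟩
  rcases (by omega : W.card = 0 ∨ W.card = 1 ∨ W.card = 2) with e | e | e
  · exact Or.inl ⟨by omega, fun i hi => h7 i hi (by simp [card_eq_zero.1 e])⟩
  · obtain ⟨c, hc⟩ := card_eq_one.1 e
    have hc' : c ∈ W := by simp [hc]
    refine Or.inr ⟨by omega, c, (mem_filter.1 hc').1, fun i hi => ?_⟩
    split_ifs with e'
    · rw [e', (mem_filter.1 hc').2]; ring
    · rw [h7 i hi (by simpa [hc] using e')]; ring
  · rw [← sum_subset hH fun i hi hi' => by rw [h5 i hi hi', zero_mul], ← add_sum_erase _ _ hi₀,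
      ← eq_of_subset_of_card_le h10 (by omega), h1, hd] at h0
    have : 2 ∣ ∑ i ∈ W, x i * d i := dvd_sum fun i hi => by
      rw [(mem_filter.1 hi).2]; exact ⟨-σ i * d i, by ring⟩
    omega

/-- The sign congruent to the degree modulo `3`. -/
noncomputable def sg (χ : IrrCharacter G) : ℤ := if charDegree (χ : G → ℂ) % 3 = 1 then 1 else -1

variable (M G) in
open Classical in
/-- The characters of height zero in the principal `3`-block. -/
noncomputable def hz : Finset (IrrCharacter G) :=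
  (fs (principalBlock M G)).filter fun χ => ¬ 3 ∣ charDegree (χ : G → ℂ)

theorem mem_hz {χ : IrrCharacter G} :
    χ ∈ hz G M ↔ χ ∈ principalBlock M G ∧ ¬ 3 ∣ charDegree (χ : G → ℂ) := by
  simp [hz, mem_fs]

theorem hz_subset : hz G M ⊆ fs (principalBlock M G) := fun _ h => mem_fs.2 (mem_hz.1 h).1

theorem sg_sq (χ : IrrCharacter G) : sg χ * sg χ = 1 := by unfold sg; split_ifs <;> rfl

theorem conj_sg (χ : IrrCharacter G) : conj (sg χ : ℂ) = sg χ := map_intCast _ _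

theorem sg_dvd {χ : IrrCharacter G} (h : χ ∈ hz G M) {x : ℤ}
    (hx : 3 ∣ x - charDegree (χ : G → ℂ)) : 3 ∣ sg χ * x - 1 := by
  have := (mem_hz.1 h).2
  unfold sg
  split_ifs <;> omega

theorem dvd_of_notMem_hz {χ : IrrCharacter G} (h : χ ∈ fs (principalBlock M G)) (h' : χ ∉ hz G M)
    {x : ℤ} (hx : 3 ∣ x - charDegree (χ : G → ℂ)) : 3 ∣ x := by
  have := not_not.1 (mt (fun e => mem_hz.2 ⟨mem_fs.1 h, e⟩) h')
  omega

theorem deg_one : charDegree (H33.oneIrr G : G → ℂ) = 1 :=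
  charDegree_eq_of_cast (by simp [H33.oneIrr_apply])

theorem one_mem_hz : H33.oneIrr G ∈ hz G M :=
  mem_hz.2 ⟨H33.oneIrr_mem_principalBlock, by simp [deg_one]⟩

theorem card_hz : (hz G M).card = Nat.card {χ : IrrCharacter G // χ ∈ principalBlock M G ∧
    blockHeight 3 (principalBlock M G) (χ : G → ℂ) = 0} := by
  classical
  rw [← card_filter_fs, hz]
  refine congrArg card (filter_congr fun χ _ => ?_)
  rw [blockHeight_principalBlock, Nat.factorization_eq_zero_iff]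
  simp [Nat.prime_three, H33.charDegree_ne_zero χ]

variable (M) in
/-- Real elements of order `3` whose columns have norm `9`. -/
structure Col3 (Y : Finset G) : Prop where
  hM : IsPModular 3 M
  ord : ∀ u ∈ Y, orderOf u = 3
  real : ∀ u ∈ Y, IsConj u u⁻¹
  lam : ∀ u ∈ Y, lamC M u = 9
  inj : ∀ u ∈ Y, ∀ v ∈ Y, IsConj u v → u = v
  nonempty : Y.Nonempty

open Classical in
theorem Col3.col {Y : Finset G} (h : Col3 M Y) {u : G} (hu : u ∈ Y) :
    (∀ χ ∈ fs (principalBlock M G), χ ∉ hz G M → (χ : G → ℂ) u = 0) ∧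
    (((hz G M).card = 9 ∧ ∀ χ ∈ hz G M, (χ : G → ℂ) u = sg χ) ∨ ((hz G M).card = 6 ∧
      ∃ c ∈ hz G M, ∀ χ ∈ hz G M, (χ : G → ℂ) u = sg χ * (1 - 3 * if χ = c then 1 else 0))) := by
  choose x hx hx' using fun χ => exists_int_cube χ (h.ord u hu ▸ pow_orderOf_eq_one u) (h.real u hu)
  have h3 : ∃ k, orderOf u = 3 ^ k := ⟨1, h.ord u hu⟩
  have h1 := colS_self h.hM h3
  have h2 := colS_principal h.hM (y := 1) ⟨0, by simp⟩ h3
  rw [if_neg fun e => by simpa [isConj_one_right.1 e] using h.ord u hu] at h2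
  simp only [colS, hx, h.lam u hu, map_intCast, map_natCast, ← irr_degree_cast] at h1 h2
  obtain ⟨h4, h5⟩ := col_int (x := x) (d := fun χ => charDegree (χ : G → ℂ)) (σ := sg) hz_subset
    one_mem_hz (by exact_mod_cast (hx (H33.oneIrr G)).symm.trans (H33.oneIrr_apply u)) (by simp [sg, deg_one])
    (by simp [deg_one]) (fun χ _ => sg_sq χ) (fun χ hχ => sg_dvd hχ (hx' χ))
    (fun χ hχ hχ' => dvd_of_notMem_hz hχ hχ' (hx' χ)) (by exact_mod_cast h1) (by exact_mod_cast h2)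
  refine ⟨fun χ hχ hχ' => by simp [hx, h4 χ hχ hχ'], h5.imp (fun e => ⟨e.1, fun χ hχ => ?_⟩)
    fun ⟨e, c, hc, e'⟩ => ⟨e, c, hc, fun χ hχ => ?_⟩⟩
  · rw [hx, e.2 χ hχ]
  · rw [hx, e' χ hχ]; simp

theorem Col3.sum_mul {Y : Finset G} (h : Col3 M Y) {u : G} (hu : u ∈ Y) (F : IrrCharacter G → ℂ) :
    ∑ χ ∈ fs (principalBlock M G), (χ : G → ℂ) u * F χ = ∑ χ ∈ hz G M, (χ : G → ℂ) u * F χ :=
  (sum_subset hz_subset fun χ hχ hχ' => by rw [(h.col hu).1 χ hχ hχ', zero_mul]).symm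

open Classical in
theorem Col3.cases {Y : Finset G} (h : Col3 M Y) :
    ((hz G M).card = 9 ∧ Y.card = 1 ∧ ∀ u ∈ Y, ∀ χ ∈ hz G M, (χ : G → ℂ) u = sg χ) ∨
    ((hz G M).card = 6 ∧ ∃ c : G → IrrCharacter G, Set.InjOn c Y ∧ ∀ u ∈ Y, c u ∈ hz G M ∧
      ∀ χ ∈ hz G M, (χ : G → ℂ) u = sg χ * (1 - 3 * if χ = c u then 1 else 0)) := by
  have h1 : ∀ u ∈ Y, ∀ v ∈ Y, (∀ χ ∈ hz G M, (χ : G → ℂ) u = (χ : G → ℂ) v) → u = v :=
    fun u hu v hv e => h.inj u hu v hv (by
      by_contra h1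
      have h2 := colS_principal h.hM ⟨1, h.ord u hu⟩ ⟨1, h.ord v hv⟩
      have h3 := colS_self h.hM ⟨1, h.ord u hu⟩
      rw [if_neg h1, colS, h.sum_mul hv, sum_congr rfl fun χ hχ => by rw [← e χ hχ],
        ← h.sum_mul hu, ← colS, h3, h.lam u hu] at h2
      norm_num at h2)
  obtain ⟨u₀, hu₀⟩ := h.nonempty
  rcases (h.col hu₀).2 with ⟨e, -⟩ | ⟨e, -⟩
  · have h2 := fun u hu => ((h.col (u := u) hu).2.resolve_right fun e' => by omega).2
    exact Or.inl ⟨e, card_eq_one.2 ⟨u₀, eq_singleton_iff_unique_mem.2 ⟨hu₀, fun u hu =>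
      h1 u hu u₀ hu₀ fun χ hχ => by rw [h2 u hu χ hχ, h2 u₀ hu₀ χ hχ]⟩⟩, h2⟩
  · choose! c hc hc' using fun u hu => ((h.col (u := u) hu).2.resolve_left fun e' => by omega).2
    exact Or.inr ⟨e, c, fun u hu v hv e' => h1 u hu v hv fun χ hχ => by
      rw [hc' u hu χ hχ, hc' v hv χ hχ, e'], fun u hu => ⟨hc u hu, hc' u hu⟩⟩

variable {p : ℕ} [Fact p.Prime]

theorem rank_of_hnc (hM : IsPModular p M) (h : HasNormalPComplement p G) :
    blockRank p (principalBlock M G) = 1 :=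
  have := Fintype.ofFinite G
  (S4646.result p M hM).1 ((S4691.result p M hM).1 h)

theorem sum_sq_of_hnc (hM : IsPModular p M) (h : HasNormalPComplement p G) (S : Sylow p G) :
    ∑ ξ ∈ fs (principalBlock M G), charDegree (ξ : G → ℂ) ^ 2 = Nat.card S := by
  classical
  obtain ⟨N, hN, h1⟩ := (H3.hasNormalPComplement_iff_sylow S).1 h
  obtain ⟨k, hk⟩ := S.isPGroup'.exists_card_eq
  have h4 := H33.mem_principalBlock_iff_of_normal_complement hM N
    (h1.index_eq_card ▸ S.not_dvd_index) ⟨k, h1.symm.index_eq_card.trans hk⟩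
  apply Nat.cast_injective (R := ℂ)
  rw [← h1.symm.index_eq_card, ← H33.sum_degree_sq_of_le_ker N]
  push_cast
  refine Finset.sum_congr ?_ fun ξ _ => by rw [irr_degree_cast]
  ext
  simp only [Finset.mem_filter, mem_fs, h4, Finset.mem_univ, true_and]

theorem card_principal (hM : IsPModular p M) {X : Finset G} (hX : PReps p X) :
    Nat.card (principalBlock M G) = ∑ x ∈ X, blockRank p (principalBlock M (Cg x)) := by
  have := Fintype.ofFinite G
  rw [card_eq_sum_pReps hM hX H32.isPBlock_principalBlock]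
  refine sum_congr rfl fun x hx => ?_
  rw [blockRank_eq_card hM H32.isPBlock_principalBlock]
  congr 1
  ext j
  simp [mem_ibrOf, H33.isInducedBlock_principal_iff hM (hX.pElt x hx) j.isPBlock_blk]

theorem rank_Cg_one : blockRank p (principalBlock M (Cg (1 : G))) =
    blockRank p (principalBlock M G) := by
  have : Cg (1 : G) = ⊤ := by ext; simp [mem_Cg]
  rw [this, ← blkComap_principalBlock topEquiv, blockRank_blkComap]

end Cfsg.Agent.H87
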