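import Cfsg.Agent.H87.SylIn
import Cfsg.Agent.H34.AbSyl
import Cfsg.Agent.H34.Quot
import Cfsg.Agent.H3.PComplement
import Cfsg.Agent.S0071

/-! Groups with a Sylow `3`-subgroup `3^{1+2}_+` whose centre is centralized by its normalizer. -/

set_option autoImplicit false
set_option linter.unusedSectionVars false

open Subgroup

namespace Cfsg.Agent.H87

open Cfsg Cfsg.Agent.H34

variable {G : Type*} [Group G] [Finite G] {P R : Subgroup G} {z u v g n x : G}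

theorem mem_of_pow_mem_coprime {K : Type*} [Group K] {H : Subgroup K} {g : K} {a b : ℕ}
    (hab : a.Coprime b) (ha : g ^ a ∈ H) (hb : g ^ b ∈ H) : g ∈ H := by
  have h1 := Nat.gcd_eq_gcd_ab a b
  rw [hab, Nat.cast_one] at h1
  rw [← zpow_one g, h1, zpow_add, zpow_mul, zpow_mul, zpow_natCast, zpow_natCast]
  exact H.mul_mem (H.zpow_mem ha _) (H.zpow_mem hb _)

theorem mem_Cg {a b : G} : a ∈ Cg b ↔ a * b = b * a := mem_centralizer_singleton_iff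

theorem conj_eq_of_mem_Cg {a b : G} (h : a ∈ Cg b) : a * b * a⁻¹ = b := by
  rw [mem_Cg.1 h, mul_inv_cancel_right]

theorem conj_mem_Cg {a b : G} (h : a ∈ Cg b) (g : G) : g * a * g⁻¹ ∈ Cg (g * b * g⁻¹) :=
  mem_Cg.2 (by simpa using congrArg (MulAut.conj g) (mem_Cg.1 h))

theorem Cg_symm {a b : G} (h : a ∈ Cg b) : b ∈ Cg a := mem_Cg.2 (mem_Cg.1 h).symm

theorem Cg_inv (a : G) : Cg a⁻¹ = Cg a := by
  ext x
  exact ⟨fun h => Cg_symm (inv_mem_iff.1 (Cg_symm h)), fun h => Cg_symm (inv_mem (Cg_symm h))⟩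

theorem card_lt_of_lt' {A B : Subgroup G} (h : A < B) : Nat.card A < Nat.card B :=
  lt_of_not_ge fun h1 => h.ne (eq_of_le_of_card_ge h.le h1)

variable (P z) in
/-- The hypotheses. -/
structure X3 : Prop where
  syl : SylIn 3 P ⊤
  card : Nat.card P = 27
  exp : ∀ x ∈ P, x ^ 3 = 1
  mem : z ∈ P
  ne : z ≠ 1
  cen : ∀ x ∈ P, (∀ y ∈ P, x * y = y * x) ↔ x ∈ zpowers z
  com : ∀ x ∈ P, ∀ y ∈ P, x * y * x⁻¹ * y⁻¹ ∈ zpowers z
  nor : No P ≤ Cg z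

instance fact3 : Fact (Nat.Prime 3) := ⟨Nat.prime_three⟩

namespace X3

variable (h : X3 P z)
include h

theorem ord (hu : u ∈ P) (h1 : u ≠ 1) : orderOf u = 3 := orderOf_eq_prime (h.exp u hu) h1

theorem pElt (hu : u ∈ P) : ∃ k, orderOf u = 3 ^ k := pElt_of_le h.syl.pgp hu

theorem zle : zpowers z ≤ P := zpowers_le_of_mem h.mem

theorem cardZ : Nat.card (zpowers z) = 3 := by rw [Nat.card_zpowers, h.ord h.mem h.ne]

theorem le_C : P ≤ Cg z := le_normalizer.trans h.nor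

theorem inv_eq : z⁻¹ = z * z := by
  rw [inv_eq_iff_mul_eq_one, ← h.exp z h.mem, pow_three]

theorem mem_Z : x ∈ zpowers z ↔ x = 1 ∨ x = z ∨ x = z⁻¹ := by
  classical
  refine ⟨fun hx => ?_, ?_⟩
  · rw [mem_zpowers_iff_mem_range_orderOf, h.ord h.mem h.ne] at hx
    obtain ⟨k, hk, rfl⟩ := Finset.mem_image.1 hx
    rw [Finset.mem_range] at hk
    interval_cases k <;> simp [h.inv_eq, sq]
  · rintro (rfl | rfl | rfl)
    exacts [one_mem _, mem_zpowers _, inv_mem (mem_zpowers _)]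

theorem ne_inv : z ≠ z⁻¹ := fun e => h.ne (by
  have := h.inv_eq
  rw [← e] at this
  simpa using this)

omit h in
theorem comm_Z (hg : g ∈ Cg z) (hx : x ∈ zpowers z) : g * x = x * g := by
  obtain ⟨k, rfl⟩ := hx
  exact (Commute.zpow_right (mem_Cg.1 hg) k).eq

theorem nine_le (hR : R ≤ P) (hz : z ∈ R) (hu : u ∈ R) (hu' : u ∉ zpowers z) : 9 ≤ Nat.card R := by
  have h1 : Nat.card R ∣ 3 ^ 3 := (card_dvd_of_le hR).trans h.card.dvd
  have h2 : 3 < Nat.card R := h.cardZ ▸ card_lt_of_lt'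
    (lt_of_le_of_ne (zpowers_le_of_mem hz) fun e => hu' (e ▸ hu))
  obtain ⟨k, hk, h3⟩ := (Nat.dvd_prime_pow Nat.prime_three).1 h1
  interval_cases k <;> omega

theorem z_mem_Q (hu : u ∈ P) : z ∈ P ⊓ Cg u := ⟨h.mem, mem_Cg.2 (mem_Cg.1 (h.le_C hu)).symm⟩

theorem card_Q (hu : u ∈ P) (hu' : u ∉ zpowers z) : Nat.card (P ⊓ Cg u : Subgroup G) = 9 := by
  have h1 : Nat.card (P ⊓ Cg u : Subgroup G) ∣ 3 ^ 3 :=
    (card_dvd_of_le inf_le_left).trans h.card.dvd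
  have h2 := h.nine_le inf_le_left (h.z_mem_Q hu) ⟨hu, mem_Cg.2 rfl⟩ hu'
  have h3 : Nat.card (P ⊓ Cg u : Subgroup G) < 27 := h.card ▸ card_lt_of_lt'
    (lt_of_le_of_ne inf_le_left fun e => hu' ((h.cen u hu).1 fun y hy =>
      (mem_Cg.1 (e.ge hy).2).symm))
  obtain ⟨k, hk, h4⟩ := (Nat.dvd_prime_pow Nat.prime_three).1 h1
  interval_cases k <;> omega

theorem Q_le (hu : u ∈ P) (hu' : u ∉ zpowers z) (hz : z ∈ R) (huR : u ∈ R) : P ⊓ Cg u ≤ R := by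
  have h1 := h.nine_le (R := P ⊓ Cg u ⊓ R) (inf_le_left.trans inf_le_left) ⟨h.z_mem_Q hu, hz⟩
    ⟨⟨hu, mem_Cg.2 rfl⟩, huR⟩ hu'
  exact inf_eq_left.1 (eq_of_le_of_card_ge inf_le_left (h.card_Q hu hu' ▸ h1))

theorem exists_conj_mul (hu : u ∈ P) (hu' : u ∉ zpowers z) (hx : x ∈ zpowers z) :
    ∃ y ∈ P, y * u * y⁻¹ = x * u := by
  obtain ⟨y, hy, h1⟩ : ∃ y ∈ P, u * y ≠ y * u := by
    by_contra! h1
    exact hu' ((h.cen u hu).1 h1)
  obtain ⟨w, hw, h2⟩ : ∃ w ∈ zpowers z, y * u * y⁻¹ = w * u := ⟨_, h.com y hy u hu, by group⟩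
  have h3 : y * y * u * (y * y)⁻¹ = w * w * u := by
    calc y * y * u * (y * y)⁻¹ = y * (y * u * y⁻¹) * y⁻¹ := by group
      _ = w * (y * u * y⁻¹) := by
        rw [← mul_assoc w, ← mul_assoc w, ← comm_Z (h.le_C hy) hw, h2, mul_assoc y w]
      _ = _ := by rw [h2, mul_assoc]
  have h4 : w ≠ 1 := fun e => h1 (by rw [e, one_mul, mul_inv_eq_iff_eq_mul] at h2; exact h2.symm)
  have h5 : z⁻¹ * z⁻¹ = z := by rw [← mul_inv_rev, ← h.inv_eq, inv_inv]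
  rcases h.mem_Z.1 hx with rfl | rfl | rfl
  · exact ⟨1, one_mem _, by simp⟩
  · rcases (h.mem_Z.1 hw).resolve_left h4 with rfl | rfl
    exacts [⟨y, hy, h2⟩, ⟨_, mul_mem hy hy, by rw [h3, h5]⟩]
  · rcases (h.mem_Z.1 hw).resolve_left h4 with rfl | rfl
    exacts [⟨_, mul_mem hy hy, by rw [h3, h.inv_eq]⟩, ⟨y, hy, h2⟩]

theorem isConj_mul (hu : u ∈ P) (hu' : u ∉ zpowers z) (hx : x ∈ zpowers z) : IsConj u (x * u) :=
  let ⟨y, _, hy⟩ := h.exists_conj_mul hu hu' hx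
  isConj_iff.2 ⟨y, hy⟩

theorem exists_conj_mem (hx : ∃ k, orderOf x = 3 ^ k) (hg : x ∈ Cg (g * z * g⁻¹)) :
    ∃ y, y * z * y⁻¹ = g * z * g⁻¹ ∧ y⁻¹ * x * y ∈ P := by
  obtain ⟨k, hk⟩ := hx
  have h1 : SylIn 3 (cjS g P) (Cg (g * z * g⁻¹)) := (h.syl.cj g).of_le (by
    rintro _ ⟨y, hy, rfl⟩
    exact conj_mem_Cg (h.le_C hy) g) (by simp)
  obtain ⟨c, hc, h2⟩ := h1.le_conj (IsPGroup.of_card ((Nat.card_zpowers x).trans hk))
    (zpowers_le_of_mem hg)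
  refine ⟨c * g, ?_, mem_cjS.1 (by rw [cjS_mul]; exact h2 (mem_zpowers x))⟩
  rw [← conj_eq_of_mem_Cg hc]
  group

theorem not_isConj_inv : ¬ IsConj z z⁻¹ := fun h1 => by
  obtain ⟨g, hg⟩ := isConj_iff.1 h1
  have h3 : cjS g P ≤ Cg z := by
    rintro _ ⟨y, hy, rfl⟩
    rw [← Cg_inv, ← hg]
    exact conj_mem_Cg (h.le_C hy) g
  obtain ⟨c, hc, h4⟩ := ((h.syl.cj g).of_le h3 (by simp)).conj (h.syl.of_le h.le_C le_top)
  have h5 := h.nor (mem_No_iff_cjS.2 ((cjS_mul c g P).trans h4.symm))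
  exact h.ne_inv ((conj_eq_of_mem_Cg ((mul_mem_cancel_left hc).1 h5)).symm.trans hg)

theorem eq_of_mem_Z (hx : x ∈ zpowers z) (h1 : IsConj z x) : x = z := by
  rcases h.mem_Z.1 hx with rfl | rfl | rfl
  exacts [absurd (isConj_one_left.1 h1) h.ne, rfl, absurd h1 h.not_isConj_inv]

/-- `z` is weakly closed. -/
theorem eq_of_isConj (hu : u ∈ P) (h1 : IsConj z u) : u = z := by
  by_cases hu' : u ∈ zpowers z
  · exact h.eq_of_mem_Z hu' h1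
  obtain ⟨g, rfl⟩ := isConj_iff.1 h1
  obtain ⟨y, h2, h3⟩ := h.exists_conj_mem (h.pElt h.mem) (h.z_mem_Q hu).2
  have h4 : IsConj z (y⁻¹ * z * y) := isConj_iff.2 ⟨y⁻¹, by simp⟩
  have h5 : y⁻¹ * z * y ∉ zpowers z := fun h5 => hu' (by
    have h6 : y * (y⁻¹ * z * y) * y⁻¹ = z := by group
    rw [h.eq_of_mem_Z h5 h4, h2] at h6
    exact h6.symm ▸ mem_zpowers z)
  have h6 : IsConj (z⁻¹ * (y⁻¹ * z * y)) (z * (g * z * g⁻¹)⁻¹) := isConj_iff.2 ⟨y, by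
    rw [← mem_Cg.1 (inv_mem (h.le_C hu)), ← h2]; group⟩
  have h7 : IsConj (g * z * g⁻¹)⁻¹ z⁻¹ := isConj_iff.2 ⟨g⁻¹, by group⟩
  exact absurd ((((h4.trans (h.isConj_mul h3 h5 (inv_mem (mem_zpowers z)))).trans h6).trans
    (h.isConj_mul (inv_mem hu) (by rwa [inv_mem_iff]) (mem_zpowers z)).symm).trans h7)
    h.not_isConj_inv

theorem mem_C_of_conj (hg : g * z * g⁻¹ ∈ P) : g ∈ Cg z :=
  mem_Cg.2 (mul_inv_eq_iff_eq_mul.1 (h.eq_of_isConj hg (isConj_iff.2 ⟨g, rfl⟩)))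

omit h in
theorem conj_notMem (hu' : u ∉ zpowers z) (hg : g ∈ Cg z) : g * u * g⁻¹ ∉ zpowers z := fun h1 => by
  have h2 := comm_Z hg h1
  rw [inv_mul_cancel_right, mul_assoc, mul_right_inj] at h2
  exact hu' (by rwa [mul_assoc, h2] at h1)

theorem sylIn_Q (hu : u ∈ P) (hu' : u ∉ zpowers z) : SylIn 3 (P ⊓ Cg u) (Cg u) := by
  refine ⟨inf_le_right, h.syl.pgp.to_le inf_le_left, fun R h1 h2 h3 => ?_⟩
  obtain ⟨y, -, hy⟩ := h.syl.le_conj h3 le_top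
  have h4 := h.mem_C_of_conj (g := y⁻¹) (by simpa using mem_cjS.1 (hy (h1 (h.z_mem_Q hu))))
  have h5 : y⁻¹ * u * y⁻¹⁻¹ ∈ P := by simpa using mem_cjS.1 (hy (h1 ⟨hu, mem_Cg.2 rfl⟩))
  refine (eq_of_le_of_card_ge h1 ?_).symm
  rw [h.card_Q hu hu', ← h.card_Q h5 (conj_notMem hu' h4), ← card_cjS y⁻¹]
  refine card_le_of_le (le_inf ((cjS_le_cjS_iff y).1 (by simpa using hy)) ?_)
  rintro _ ⟨r, hr, rfl⟩
  exact conj_mem_Cg (h2 hr) _

theorem hnc (hu : u ∈ P) (hu' : u ∉ zpowers z) : HasNormalPComplement 3 (Cg u) := by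
  obtain ⟨S, hS⟩ := sylIn_iff.1 (h.sylIn_Q hu hu')
  have h1 : ∀ x : Cg u, x ∈ S ↔ (x : G) ∈ P ⊓ Cg u := fun x => by
    rw [hS]; exact (mem_map_iff_mem (subtype_injective _)).symm
  refine H3.hasNormalPComplement_of_normalizer_le_centralizer S fun n hn x hx => Subtype.ext ?_
  have h2 := h.mem_C_of_conj ((h1 _).1 ((mem_normalizer_iff.1 hn ⟨z, (h.z_mem_Q hu).2⟩).1
    ((h1 _).2 (h.z_mem_Q hu)))).1
  exact mem_Cg.1 (h.Q_le (R := Cg (n : G)) hu hu' (mem_Cg.2 (mem_Cg.1 h2).symm)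
    (mem_Cg.2 (mem_Cg.1 n.2).symm) ((h1 x).1 hx))

/-- `C(z)` controls fusion. -/
theorem exists_conj_C (hv : v ∈ P) (hv' : v ∉ zpowers z) (hu : u ∈ P) (h1 : IsConj u v) :
    ∃ c ∈ Cg z, c * u * c⁻¹ = v := by
  obtain ⟨g, rfl⟩ := isConj_iff.1 h1
  have h2 := conj_mem_Cg (Cg_symm (h.le_C hu)) g
  obtain ⟨y, hy, h3⟩ := (h.sylIn_Q hv hv').le_conj (IsPGroup.of_card (n := 1)
    ((Nat.card_zpowers _).trans (((MulAut.conj g).orderOf_eq z).trans (h.ord h.mem h.ne))))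
    (zpowers_le_of_mem h2)
  refine ⟨y⁻¹ * g, h.mem_C_of_conj ?_, ?_⟩
  · simpa [mul_assoc] using (mem_cjS.1 (h3 (mem_zpowers _))).1
  · rw [← conj_eq_of_mem_Cg (inv_mem hy)]
    group

theorem cube_conj (hn : n ∈ Cg z) {w t : G} (h1 : n * x * n⁻¹ = x * w) (hw : w ∈ P)
    (ht : t ∈ zpowers z) (h2 : n * w * n⁻¹ = w * t) : x * n ^ 3 = n ^ 3 * x := by
  have h3 : MulAut.conj n t = t := by rw [MulAut.conj_apply, comm_Z hn ht, mul_inv_cancel_right]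
  have h4 : Commute w t := comm_Z (h.le_C hw) ht
  rw [← MulAut.conj_apply] at h1 h2
  have h5 : MulAut.conj n (MulAut.conj n (MulAut.conj n x)) = x * w ^ 3 * t ^ 3 := by
    simp only [h1, map_mul, h2, h3, pow_three, mul_assoc]
    rw [← mul_assoc t w, ← h4.eq, mul_assoc]
  rw [h.exp w hw, h.exp t (h.zle ht), mul_one, mul_one] at h5
  simp only [MulAut.conj_apply] at h5
  conv_lhs => rw [← h5]
  rw [pow_three]
  group

/-- The elements of `P` fixed by `n` modulo `Z`. -/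
def fixZ (n : G) : Subgroup G where
  carrier := {w | w ∈ P ∧ ∃ t ∈ zpowers z, n * w * n⁻¹ = w * t}
  one_mem' := ⟨one_mem _, 1, one_mem _, by simp⟩
  mul_mem' := fun {a b} ⟨ha, s, hs, h1⟩ ⟨hb, t, ht, h2⟩ => ⟨mul_mem ha hb, _, mul_mem hs ht, by
    rw [← mul_assoc (a * b), mul_assoc a b s, comm_Z (h.le_C hb) hs, ← mul_assoc a, ← h1,
      mul_assoc _ b, ← h2]
    group⟩
  inv_mem' := fun {a} ⟨ha, s, hs, h1⟩ => ⟨inv_mem ha, _, inv_mem hs, by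
    rw [← mul_inv_rev, ← comm_Z (h.le_C ha) hs, ← h1]
    group⟩

theorem mem_sup_of_cube (hn : n ∈ No P) (h3 : n ^ 3 ∈ Ce P) : n ∈ P ⊔ Ce P := by
  have h1 : P ⊔ Ce P ≤ No P := sup_le le_normalizer (Ce_le_No P)
  have : ((P ⊔ Ce P).subgroupOf (No P)).Normal := normal_subgroupOf_of_le_normalizer
    ((le_inf le_rfl (No_le_No_Ce P)).trans (No_inf_No_le_sup _ _))
  have h2 : ¬ 3 ∣ (P ⊔ Ce P).relIndex (No P) := fun h2 =>
    (h.syl.of_le le_normalizer le_top).not_dvd_relIndex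
      (h2.trans (relIndex_dvd_of_le_left _ le_sup_left))
  exact mem_of_pow_mem_coprime ((Nat.Prime.coprime_iff_not_dvd Nat.prime_three).2 h2)
    (mem_sup_right h3) (pow_index_mem ((P ⊔ Ce P).subgroupOf (No P)) ⟨n, hn⟩)

theorem mem_sup_of_fix (hn : n ∈ No P) (hu : u ∈ P) (hu' : u ∉ zpowers z) (h1 : u ∈ h.fixZ n) :
    n ∈ P ⊔ Ce P := by
  refine h.mem_sup_of_cube hn (mem_Ce.2 fun x hx => ?_)
  have h2 := h.Q_le hu hu' (R := h.fixZ n)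
    ⟨h.mem, 1, one_mem _, by rw [conj_eq_of_mem_Cg (h.nor hn), mul_one]⟩ h1
  obtain ⟨-, s, hs, h3⟩ := h1
  have h4 : x⁻¹ * (n * x * n⁻¹) ∈ P := mul_mem (inv_mem hx) (conj_mem_of_No hn hx)
  have h5 := comm_Z (h.nor hn) (h.com x hx u hu)
  have h6 := comm_Z (h.le_C (inv_mem (conj_mem_of_No hn hx))) hs
  have h8 : n * x * n⁻¹ * (u * s) * (n * x * n⁻¹)⁻¹ * (u * s)⁻¹ = x * u * x⁻¹ * u⁻¹ := by
    rw [← h3, ← mul_inv_eq_iff_eq_mul.2 h5]; group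
  rw [← mul_assoc _ u s, mul_assoc _ s, ← h6] at h8
  obtain ⟨-, t, ht, h7⟩ := h2 ⟨h4, mem_Cg.2 (by
    calc x⁻¹ * (n * x * n⁻¹) * u = x⁻¹ * (n * x * n⁻¹ * u * ((n * x * n⁻¹)⁻¹ * s) * (u * s)⁻¹) *
          u * (n * x * n⁻¹) := by group
      _ = _ := by rw [h8]; group)⟩
  exact h.cube_conj (h.nor hn) (by group) h4 ht h7

theorem fix_of_mem_sup (hn : n ∈ P ⊔ Ce P) (hu : u ∈ P) : u ∈ h.fixZ n := by
  have h1 : P ⊔ Ce P ≤ No P := sup_le le_normalizer (Ce_le_No P)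
  have : (P.subgroupOf (No P)).Normal := normal_subgroupOf_of_le_normalizer le_rfl
  have h2 : (⟨n, h1 hn⟩ : No P) ∈ P.subgroupOf (No P) ⊔ (Ce P).subgroupOf (No P) := by
    rw [← subgroupOf_sup le_normalizer (Ce_le_No P)]; exact hn
  obtain ⟨a, ha, c, hc, h3⟩ := (mem_sup_of_normal_left).1 h2
  obtain rfl : (a : G) * c = n := congrArg Subtype.val h3
  refine ⟨hu, _, h.com _ (inv_mem hu) _ ha, ?_⟩
  rw [mul_assoc _ _ u, ← show u * c = c * u from mem_Ce.1 hc u hu]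
  simp [mul_assoc]

end X3

end Cfsg.Agent.H87
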