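import Cfsg.Agent.H87.X3Col
import Cfsg.Agent.H34.AbMain
import Cfsg.Agent.H34.AbBlk

/-! Columns at the major subsections for a Sylow subgroup `3^{1+2}_+`. -/

set_option autoImplicit false
set_option linter.unusedSectionVars false

open Subgroup Finset ComplexConjugate

namespace Cfsg.Agent.H87

open Cfsg Cfsg.Agent.H34 Cfsg.Agent.H32 Cfsg.Agent.H86

variable {G : Type*} [Group G] [Finite G] {M : Ideal AlgInt} [hMm : M.IsMaximal]

section cmb

variable [Fintype G] {c c' : IrrCharacter G → ℤ}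

variable (M) in
/-- An integral combination of the characters of the principal block. -/
noncomputable def cmb (c : IrrCharacter G → ℤ) : G → ℂ :=
  ∑ ψ ∈ fs (principalBlock M G), c ψ • (ψ : G → ℂ)

theorem cmb_apply (c : IrrCharacter G → ℤ) (g : G) :
    cmb M c g = ∑ ψ ∈ fs (principalBlock M G), c ψ * (ψ : G → ℂ) g := by simp [cmb]

theorem virt_cmb (c : IrrCharacter G → ℤ) : IsGeneralizedCharacter G (cmb M c) :=
  H53.virt_sum _ _ fun ψ _ => H53.virt_zsmul _ (H53.virt_of_irr ψ.2)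

theorem blockPart_cmb (c : IrrCharacter G → ℤ) :
    blockPart (principalBlock M G) (cmb M c) = cmb M c := by
  rw [cmb, H86.blockPart_sum]
  refine sum_congr rfl fun ψ hψ => ?_
  rw [← Int.cast_smul_eq_zsmul ℂ, H86.blockPart_smul, H86.blockPart_irr_of_mem (mem_fs.1 hψ)]

theorem ci_cmb (F : G → ℂ) (c : IrrCharacter G → ℤ) : classInner F (cmb M c) =
    ∑ ψ ∈ fs (principalBlock M G), c ψ * classInner F ψ := by
  simp only [cmb, H5.classInner_sum_right, H5.classInner_zsmul_right]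

theorem ci_cmb_cmb (c c' : IrrCharacter G → ℤ) : classInner (cmb M c) (cmb M c') =
    (∑ ψ ∈ fs (principalBlock M G), c ψ * c' ψ : ℤ) := by
  classical
  rw [ci_cmb]
  push_cast
  refine sum_congr rfl fun ψ hψ => ?_
  simp [cmb, H5.classInner_sum_left, H5.classInner_irrCharacter, hψ, mul_comm,
    ← Int.cast_smul_eq_zsmul ℂ, H5.classInner_smul_left]

variable (M) in
/-- The combination vanishes on the singular elements. -/
def Van (c : IrrCharacter G → ℤ) : Prop := ∀ g, 3 ∣ orderOf g → cmb M c g = 0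

theorem van_deg (hM : IsPModular 3 M) : Van M fun ψ : IrrCharacter G => charDegree (ψ : G → ℂ) :=
  fun g hg => by
    obtain ⟨x, hx⟩ := H33.exists_isPPart hM.1 g
    have := colS_eq_zero hM H32.isPBlock_principalBlock hx (H33.isPPart_self hM.1 ⟨0, orderOf_one⟩)
      fun e => (H33.IsPPart.eq_one_iff hM.1 hx).1 (isConj_one_left.1 e) hg
    rw [cmb_apply, ← this, colS]
    exact sum_congr rfl fun ψ _ => by rw [conj_irr_one, Int.cast_natCast, irr_degree_cast, mul_comm]

end cmb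

theorem blockDefect_principal {p : ℕ} :
    blockDefect p (principalBlock M G) = (Nat.card G).factorization p := by
  have := minExp_le (p := p) (H33.oneIrr_mem_principalBlock (M := M) (G := G))
  rw [deg_one] at this
  rw [H34.blockDefect_eq, show minExp p (principalBlock M G) = 0 by simpa using this, Nat.sub_zero]

theorem gram_of_eis {I : Type*} {s : Finset I} {ω : ℂ} (hω : IsPrimitiveRoot ω 3)
    {a b a' b' : I → ℤ} {n : ℤ}
    (h1 : ∑ i ∈ s, ((a' i : ℂ) + b' i * ω) * conj ((a i : ℂ) + b i * ω) = 3 * n)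
    (h2 : ∑ i ∈ s, ((a i : ℂ) + b i * ω) * (a' i + b' i * ω) = 0) :
    ∑ i ∈ s, a i * a' i = 2 * n ∧ ∑ i ∈ s, (a i - b i) * (a' i - b' i) = 2 * n ∧
      ∑ i ∈ s, a i * (a' i - b' i) = n := by
  have h3 := om_indep hω
    (a := ∑ i ∈ s, a i * a' i + ∑ i ∈ s, b i * b' i - ∑ i ∈ s, b i * a' i - 3 * n)
    (b := ∑ i ∈ s, a i * b' i - ∑ i ∈ s, b i * a' i) (by
      push_cast
      rw [← h1]
      simp only [← sum_add_distrib, ← sum_sub_distrib, sum_mul]
      refine sum_eq_zero fun i _ => ?_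
      simp only [map_add, map_mul, map_intCast, conj_om hω]
      linear_combination (b i * b' i : ℂ) * om_sq hω)
  have h4 := om_indep hω (a := ∑ i ∈ s, a i * a' i - ∑ i ∈ s, b i * b' i)
    (b := ∑ i ∈ s, a i * b' i + ∑ i ∈ s, b i * a' i - ∑ i ∈ s, b i * b' i) (by
      push_cast
      rw [← h2]
      simp only [← sum_add_distrib, ← sum_sub_distrib, sum_mul]
      refine sum_congr rfl fun i _ => ?_
      linear_combination -(b i * b' i : ℂ) * om_sq hω)
  simp only [sub_mul, mul_sub, sum_sub_distrib]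
  omega

variable {P : Subgroup G} {z : G} [Fintype G] [Fintype (Cg z)] [Fintype (Cb z)]
  {c c' : IrrCharacter (Cb z) → ℤ} {χ : IrrCharacter G}

variable (M) in
/-- The lifted projective character. -/
noncomputable def Lf (c : IrrCharacter (Cb z) → ℤ) : Cg z → ℂ := (3 : ℂ) • lif 3 (cmb M c)

variable (M) in
/-- The column attached to `c`. -/
noncomputable def Th (c : IrrCharacter (Cb z) → ℤ) (χ : IrrCharacter G) : ℂ :=
  classInner (shift (Cg z) z χ) (Lf M c)

variable (M z) in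
/-- The part of `χ` on the section of `z` seen in the quotient. -/
noncomputable def Fb (χ : IrrCharacter G) : Cb z → ℂ :=
  blockPart (principalBlock M (Cb z)) (pRegularPart 3
    (dsc 3 (Zc z) (gen 3 (Cg z) z (principalBlock M (Cg z)) χ)))

theorem reg_Lf (c : IrrCharacter (Cb z) → ℤ) : pRegularPart 3 (Lf M c) = Lf M c := by
  rw [Lf, reg_smul, reg_lif]

theorem Th_eq (c : IrrCharacter (Cb z) → ℤ) (χ : IrrCharacter G) :
    Th M c χ = classInner χ (sec 3 (isCent_centralizer z) (Lf M c)) := by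
  rw [ci_sec_right _ (irr_cf χ.2), classInner_reg, reg_Lf, Th]

namespace X3

variable (h : X3 P z) (hM : IsPModular 3 M)
include h hM

theorem ind : IsInducedBlock M (Cg z) (principalBlock M (Cg z)) (principalBlock M G) :=
  (H33.isInducedBlock_principal_iff hM (h.pElt h.mem) H32.isPBlock_principalBlock).2 rfl

theorem dom_eq : dom (Zc z) (principalBlock M (Cg z)) = principalBlock M (Cb z) :=
  H33.block_eq_of_mem (h.cz.isPBlock_dom hM H32.isPBlock_principalBlock).1
    H32.isPBlock_principalBlock (χ := H33.oneIrr _) H33.oneIrr_mem_principalBlock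
    H33.oneIrr_mem_principalBlock

theorem blockPart_Lf (c : IrrCharacter (Cb z) → ℤ) :
    blockPart (principalBlock M (Cg z)) (Lf M c) = Lf M c := by
  rw [Lf, H86.blockPart_smul, blockPart_lif hM H32.isPBlock_principalBlock
    (H53.virt_classFun (virt_cmb c)), h.dom_eq hM, blockPart_cmb]

theorem blockPart_sec_Lf (c : IrrCharacter (Cb z) → ℤ) : blockPart (principalBlock M G)
    (sec 3 (isCent_centralizer z) (Lf M c)) = sec 3 (isCent_centralizer z) (Lf M c) := by
  rw [← h.blockPart_Lf hM c]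
  exact blockPart_sec hM _ (h.pElt h.mem) (h.ind hM) _

theorem lif_Fb (χ : IrrCharacter G) :
    lif 3 (Fb M z χ) = gen 3 (Cg z) z (principalBlock M (Cg z)) χ := by
  rw [Fb, ← h.dom_eq hM, ← blockPart_lif hM H32.isPBlock_principalBlock (isClassFunction_reg
    (h.cz.isClassFunction_dsc (isClassFunction_gen _ _))), lif_reg, h.cz.lif_dsc,
    reg_gen hM H32.isPBlock_principalBlock, blockPart_gen]

theorem reg_Fb (χ : IrrCharacter G) : pRegularPart 3 (Fb M z χ) = Fb M z χ := by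
  rw [Fb, blockPart_reg hM H32.isPBlock_principalBlock, reg_reg]

theorem Th_eq_sum (c : IrrCharacter (Cb z) → ℤ) (χ : IrrCharacter G) : Th M c χ =
    ∑ ψ ∈ fs (principalBlock M (Cb z)), c ψ * classInner (Fb M z χ) ψ := by
  rw [← ci_cmb, ← h.reg_Fb hM, ← h.cz.ci_lif, h.lif_Fb hM, h.cardZc, Th, ← reg_Lf, ← classInner_reg,
    ← h.blockPart_Lf hM, ← H86.classInner_blockPart, Lf, H5.classInner_smul_right, gen]
  simp [map_ofNat]

theorem sum_Fb (χ : IrrCharacter G) (q : Cb z) : ∑ ψ ∈ fs (principalBlock M (Cb z)),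
    (ψ : Cb z → ℂ) q * classInner (Fb M z χ) ψ = Fb M z χ q := by
  conv_rhs => rw [Fb, ← H86.blockPart_blockPart, ← Fb, blockPart_apply]
  simp only [mul_comm]

theorem Fb_one (hχ : χ ∈ principalBlock M G) : Fb M z χ 1 = (χ : G → ℂ) z := by
  have h1 := congrFun (h.lif_Fb hM χ) 1
  rw [lif, reg_one hM.1, gen_eq hM H32.isPBlock_principalBlock, reg_one hM.1,
    blockPart_shift (isCent_centralizer z) (irr_cf χ.2), mul_one,
    H33.blockPart_principal_restrict_of_mem hM hχ _ (H33.isPPart_self hM.1 (h.pElt h.mem))] at h1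
  exact h1

theorem exists_Fb_ne (hχ : χ ∈ principalBlock M G) :
    ∃ ψ ∈ fs (principalBlock M (Cb z)), classInner (Fb M z χ) ψ ≠ 0 := by
  by_contra! h1
  refine gen_ne_zero_of_major hM (isCent_centralizer z) (h.pElt h.mem) (h.ind hM) ?_ hχ ?_
  · have h2 := (h.syl.of_le h.le_C le_top).card_eq.symm.trans h.syl.card_eq
    rw [blockDefect_principal, blockDefect_principal, Nat.pow_right_injective (by norm_num) h2,
      Subgroup.card_top]
  · rw [← h.lif_Fb hM, show Fb M z χ = 0 from funext fun q => by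
      rw [← h.sum_Fb hM, sum_eq_zero fun ψ hψ => by rw [h1 ψ hψ, mul_zero]]; rfl]
    exact reg_zero

theorem Th_mem {ω : ℂ} (hω : IsPrimitiveRoot ω 3) (hc : Van M c) (χ : IrrCharacter G) :
    Th M c χ ∈ eis hω := by
  have h1 := h.cz.virt_lif hM (virt_cmb c) hc
  rw [h.cardZc, Nat.cast_ofNat] at h1
  have h2 := fam_ci_shift (isCent_centralizer z) (by rwa [h.ord h.mem h.ne])
    (H53.virt_of_irr χ.2) h1
  rw [h.ord h.mem h.ne] at h2
  simpa [Th, Lf] using mem_eis_of_fam hω h2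

theorem sum_Th_conj (hc : Van M c) (c' : IrrCharacter (Cb z) → ℤ) :
    ∑ χ ∈ fs (principalBlock M G), Th M c' χ * conj (Th M c χ) =
      3 * (∑ ψ ∈ fs (principalBlock M (Cb z)), c ψ * c' ψ : ℤ) := by
  simp only [Th_eq, H5.conj_classInner, mul_comm (classInner (Subtype.val _) _)]
  rw [← classInner_blockPart_left, h.blockPart_sec_Lf hM, ci_sec_sec hM.1 _ (h.pElt h.mem) _
    (h.blockPart_Lf hM c' ▸ H86.isClassFunction_blockPart _ _), reg_Lf, ← ci_cmb_cmb,
    ← reg_eq_self hc, ← h.cz.ci_lif, h.cardZc, Lf, Lf, H5.classInner_smul_left,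
    H5.classInner_smul_right]
  simp [map_ofNat]

theorem sum_Th_mul (c c' : IrrCharacter (Cb z) → ℤ) :
    ∑ χ ∈ fs (principalBlock M G), Th M c χ * Th M c' χ = 0 := by
  set S := sec 3 (isCent_centralizer z) (Lf M c)
  set S' := sec 3 (isCent_centralizer z) (Lf M c')
  have h1 : ∀ χ : IrrCharacter G, classInner χ S = classInner (fun g => conj (S g⁻¹)) χ := fun χ => by
    rw [classInner, classInner, ← Equiv.sum_comp (Equiv.inv G)]
    simp only [Equiv.inv_apply, irr_inv, mul_comm]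
  simp only [Th_eq]
  rw [sum_congr rfl fun χ _ => by rw [h1], ← classInner_blockPart_left, H86.classInner_blockPart,
    h.blockPart_sec_Lf hM, classInner, sum_eq_zero, mul_zero]
  intro g _
  obtain ⟨x, hx⟩ := H33.exists_isPPart hM.1 g
  by_cases h2 : IsConj x z
  · rw [show S g⁻¹ = 0 from sec_eq_zero hM.1 _ (h.pElt h.mem) _ (H33.IsPPart.inv hx) fun h3 =>
      h.not_isConj_inv ?_]
    · simp
    · obtain ⟨y, rfl⟩ := isConj_iff.1 h2
      exact h3.symm.trans (isConj_iff.2 ⟨y, by group⟩)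
  · rw [sec_eq_zero hM.1 _ (h.pElt h.mem) _ hx h2]
    simp

theorem sum_mul_Th (c : IrrCharacter (Cb z) → ℤ) {u : G} (hu : u ∈ P) (hu' : u ∉ zpowers z) :
    ∑ χ ∈ fs (principalBlock M G), (χ : G → ℂ) u * Th M c χ = 0 := by
  have h1 := congrFun (h.blockPart_sec_Lf hM c) u⁻¹
  rw [blockPart_apply, sec_eq_zero hM.1 _ (h.pElt h.mem) _ (H33.isPPart_self hM.1
    (h.pElt (inv_mem hu))) fun e => hu' (inv_mem_iff.1
      (h.eq_of_isConj (inv_mem hu) e.symm ▸ mem_zpowers z))] at h1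
  have h2 := congrArg conj h1
  simpa [Th_eq, irr_inv, H5.conj_classInner, mul_comm] using h2

omit hM in
theorem val_z {ω : ℂ} (hω : IsPrimitiveRoot ω 3) (χ : IrrCharacter G) :
    ∃ x ∈ eis hω, (χ : G → ℂ) z = charDegree (χ : G → ℂ) + 3 * x := by
  classical
  obtain ⟨u, hu, hu'⟩ := h.exists_notMem
  set Q := P ⊓ Cg u
  have := Fintype.ofFinite Q
  have hQ : ∀ a b : Q, a * b = b * a := fun a b => Subtype.ext (mem_Cg.1 (h.Q_le hu hu'
    (Cg_symm (h.le_C b.2.1)) (Cg_symm b.2.2) a.2))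
  let w : Q := ⟨z, h.z_mem_Q hu⟩
  obtain ⟨μ, hμ⟩ := exists_lc_ne_one hQ (y := w) fun e => h.ne (congrArg Subtype.val e)
  have h3 : w * w * w = 1 := Subtype.ext (by simpa [pow_three, mul_assoc] using h.exp z h.mem)
  have key : ∀ μ : Q →* ℂˣ, μ w ≠ 1 → ∃ n : ℤ, (χ : G → ℂ) 1 + (χ : G → ℂ) z * lc μ w⁻¹ +
      (χ : G → ℂ) z⁻¹ * lc μ w = 9 * n := fun μ hμ => by
    obtain ⟨a, ha⟩ := exists_int_aC (virt_lc μ)
    have h1 := ha χ
    have h2 : ∑ y ∈ univ.filter fun y : Q => (y : G) ∉ zpowers z, (χ : G → ℂ) y * lc μ y⁻¹ =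
        lc μ w⁻¹ * ∑ y ∈ univ.filter fun y : Q => (y : G) ∉ zpowers z,
          (χ : G → ℂ) y * lc μ y⁻¹ := by
      rw [mul_sum]
      refine (sum_equiv (Equiv.mulLeft w) (fun y => ?_) fun y hy => ?_).symm
      · simp [w, mul_mem_cancel_left (mem_zpowers z)]
      · rw [Equiv.coe_mulLeft, mul_inv_rev, lc_mul_right, Subgroup.coe_mul,
          ← irr_isConj χ (h.isConj_mul y.2.1 (mem_filter.1 hy).2 (mem_zpowers z))]
        ring
    rw [← sub_eq_zero, ← one_sub_mul, mul_eq_zero_iff_left (by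
      rw [sub_ne_zero, lc_apply, map_inv]
      exact fun e => hμ (inv_eq_one.1 (Units.ext e.symm)))] at h2
    rw [aC, h.card_Q hu hu', ← sum_filter_add_sum_filter_not _ fun y : Q => (y : G) ∈ zpowers z, h2,
      show (univ.filter fun y : Q => (y : G) ∈ zpowers z) = {1, w, w⁻¹} by
        ext y
        simp only [mem_filter, mem_univ, true_and, h.mem_Z, mem_insert, mem_singleton,
          ← Subtype.coe_inj]
        rfl, sum_insert (by
          simp only [mem_insert, mem_singleton, ← Subtype.coe_inj, not_or]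
          exact ⟨h.ne.symm, (inv_ne_one.2 h.ne).symm⟩),
      sum_pair fun e => h.ne_inv (congrArg Subtype.val e)] at h1
    refine ⟨a χ, ?_⟩
    rw [← h1, _root_.inv_one, lc_one_right]
    simp [w, add_assoc]
  obtain ⟨n, hn⟩ := key μ hμ
  obtain ⟨n', hn'⟩ := key μ⁻¹ (by simpa using hμ)
  set ζ := lc μ w with hζ
  have h4 : ζ ^ 3 = 1 := by
    rw [pow_three, hζ, ← lc_mul_right, ← lc_mul_right, ← mul_assoc, h3, lc_one_right]
  have h5 : lc μ w⁻¹ = ζ ^ 2 := by
    rw [inv_eq_of_mul_eq_one_left h3, lc_mul_right, sq]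
  have h6 : ζ ^ 2 + ζ + 1 = 0 := (mul_eq_zero.1 (show (ζ - 1) * (ζ ^ 2 + ζ + 1) = 0 by
    linear_combination h4)).resolve_left (sub_ne_zero.2 fun e => hμ (Units.ext e))
  rw [show lc μ⁻¹ w⁻¹ = ζ by simp [hζ, lc_apply], show lc μ⁻¹ w = lc μ w⁻¹ by simp [lc_apply],
    h5] at hn'
  rw [h5] at hn
  have h7 := mem_eis_of_cube hω h4
  refine ⟨n * ζ + n' * ζ ^ 2 - n - n', sub_mem (sub_mem (add_mem (mul_mem (intCast_mem _ _) h7)
    (mul_mem (intCast_mem _ _) (pow_mem h7 _))) (intCast_mem _ _)) (intCast_mem _ _), ?_⟩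
  rw [irr_degree_cast]
  linear_combination (1 / 3 * (ζ - 1)) * hn + (1 / 3 * (ζ ^ 2 - 1)) * hn' -
    (1 / 3 * ((χ : G → ℂ) 1 + (χ : G → ℂ) z * (2 * ζ - 3) + (χ : G → ℂ) z⁻¹ * (ζ ^ 2 - ζ))) * h6

theorem Th_cong {ω : ℂ} (hω : IsPrimitiveRoot ω 3) (hc : Van M c)
    (h1 : ∀ ψ ∈ fs (principalBlock M (Cb z)), 3 ∣ c ψ - charDegree (ψ : Cb z → ℂ))
    (hχ : χ ∈ principalBlock M G) :
    ∃ x ∈ eis hω, Th M c χ = charDegree (χ : G → ℂ) + 3 * x := by
  choose! t ht using h1
  have h2 : ∀ ψ ∈ fs (principalBlock M (Cb z)), (c ψ : ℂ) = (ψ : Cb z → ℂ) 1 + 3 * t ψ :=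
    fun ψ hψ => by rw [← irr_degree_cast]; exact_mod_cast sub_eq_iff_eq_add'.1 (ht ψ hψ)
  have h3 : Van M t := fun g hg => by
    have h3 := hc g hg
    have h4 := van_deg hM g hg
    simp only [cmb_apply, Int.cast_natCast, irr_degree_cast] at h3 h4 ⊢
    rw [sum_congr rfl fun ψ hψ => by rw [h2 ψ hψ, add_mul, mul_assoc], sum_add_distrib, h4,
      ← mul_sum] at h3
    simpa using h3
  obtain ⟨x, hx, h4⟩ := h.val_z hω χ
  refine ⟨x + Th M t χ, add_mem hx (h.Th_mem hM hω h3 χ), ?_⟩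
  rw [h.Th_eq_sum hM, sum_congr rfl fun ψ hψ => by rw [h2 ψ hψ, add_mul, mul_assoc],
    sum_add_distrib, h.sum_Fb hM, h.Fb_one hM hχ, h4, ← mul_sum, ← h.Th_eq_sum hM]
  ring

/-- The integral columns. -/
theorem exists_cols {ω : ℂ} (hω : IsPrimitiveRoot ω 3) {J : Type*} (T : Finset J)
    (c : J → IrrCharacter (Cb z) → ℤ) (hc : ∀ j ∈ T, Van M (c j)) (g : J → J → ℤ)
    (hg : ∀ j ∈ T, ∀ k ∈ T, ∑ ψ ∈ fs (principalBlock M (Cb z)), c j ψ * c k ψ = g j k) :
    ∃ A C : J → IrrCharacter G → ℤ, GA2 (fs (principalBlock M G)) T A C g ∧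
      ∀ j ∈ T, ∀ χ, Th M (c j) χ = A j χ + (A j χ - C j χ : ℤ) * ω := by
  choose! a b hab using fun j hj χ => h.Th_mem hM hω (hc j hj) χ
  have h1 := fun j hj k hk => gram_of_eis hω (s := fs (principalBlock M G)) (a := a j) (b := b j)
    (a' := a k) (b' := b k) (n := g j k)
    (by simp only [← hab j hj, ← hab k hk]; rw [h.sum_Th_conj hM (hc j hj), hg j hj k hk])
    (by simp only [← hab j hj, ← hab k hk]; exact h.sum_Th_mul hM _ _)
  exact ⟨a, fun j χ => a j χ - b j χ, ⟨fun j hj k hk => (h1 j hj k hk).1,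
    fun j hj k hk => (h1 j hj k hk).2.1, fun j hj k hk => (h1 j hj k hk).2.2⟩,
    fun j hj χ => by rw [hab j hj, sub_sub_cancel]⟩

end X3

end Cfsg.Agent.H87
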