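import Cfsg.Agent.H87.X3Loc

/-! The invariants of the principal `3`-block for a Sylow subgroup `3^{1+2}_+`. -/

set_option autoImplicit false
set_option linter.unusedSectionVars false

open Subgroup Finset ComplexConjugate

namespace Cfsg.Agent.H87

open Cfsg Cfsg.Agent.H34 Cfsg.Agent.H32 Cfsg.Agent.H86

variable {G : Type*} [Group G] [Finite G] {M : Ideal AlgInt} [hMm : M.IsMaximal]
  {P : Subgroup G} {z : G}

theorem abf_card {p : ℕ} [Fact p.Prime] {S : Sylow p G} (hM : IsPModular p M) (h : AbF S)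
    {Y : Finset G} (h1 : ∀ y ∈ Y, y ∈ S ∧ y ≠ 1) (h2 : ∀ g ∈ S, g ≠ 1 → ∃ y ∈ Y, IsConj g y)
    (h3 : ∀ x ∈ Y, ∀ y ∈ Y, IsConj x y → x = y) :
    Nat.card (principalBlock M G) = blockRank p (principalBlock M G) + Y.card := by
  classical
  have h4 : 1 ∉ Y := fun e => (h1 1 e).2 rfl
  have h5 : PReps p (insert 1 Y) := by
    refine pReps_of (S := S) ?_ (fun g hg => ?_) ?_
    · simp only [mem_insert, forall_eq_or_imp]
      exact ⟨⟨0, by simp⟩, fun y hy => pElt_of_le S.isPGroup' (h1 y hy).1⟩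
    · by_cases e : g = 1
      · exact ⟨1, mem_insert_self _ _, e ▸ IsConj.refl _⟩
      · obtain ⟨y, hy, e⟩ := h2 g hg e
        exact ⟨y, mem_insert_of_mem hy, e⟩
    · simp only [mem_insert, forall_eq_or_imp, isConj_one_right, isConj_one_left]
      exact ⟨⟨fun _ => trivial, fun _ _ => Eq.symm⟩, fun x hx => ⟨id, h3 x hx⟩⟩
  rw [card_principal hM h5, sum_insert h4,
    rank_Cg_one, sum_congr rfl fun y hy => rank_of_hnc hM (abf_hnc h (h1 y hy).1 (h1 y hy).2),
    sum_const, smul_eq_mul, mul_one]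

variable (M P z) in
/-- Representatives of the classes of noncentral elements. -/
structure X3D (e : ℕ) (Y : Finset (Cb z)) (U : Finset G) : Prop where
  card : Y.card * e + 1 = 9
  cardU : U.card = Y.card
  mem : ∀ u ∈ U, u ∈ P ∧ u ∉ zpowers z
  k : Nat.card (principalBlock M G) =
    blockRank 3 (principalBlock M G) + 2 * blockRank 3 (principalBlock M (Cb z)) + Y.card
  kb : Nat.card (principalBlock M (Cb z)) = blockRank 3 (principalBlock M (Cb z)) + Y.card
  col : 2 ∣ e → Col3 M Y ∧ Col3 M U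
  val : ∀ g : Cb z, 3 ∣ orderOf g →
    ∃ y ∈ Y, ∀ ψ ∈ principalBlock M (Cb z), (ψ : Cb z → ℂ) g = (ψ : Cb z → ℂ) y
  van : ∀ ψ ∈ principalBlock M (Cb z), (∀ y ∈ Y, (ψ : Cb z → ℂ) y = 0) → ψ = H33.oneIrr _

namespace X3

variable (h : X3 P z) (hM : IsPModular 3 M)
include h hM

theorem lamC_eq {u : G} (hu : u ∈ P) (hu' : u ∉ zpowers z) : lamC M u = 9 := by
  obtain ⟨S, hS⟩ := sylIn_iff.1 (h.sylIn_Q hu hu')
  rw [lamC, sum_sq_of_hnc hM (h.hnc hu hu') S, ← h.card_Q hu hu', hS,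
    card_map_of_injective (subtype_injective _)]

theorem card_eq {U : Finset G} (h1 : ∀ u ∈ U, u ∈ P ∧ u ∉ zpowers z)
    (h2 : ∀ g ∈ P, g ∉ zpowers z → ∃ u ∈ U, IsConj g u) (h3 : ∀ x ∈ U, ∀ y ∈ U, IsConj x y → x = y) :
    Nat.card (principalBlock M G) =
      blockRank 3 (principalBlock M G) + 2 * blockRank 3 (principalBlock M (Cb z)) + U.card := by
  classical
  obtain ⟨S, rfl⟩ := sylIn_top_iff.1 h.syl
  have h4 : ∀ x ∈ zpowers z, x ∉ U := fun x hx e => (h1 x e).2 hx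
  have h5 : blockRank 3 (principalBlock M (Cg z)) = blockRank 3 (principalBlock M (Cb z)) := by
    have := Fintype.ofFinite G
    have := Fintype.ofFinite (Cg z)
    have := Fintype.ofFinite (Cb z)
    rw [← h.dom_eq hM, h.cz.rank_dom hM H32.isPBlock_principalBlock]
  have h6 : ∀ x ∈ zpowers z, ∀ y ∈ S, IsConj x y → x = y := fun x hx y hy e => by
    rcases h.mem_Z.1 hx with rfl | rfl | rfl
    · exact (isConj_one_right.1 e).symm
    · exact (h.eq_of_isConj hy e).symm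
    · obtain ⟨c, rfl⟩ := isConj_iff.1 e
      have := h.eq_of_isConj (inv_mem hy) (isConj_iff.2 ⟨c, by group⟩)
      exact (inv_eq_iff_eq_inv.1 this).symm
  have h7 : ∀ x, x ∈ insert 1 (insert z (insert z⁻¹ U)) ↔ x ∈ zpowers z ∨ x ∈ U := fun x => by
    simp only [mem_insert, h.mem_Z, or_assoc]
  have h8 : PReps 3 (insert 1 (insert z (insert z⁻¹ U))) := by
    refine pReps_of (S := S) (fun x hx => h.pElt (((h7 x).1 hx).elim (fun e => h.zle e)
      fun e => (h1 x e).1)) (fun g hg => ?_) fun x hx y hy e => ?_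
    · by_cases e : g ∈ zpowers z
      · exact ⟨g, (h7 g).2 (Or.inl e), IsConj.refl _⟩
      · obtain ⟨y, hy, e⟩ := h2 g hg e
        exact ⟨y, (h7 y).2 (Or.inr hy), e⟩
    · rcases (h7 x).1 hx with hx | hx
      · exact h6 x hx y (((h7 y).1 hy).elim (fun e => h.zle e) fun e => (h1 y e).1) e
      · rcases (h7 y).1 hy with hy | hy
        exacts [(h6 y hy x (h1 x hx).1 e.symm).symm, h3 x hx y hy e]
  rw [card_principal hM h8, sum_insert (by
      simp only [mem_insert, not_or]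
      exact ⟨h.ne.symm, (inv_ne_one.2 h.ne).symm, h4 _ (one_mem _)⟩),
    sum_insert (by simp only [mem_insert, not_or]; exact ⟨h.ne_inv, h4 _ (mem_zpowers _)⟩),
    sum_insert (h4 _ (inv_mem (mem_zpowers _))), rank_Cg_one, Cg_inv, h5,
    sum_congr rfl fun y hy => rank_of_hnc hM (h.hnc (h1 y hy).1 (h1 y hy).2),
    sum_const, smul_eq_mul, mul_one]
  ring

theorem exists_data : ∃ Y U, X3D M P z ((P ⊔ Ce P).relIndex (No P)) Y U := by
  classical
  obtain ⟨S, hS⟩ := sylIn_top_iff.1 h.sylIn_Pb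
  have hA := h.abF hS
  obtain ⟨Y, h1, h2, h3, h4⟩ := abf_exists_reps hA
  have h9 : Nat.card S = 9 := (congrArg (fun H : Subgroup (Cb z) => Nat.card H) hS).trans h.card_Pb
  rw [h9, hS, h.card_autz] at h4
  have hm : ∀ {a : Cg z}, (a : Cb z) ∈ S ↔ (a : G) ∈ P := fun {a} => by
    rw [← h.mk_mem, ← hS]; rfl
  choose f hf using QuotientGroup.mk_surjective (s := Zc z)
  have h5 : ∀ y ∈ Y, (f y : G) ∈ P ∧ (f y : G) ∉ zpowers z := fun y hy =>
    ⟨hm.1 (by rw [hf]; exact (h1 y hy).1), fun e => (h1 y hy).2 (hf y ▸ mk_eq_one_iff.2 e)⟩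
  have h6 : ∀ u ∈ Y.image fun y => (f y : G), u ∈ P ∧ u ∉ zpowers z := forall_mem_image.2 h5
  have h7 : ∀ x ∈ Y.image fun y => (f y : G), ∀ y ∈ Y.image fun y => (f y : G),
      IsConj x y → x = y := forall_mem_image.2 fun x hx => forall_mem_image.2 fun y hy e => by
    rw [h3 x hx y hy (by
      simpa only [hf] using (h.isConj_iff_mk (h5 x hx).1 (h5 y hy).1 (h5 y hy).2).1 e)]
  have h8 : (Y.image fun y => (f y : G)).card = Y.card := card_image_of_injective _
    fun x y e => by rw [← hf x, Subtype.ext e, hf y]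
  have h10 : Y.Nonempty := card_pos.1 (Nat.pos_of_ne_zero fun e => by simp [e] at h4)
  refine ⟨Y, _, h4, h8, h6, ?_, abf_card hM hA h1 h2 h3, fun he => ?_, fun g hg => ?_,
    fun ψ hψ h0 => hA.eq_one_of_vanish hM hψ fun y hy => ?_⟩
  · rw [← h8]
    refine h.card_eq hM h6 (fun g hg hg' => ?_) h7
    obtain ⟨y, hy, e⟩ := h2 _ ((hm (a := ⟨g, h.le_C hg⟩)).2 hg) (mt mk_eq_one_iff.1 hg')
    exact ⟨_, mem_image_of_mem _ hy, (h.isConj_iff_mk (u := ⟨g, h.le_C hg⟩) hg (h5 y hy).1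
      (h5 y hy).2).2 (by rwa [hf])⟩
  · rw [← h.card_autz, ← hS] at he
    refine ⟨⟨hM, fun y hy => orderOf_eq_prime ?_ (h1 y hy).2, fun y hy =>
      abf_isConj_inv hA he (h1 y hy).1, fun y hy => (hA.lamC_eq hM (h1 y hy).1 (h1 y hy).2).trans h9,
      h3, h10⟩, hM, fun u hu => h.ord (h6 u hu).1 fun e => (h6 u hu).2 (e ▸ one_mem _),
      forall_mem_image.2 fun y hy => ?_, fun u hu => h.lamC_eq hM (h6 u hu).1 (h6 u hu).2, h7,
      h10.image _⟩
    · rw [← hf y, ← QuotientGroup.mk_pow, show f y ^ 3 = 1 from Subtype.ext (h.exp _ (h5 y hy).1)]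
      rfl
    · refine (h.isConj_iff_mk (v := (f y)⁻¹) (h5 y hy).1 (inv_mem (h5 y hy).1)
        (mt inv_mem_iff.1 (h5 y hy).2)).2 ?_
      rw [QuotientGroup.mk_inv, hf]
      exact abf_isConj_inv hA he (h1 y hy).1
  · obtain ⟨x, hx, e⟩ := hA.exists_val hM hg
    obtain ⟨y, hy, e'⟩ := h2 x x.2 fun e => hx (Subtype.ext e)
    exact ⟨y, hy, fun ψ hψ => (e ψ hψ).trans (irr_isConj ψ e')⟩
  · obtain ⟨x, hx, e⟩ := h2 y y.2 fun e => hy (Subtype.ext e)
    rw [irr_isConj ψ e, h0 x hx]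

end X3

variable {e : ℕ} {Y : Finset (Cb z)} {U : Finset G}

theorem X3D.hz_eq (d : X3D M P z e Y U) (he : 2 ∣ e) :
    hz (Cb z) M = fs (principalBlock M (Cb z)) := by
  refine Subset.antisymm hz_subset fun ψ hψ => ?_
  by_contra h1
  exact h1 (d.van ψ (mem_fs.1 hψ) (fun y hy => ((d.col he).1.col hy).1 ψ hψ h1) ▸ one_mem_hz)

theorem X3D.van_of (d : X3D M P z e Y U) [Fintype (Cb z)] {c : IrrCharacter (Cb z) → ℤ}
    (h : ∀ y ∈ Y, ∑ ψ ∈ fs (principalBlock M (Cb z)), c ψ * (ψ : Cb z → ℂ) y = 0) : Van M c :=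
  fun g hg => by
    obtain ⟨y, hy, h1⟩ := d.val g hg
    rw [cmb_apply, ← h y hy]
    exact sum_congr rfl fun ψ hψ => by rw [h1 ψ (mem_fs.1 hψ)]

theorem cong_of_eis {ω : ℂ} (hω : IsPrimitiveRoot ω 3) {a c n : ℤ} {t : ℂ}
    (h1 : t = a + (a - c : ℤ) * ω) (h2 : ∃ x ∈ eis hω, t = n + 3 * x) : 3 ∣ a - n ∧ 3 ∣ c - n := by
  obtain ⟨_, ⟨r, s, rfl⟩, h2⟩ := h2
  have := om_indep hω (a := a - n - 3 * r) (b := a - c - 3 * s) (by
    push_cast at h1 ⊢; linear_combination h2 - h1)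
  omega

theorem sum_eq_zero_of_eis {ω : ℂ} (hω : IsPrimitiveRoot ω 3) {I : Type*} {s : Finset I}
    {x a c : I → ℤ} (h : ∑ i ∈ s, (x i : ℂ) * (a i + (a i - c i : ℤ) * ω) = 0) :
    ∑ i ∈ s, x i * a i = 0 ∧ ∑ i ∈ s, x i * c i = 0 := by
  have := om_indep hω (a := ∑ i ∈ s, x i * a i) (b := ∑ i ∈ s, x i * a i - ∑ i ∈ s, x i * c i) (by
    rw [← h]
    push_cast
    simp only [← sum_sub_distrib, sum_mul, ← sum_add_distrib]
    exact sum_congr rfl fun i _ => by ring)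
  omega

theorem sum_six {I : Type*} [DecidableEq I] {s : Finset I} {σ : I → ℤ} (h6 : s.card = 6)
    (hσ : ∀ i, σ i * σ i = 1) {j k : I} (hj : j ∈ s) (hk : k ∈ s) :
    ∑ i ∈ s, σ i * (1 - 3 * if i = j then 1 else 0) * (σ i * (1 - 3 * if i = k then 1 else 0)) =
      if j = k then 9 else 0 := by
  rw [sum_congr rfl (g := fun i => 1 - (if i = j then 3 else 0) - (if i = k then 3 else 0) +
    if i = j then (if j = k then 9 else 0) else 0) fun i _ => by
      rw [mul_mul_mul_comm, hσ]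
      split_ifs <;> simp_all]
  simp [sum_add_distrib, sum_sub_distrib, hj, hk, h6]

variable [Fintype G] [Fintype (Cg z)] [Fintype (Cb z)] (h : X3 P z) (d : X3D M P z e Y U)
  (he : 2 ∣ e)
include h d he

theorem X3D.card_ne_nine : Nat.card (principalBlock M (Cb z)) ≠ 9 := fun h9 => by
  classical
  have hM := (d.col he).1.hM
  obtain ⟨ω, hω⟩ := exists_om
  rw [← card_fs] at h9
  obtain ⟨-, h1, h2⟩ := (d.col he).1.cases.resolve_right fun e => by
    rw [d.hz_eq he] at e; omega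
  rw [d.hz_eq he] at h2
  set T := fs (principalBlock M (Cb z)) with hT
  have hj₀ : H33.oneIrr _ ∈ T := mem_fs.2 H33.oneIrr_mem_principalBlock
  set j₀ := H33.oneIrr (Cb z)
  let c : IrrCharacter (Cb z) → IrrCharacter (Cb z) → ℤ := fun j ψ =>
    sg ψ * ((if ψ = j then 1 else 0) - if ψ = j₀ then 1 else 0)
  have h3 : ∀ j ∈ T, ∀ x : IrrCharacter (Cb z) → ℂ,
      ∑ ψ ∈ T, c j ψ * x ψ = sg j * x j - sg j₀ * x j₀ := fun j hj x => by
    simp [c, mul_sub, sub_mul, sum_sub_distrib, hj, hj₀]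
  have h4 : ∀ j ∈ T, Van M (c j) := fun j hj => d.van_of fun y hy => by
    rw [h3 j hj, h2 y hy j hj, h2 y hy j₀ hj₀]
    exact_mod_cast (by rw [sg_sq, sg_sq, sub_self] : sg j * sg j - sg j₀ * sg j₀ = 0)
  obtain ⟨A, C, h5, h6⟩ := h.exists_cols hM hω T c h4 (fun j k => (if j = k then 1 else 0) -
      (if j = j₀ then 1 else 0) - (if k = j₀ then 1 else 0) + 1) fun j hj k hk => by
    apply Int.cast_injective (α := ℂ)
    push_cast
    rw [h3 j hj]
    simp only [c, ← mul_assoc, ← Int.cast_mul, sg_sq]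
    simp [eq_comm]
    ring
  have h7 : fs (principalBlock M G) ⊆ hz G M := fun χ hχ => by
    by_contra h7
    have h8 : Th M (∑ j ∈ T, c j) χ = ∑ j ∈ T, Th M (c j) χ := by
      simp only [h.Th_eq_sum hM, Finset.sum_apply, Int.cast_sum, sum_mul]
      exact sum_comm
    have h10 := cong_of_eis hω (a := ∑ j ∈ T, A j χ) (c := ∑ j ∈ T, C j χ) (h8.trans (by
      rw [sum_congr rfl fun j hj => h6 j hj χ]
      simp [sum_add_distrib, sum_mul, sub_mul]))
      (h.Th_cong hM hω (d.van_of fun y hy => ?_) (fun ψ hψ => ?_) (mem_fs.1 hχ))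
    · have h11 := fun j => lat_eight hj₀ h9 h5 hχ (dvd_of_notMem_hz hχ h7 h10.1)
        (dvd_of_notMem_hz hχ h7 h10.2) (j := j)
      obtain ⟨y, hy⟩ := (d.col he).1.nonempty
      have h12 : ∀ j ∈ T, (j : Cb z → ℂ) y * classInner (Fb M z χ) j =
          sg j₀ * classInner (Fb M z χ) j₀ := fun j hj => by
        rw [h2 y hy j hj, ← sub_eq_zero, ← h3 j hj fun ψ => classInner (Fb M z χ) ψ,
          ← h.Th_eq_sum hM, h6 j hj, (h11 j hj).1,
          (h11 j hj).2]
        simp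
      have h13 := h.sum_Fb hM χ y
      rw [sum_congr rfl h12, ← h.reg_Fb hM, reg_of_singular _ ((d.col he).1.ord y hy).symm.dvd,
        h.reg_Fb hM, sum_const, h9, nsmul_eq_mul, mul_eq_zero_iff_left (by norm_num)] at h13
      obtain ⟨ψ, hψ, h14⟩ := h.exists_Fb_ne hM (mem_fs.1 hχ)
      have h15 := h12 ψ hψ
      rw [h13, h2 y hy ψ hψ, mul_eq_zero_iff_right h14, Int.cast_eq_zero] at h15
      simpa [h15] using sg_sq ψ
    · simp only [Finset.sum_apply, Int.cast_sum, sum_mul]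
      rw [sum_comm]
      exact sum_eq_zero fun j hj => (cmb_apply _ _).symm.trans
        (h4 j hj y ((d.col he).1.ord y hy).symm.dvd)
    · have h11 := sg_dvd (d.hz_eq he ▸ hψ : ψ ∈ hz _ M) (x := charDegree (ψ : Cb z → ℂ)) (by simp)
      simp only [Finset.sum_apply, c, ← mul_sum, sum_sub_distrib, sum_ite_eq, sum_const, h9]
      rcases Int.eq_one_or_neg_one_of_mul_eq_one (sg_sq ψ) with e | e <;> rw [e] at h11 ⊢ <;>
        split_ifs <;> simp <;> omega
  have h8 := card_le_card h7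
  have h10 := d.k
  have h11 := d.kb
  rw [← card_fs] at h10 h11
  rw [← hT] at h11
  rcases (d.col he).2.cases with e | e <;> omega

theorem X3D.main : Nat.card (principalBlock M (Cb z)) = 6 ∧ (hz G M).card = 6 ∧
    blockRank 3 (principalBlock M G) = blockRank 3 (principalBlock M (Cb z)) := by
  classical
  have hM := (d.col he).1.hM
  obtain ⟨ω, hω⟩ := exists_om
  obtain ⟨h6, f, hf, h2⟩ := (d.col he).1.cases.resolve_left fun e => by
    rw [d.hz_eq he, card_fs] at e; exact d.card_ne_nine h he e.1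
  rw [d.hz_eq he] at h2 h6
  set B := fs (principalBlock M (Cb z)) with hB
  let c : IrrCharacter (Cb z) → IrrCharacter (Cb z) → ℤ := fun j ψ =>
    sg ψ * (1 - 3 * if ψ = j then 1 else 0)
  have h3 : ∀ y ∈ Y, ∀ ψ ∈ B, (ψ : Cb z → ℂ) y = c (f y) ψ := fun y hy ψ hψ => by
    rw [(h2 y hy).2 ψ hψ]; simp [c]
  have h4 : ∀ j ∈ B \ Y.image f, Van M (c j) := fun j hj => d.van_of fun y hy => by
    rw [sum_congr rfl fun ψ hψ => by rw [h3 y hy ψ hψ, ← Int.cast_mul], ← Int.cast_sum,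
      sum_six h6 sg_sq (mem_sdiff.1 hj).1 (h2 y hy).1,
      if_neg fun e : j = f y => (mem_sdiff.1 hj).2 (e ▸ mem_image_of_mem f hy), Int.cast_zero]
  obtain ⟨A, C, h5, h7⟩ := h.exists_cols hM hω _ c h4 _ fun j hj k hk =>
    sum_six h6 sg_sq (mem_sdiff.1 hj).1 (mem_sdiff.1 hk).1
  have h8 : ∀ j ∈ B \ Y.image f, ∀ χ ∈ fs (principalBlock M G),
      3 ∣ A j χ - charDegree (χ : G → ℂ) ∧ 3 ∣ C j χ - charDegree (χ : G → ℂ) := fun j hj χ hχ =>
    cong_of_eis hω (h7 j hj χ) (h.Th_cong hM hω (h4 j hj) (fun ψ hψ => by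
      have h11 := sg_dvd (d.hz_eq he ▸ hψ : ψ ∈ hz _ M) (x := charDegree (ψ : Cb z → ℂ)) (by simp)
      simp only [c]
      rcases Int.eq_one_or_neg_one_of_mul_eq_one (sg_sq ψ) with e | e <;> rw [e] at h11 ⊢ <;>
        split_ifs <;> omega) (mem_fs.1 hχ))
  have h9 : ∀ χ ∈ fs (principalBlock M G), ∃ j ∈ B \ Y.image f, A j χ ≠ 0 ∨ C j χ ≠ 0 :=
    fun χ hχ => by
    by_contra! h9
    have h10 : ∀ j ∈ B, 3 * (sg j * classInner (Fb M z χ) j) =
        ∑ ψ ∈ B, sg ψ * classInner (Fb M z χ) ψ := fun j hj => by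
      have h10 : ∑ ψ ∈ B, c j ψ * classInner (Fb M z χ) ψ = 0 := by
        by_cases h10 : j ∈ Y.image f
        · obtain ⟨y, hy, rfl⟩ := mem_image.1 h10
          rw [sum_congr rfl fun ψ hψ => by rw [← h3 y hy ψ hψ], h.sum_Fb hM, ← h.reg_Fb hM,
            reg_of_singular _ ((d.col he).1.ord y hy).symm.dvd]
        · have h11 := mem_sdiff.2 ⟨hj, h10⟩
          rw [← h.Th_eq_sum hM, h7 j h11, (h9 j h11).1, (h9 j h11).2]
          simp
      simp only [c, Int.cast_mul, Int.cast_sub, mul_sub, sub_mul, sum_sub_distrib] at h10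
      simp [hj] at h10
      linear_combination -h10
    have h11 := sum_congr rfl h10
    rw [← mul_sum, sum_const, h6, nsmul_eq_mul] at h11
    obtain ⟨ψ, hψ, h14⟩ := h.exists_Fb_ne hM (mem_fs.1 hχ)
    have h15 : sg ψ * classInner (Fb M z χ) ψ = 0 := by
      push_cast at h11
      linear_combination (1 / 3) * h10 ψ hψ - (1 / 9) * h11
    rw [mul_eq_zero_iff_right h14, Int.cast_eq_zero] at h15
    simpa [h15] using sg_sq ψ
  have h10 : ∀ j ∈ B \ Y.image f, ∀ u ∈ U, ∀ x : IrrCharacter G → ℤ,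
      (∀ χ ∈ hz G M, (χ : G → ℂ) u = x χ) →
        ∑ χ ∈ hz G M, x χ * A j χ = 0 ∧ ∑ χ ∈ hz G M, x χ * C j χ = 0 := fun j hj u hu x hx =>
    sum_eq_zero_of_eis hω (by
      rw [← h.sum_mul_Th hM (c j) (d.mem u hu).1 (d.mem u hu).2, (d.col he).2.sum_mul hu]
      exact sum_congr rfl fun χ hχ => by rw [hx χ hχ, h7 j hj])
  have h11 := card_sdiff_add_card_eq_card (image_subset_iff.2 fun y hy => (h2 y hy).1)
  rw [card_image_of_injOn hf] at h11
  have h12 := d.k
  have h13 := d.kb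
  have h14 := d.cardU
  have h15 := one_le_blockRank hM.1 (B := principalBlock M G) ⟨_, H33.oneIrr_mem_principalBlock⟩
  rw [← card_fs] at h12 h13 ⊢
  rw [← hB] at h13 ⊢
  rcases (d.col he).2.cases with ⟨a1, a2, a3⟩ | ⟨a1, g, hg, a3⟩
  · obtain ⟨u, hu⟩ := (d.col he).2.nonempty
    have h16 : fs (principalBlock M G) ⊆ hz G M := fun χ hχ => by
      by_contra h16
      obtain ⟨j, hj, h17⟩ := h9 χ hχ
      have h18 := h10 j hj u hu sg (a3 u hu)
      refine h17.elim (fun e => e ?_) fun e => e ?_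
      · exact lat_nine hz_subset a1 (fun χ _ => sg_sq χ)
          (fun χ hχ => sg_dvd hχ (h8 j hj χ (hz_subset hχ)).1) h18.1
          (by simpa using h5.aa j hj j hj) hχ h16
      · exact lat_nine hz_subset a1 (fun χ _ => sg_sq χ)
          (fun χ hχ => sg_dvd hχ (h8 j hj χ (hz_subset hχ)).2) h18.2
          (by simpa using h5.cc j hj j hj) hχ h16
    have := card_le_card h16
    omega
  · have h16 : ∀ {v : IrrCharacter G → ℤ}, (∀ χ ∈ fs (principalBlock M G),
        3 ∣ v χ - charDegree (χ : G → ℂ)) → (∀ u ∈ U, ∑ χ ∈ hz G M,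
          sg χ * (1 - 3 * if χ = g u then 1 else 0) * v χ = 0) →
        Gd (fs (principalBlock M G)) (hz G M) (U.image g) sg v := fun {v} b1 b2 =>
      ⟨fun χ hχ => sg_dvd hχ (b1 χ (hz_subset hχ)), fun χ hχ hχ' =>
        dvd_of_notMem_hz hχ hχ' (b1 χ hχ), forall_mem_image.2 fun u hu => by
          have := b2 u hu
          simp only [mul_sub, sub_mul, sum_sub_distrib] at this
          simp [(a3 u hu).1] at this
          linear_combination this⟩
    have h17 := fun j hj u hu => h10 j hj u hu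
      (fun χ => sg χ * (1 - 3 * if χ = g u then 1 else 0)) fun χ hχ => by
        rw [(a3 u hu).2 χ hχ]; simp
    have h18 := lat_six h5 hz_subset (image_subset_iff.2 fun u hu => (a3 u hu).1)
      ((d.col he).2.nonempty.image g) a1 (fun χ _ => sg_sq χ)
      (fun j hj => h16 (fun χ hχ => (h8 j hj χ hχ).1) fun u hu => (h17 j hj u hu).1)
      (fun j hj => h16 (fun χ hχ => (h8 j hj χ hχ).2) fun u hu => (h17 j hj u hu).2)
      fun χ hχ _ => h9 χ hχ
    rw [card_image_of_injOn hg] at h18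
    omega

end Cfsg.Agent.H87
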