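import Cfsg.Agent.H87.X3Grp
import Cfsg.Agent.H87.Cen
import Cfsg.Agent.H32.GDec

/-! The quotient `C(z) / ⟨z⟩` and representatives of the classes of `3`-elements. -/

set_option autoImplicit false
set_option linter.unusedSectionVars false

open Subgroup

namespace Cfsg.Agent.H87

open Cfsg Cfsg.Agent.H34 Cfsg.Agent.H32

variable {G : Type*} [Group G] [Finite G]

section abf

variable {p : ℕ} [Fact p.Prime] {S : Sylow p G}

theorem pReps_of {X : Finset G} (h1 : ∀ x ∈ X, ∃ k : ℕ, orderOf x = p ^ k)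
    (h2 : ∀ g ∈ S, ∃ x ∈ X, IsConj g x) (h3 : ∀ x ∈ X, ∀ y ∈ X, IsConj x y → x = y) :
    PReps p X := ⟨h1, fun g hg => by
  obtain ⟨c, hc⟩ := exists_conj_mem_sylow' S hg
  obtain ⟨x, hx, h4⟩ := h2 _ hc
  have h5 := (isConj_iff.2 ⟨c, rfl⟩).trans h4
  exact ⟨x, ⟨hx, h5⟩, fun y hy => h3 y hy.1 x hx (hy.2.symm.trans h5)⟩⟩

open Classical in
theorem abf_exists_reps (h : AbF S) : ∃ Y : Finset G, (∀ y ∈ Y, y ∈ S ∧ y ≠ 1) ∧
    (∀ g ∈ S, g ≠ 1 → ∃ y ∈ Y, IsConj g y) ∧ (∀ x ∈ Y, ∀ y ∈ Y, IsConj x y → x = y) ∧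
    Y.card * Nat.card (autz (S : Subgroup G)) + 1 = Nat.card S := by
  have := Fintype.ofFinite S
  have := Fintype.ofFinite (autz (S : Subgroup G))
  let s : Setoid S := ⟨fun x y => IsConj (x : G) y, fun _ => IsConj.refl _, IsConj.symm,
    IsConj.trans⟩
  let r : S → S := fun x => (Quotient.mk s x).out
  have hr : ∀ x, IsConj (r x : G) x := fun x => Quotient.mk_out (s := s) x
  have hr' : ∀ x y, r x = r y ↔ IsConj (x : G) y := fun x y =>
    ⟨fun e => (hr x).symm.trans (e ▸ hr y), fun e => congrArg Quotient.out (Quotient.sound e)⟩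
  refine ⟨((Finset.univ.erase 1).image r).image Subtype.val, ?_, fun g hg h1 => ?_, ?_, ?_⟩
  · simp only [Finset.mem_image, Finset.mem_erase]
    rintro _ ⟨_, ⟨x, hx, rfl⟩, rfl⟩
    exact ⟨(r x).2, fun e => hx.1 (Subtype.ext (isConj_one_right.1 (e ▸ hr x)))⟩
  · exact ⟨_, Finset.mem_image_of_mem _ (Finset.mem_image_of_mem _ (Finset.mem_erase.2
      ⟨fun e => h1 (congrArg Subtype.val e), Finset.mem_univ (⟨g, hg⟩ : S)⟩)), (hr ⟨g, hg⟩).symm⟩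
  · simp only [Finset.mem_image]
    rintro _ ⟨_, ⟨x, -, rfl⟩, rfl⟩ _ ⟨_, ⟨y, -, rfl⟩, rfl⟩ e
    rw [(hr' x y).2 ((hr x).symm.trans (e.trans (hr y)))]
  · rw [Finset.card_image_of_injective _ Subtype.val_injective, Nat.card_eq_fintype_card (α := S),
      ← Finset.card_univ, ← Finset.card_erase_add_one (Finset.mem_univ (1 : S)),
      Finset.card_eq_sum_card_image r (Finset.univ.erase 1), Finset.sum_congr rfl
        (g := fun _ => Nat.card (autz (S : Subgroup G))), Finset.sum_const, smul_eq_mul]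
    simp only [Finset.mem_image, Finset.mem_erase]
    rintro _ ⟨x, hx, rfl⟩
    rw [Nat.card_eq_fintype_card, ← Finset.card_univ,
      ← Finset.card_image_of_injective _ (h.fpf.injective_apply hx.1)]
    congr 1
    ext y
    simp only [Finset.mem_filter, Finset.mem_erase, Finset.mem_univ, and_true, Finset.mem_image,
      true_and, hr', Subtype.exists, exists_prop, ← h.isConj_iff]
    exact ⟨fun e => e.2.symm, fun e => ⟨fun e' => hx.1 (Subtype.ext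
      (isConj_one_left.1 (by rwa [e'] at e))), e.symm⟩⟩

theorem abf_isConj_inv (h : AbF S) (h2 : 2 ∣ Nat.card (autz (S : Subgroup G))) {y : G}
    (hy : y ∈ S) : IsConj y y⁻¹ := by
  have : Fact (Nat.Prime 2) := ⟨Nat.prime_two⟩
  obtain ⟨γ, hγ⟩ := exists_prime_orderOf_dvd_card' 2 h2
  have h1 : (γ : MulAut S) (γ.1 ⟨y, hy⟩) = ⟨y, hy⟩ := by
    rw [← MulAut.mul_apply, ← Subgroup.coe_mul, ← sq, ← hγ, pow_orderOf_eq_one]; rfl
  refine (h.isConj_iff (y := ⟨y, hy⟩) (z := ⟨y, hy⟩⁻¹)).2 ⟨γ, γ.2, ?_⟩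
  refine eq_inv_of_mul_eq_one_right ((h.fpf γ γ.2 _ (by rw [map_mul, h1, h.comm])).resolve_left ?_)
  intro e
  rw [show γ = 1 from Subtype.ext e, orderOf_one] at hγ
  omega

theorem abf_hnc (h : AbF S) {y : G} (hy : y ∈ S) (h1 : y ≠ 1) : HasNormalPComplement p (Cg y) := by
  obtain ⟨k, hk⟩ := S.isPGroup'.exists_card_eq
  exact H3.hasNormalPComplement_iff_exists_normal.2 ⟨_, H33.pPrimeCore_normal',
    ((Nat.Prime.coprime_iff_not_dvd Fact.out).2 (H33.not_dvd_card_pPrimeCore Fact.out)).symm, k,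
    (h.pPrimeCore_Cg hy h1).1.trans hk⟩

end abf

variable {P : Subgroup G} {z : G}

variable (z) in
/-- `⟨z⟩` inside `C(z)`. -/
def Zc : Subgroup (Cg z) := (zpowers z).subgroupOf (Cg z)

theorem Zc_le_center : Zc z ≤ center (Cg z) := fun _ hx =>
  mem_center_iff.2 fun g => Subtype.ext (X3.comm_Z g.2 hx)

instance : (Zc z).Normal := ⟨fun x hx g => by
  rwa [mem_center_iff.1 (Zc_le_center hx) g, mul_inv_cancel_right]⟩

variable (z) in
/-- The quotient `C(z) / ⟨z⟩`. -/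
abbrev Cb := Cg z ⧸ Zc z

variable (P z) in
/-- The image of `P`. -/
abbrev Pb : Subgroup (Cb z) := (P.subgroupOf (Cg z)).map (QuotientGroup.mk' (Zc z))

theorem mk_eq_iff {a b : Cg z} : (a : Cb z) = b ↔ ∃ t ∈ zpowers z, (b : G) = a * t :=
  QuotientGroup.eq.trans ⟨fun h => ⟨_, h, by simp⟩, fun ⟨t, ht, h⟩ =>
    show (a : G)⁻¹ * b ∈ zpowers z by simpa [h]⟩

theorem mk_eq_one_iff {a : Cg z} : (a : Cb z) = 1 ↔ (a : G) ∈ zpowers z :=
  QuotientGroup.eq_one_iff a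

namespace X3

variable (h : X3 P z)
include h

theorem cardZc : Nat.card (Zc z) = 3 := (Nat.card_congr
  (subgroupOfEquivOfLe (h.zle.trans h.le_C)).toEquiv).trans h.cardZ

theorem cz : CZ 3 (Zc z) := ⟨Nat.prime_three, IsPGroup.of_card (n := 1) h.cardZc, Zc_le_center⟩

theorem mk_mem {a : Cg z} : (a : Cb z) ∈ Pb P z ↔ (a : G) ∈ P := by
  refine ⟨fun ⟨b, hb, e⟩ => ?_, fun ha => ⟨a, ha, rfl⟩⟩
  obtain ⟨t, ht, e⟩ := mk_eq_iff.1 e
  exact e ▸ mul_mem hb (h.zle ht)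

theorem card_Pb : Nat.card (Pb P z) = 9 := by
  have := h.cz.card_map_mul (D := P.subgroupOf (Cg z)) fun x hx => h.zle hx
  rw [h.cardZc, Nat.card_congr (subgroupOfEquivOfLe h.le_C).toEquiv, h.card] at this
  exact Nat.eq_of_mul_eq_mul_right (show 0 < 3 by norm_num) this

theorem sylIn_Pb : SylIn 3 (Pb P z) ⊤ := by
  have h1 : SylIn 3 (P.subgroupOf (Cg z)) ⊤ := sylIn_of_not_dvd_relIndex le_top
    h.syl.pgp.comap_subtype (by
      rw [relIndex_top_right]; exact (h.syl.of_le h.le_C le_top).not_dvd_relIndex)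
  simpa [map_top_of_surjective _ (QuotientGroup.mk'_surjective (Zc z))] using
    SylIn.map h1 (QuotientGroup.mk' (Zc z))

theorem mk_mem_No {a : Cg z} : (a : Cb z) ∈ No (Pb P z) ↔ (a : G) ∈ No P := by
  have h1 : ∀ {a : Cg z}, (a : Cb z) ∈ No (Pb P z) → ∀ x ∈ P, a * x * (a : G)⁻¹ ∈ P :=
    fun {a} ha x hx => h.mk_mem.1 (conj_mem_of_No ha ((h.mk_mem (a := ⟨x, h.le_C hx⟩)).2 hx))
  refine ⟨fun ha => mem_normalizer_iff.2 fun x => ⟨h1 ha x, fun hx => ?_⟩, fun ha =>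
    mem_normalizer_iff.2 fun x => ?_⟩
  · simpa [mul_assoc] using h1 (a := a⁻¹) (inv_mem ha) _ hx
  · obtain ⟨x, rfl⟩ := QuotientGroup.mk_surjective x
    exact h.mk_mem.trans ((mem_normalizer_iff.1 ha x).trans (h.mk_mem (a := a * x * a⁻¹)).symm)

theorem mk_mem_Cg {a u : Cg z} (hu : (u : G) ∈ P) :
    (a : Cb z) ∈ Cg (u : Cb z) ↔ (u : G) ∈ h.fixZ a := by
  rw [mem_Cg, ← mul_inv_eq_iff_eq_mul, eq_comm]
  exact (mk_eq_iff (b := a * u * a⁻¹)).trans ⟨fun e => ⟨hu, e⟩, fun e => e.2⟩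

theorem exists_notMem : ∃ u ∈ P, u ∉ zpowers z := by
  by_contra! h1
  have := card_le_of_le (show P ≤ zpowers z from h1)
  rw [h.card, h.cardZ] at this
  omega

theorem mk_mem_Ce {a : Cg z} : (a : Cb z) ∈ Ce (Pb P z) ↔ (a : G) ∈ P ⊔ Ce P := by
  refine ⟨fun ha => ?_, fun ha => mem_Ce.2 ?_⟩
  · obtain ⟨u, hu, hu'⟩ := h.exists_notMem
    exact h.mem_sup_of_fix (h.mk_mem_No.1 (Ce_le_No _ ha)) hu hu' ((h.mk_mem_Cg
      (u := ⟨u, h.le_C hu⟩) hu).1 (mem_Cg.2 (mem_Ce.1 ha _ (h.mk_mem.2 hu)).symm))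
  · rintro _ ⟨u, hu, rfl⟩
    exact (mem_Cg.1 ((h.mk_mem_Cg hu).2 (h.fix_of_mem_sup ha hu))).symm

theorem card_autz : Nat.card (autz (Pb P z)) = (P ⊔ Ce P).relIndex (No P) := by
  have h1 : No (Pb P z) = ((No P).subgroupOf (Cg z)).map (QuotientGroup.mk' (Zc z)) := by
    ext x
    obtain ⟨x, rfl⟩ := QuotientGroup.mk_surjective x
    refine ⟨fun hx => ⟨x, h.mk_mem_No.1 hx, rfl⟩, fun ⟨y, hy, e⟩ => ?_⟩
    exact (show (y : Cb z) = x from e) ▸ h.mk_mem_No.2 hy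
  rw [H34.card_autz, ← relIndex_subgroupOf h.nor, show normalizer _ = _ from h1, ← relIndex_comap]
  congr 1
  ext x
  exact h.mk_mem_Ce

theorem abF {S : Sylow 3 (Cb z)} (hS : (S : Subgroup (Cb z)) = Pb P z) : AbF S := by
  refine ⟨?_, ?_⟩ <;> rw [hS]
  · rintro ⟨_, a, ha, rfl⟩ ⟨_, b, hb, rfl⟩
    exact Subtype.ext (mem_Ce.1 (h.mk_mem_Ce.2 (mem_sup_left hb)) _ (h.mk_mem.2 ha))
  · rintro _ ⟨u, hu, rfl⟩ h1
    refine le_antisymm (fun x hx => ?_) (le_inf (fun x hx => mem_Cg.2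
      (mem_Ce.1 hx _ (h.mk_mem.2 hu)).symm) (Ce_le_No _))
    obtain ⟨x, rfl⟩ := QuotientGroup.mk_surjective x
    exact h.mk_mem_Ce.2 (h.mem_sup_of_fix (h.mk_mem_No.1 hx.2) hu (mt mk_eq_one_iff.2 h1)
      ((h.mk_mem_Cg hu).1 hx.1))

theorem isConj_iff_mk {u v : Cg z} (hu : (u : G) ∈ P) (hv : (v : G) ∈ P)
    (hv' : (v : G) ∉ zpowers z) : IsConj (u : G) v ↔ IsConj (u : Cb z) v := by
  refine ⟨fun h1 => ?_, fun h1 => ?_⟩
  · obtain ⟨c, hc, h2⟩ := h.exists_conj_C hv hv' hu h1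
    exact (QuotientGroup.mk' (Zc z)).map_isConj (isConj_iff.2 ⟨⟨c, hc⟩, Subtype.ext h2⟩)
  · obtain ⟨c, hc⟩ := isConj_iff.1 h1
    obtain ⟨c, rfl⟩ := QuotientGroup.mk_surjective c
    obtain ⟨t, ht, h2⟩ := (mk_eq_iff (b := c * u * c⁻¹)).1 hc.symm
    refine (isConj_iff.2 ⟨(c : G), h2⟩).trans ?_
    rw [comm_Z v.2 ht]
    exact (h.isConj_mul hv hv' ht).symm

/-- If the normalizer acts trivially there is a normal complement. -/
theorem hnc_top (h1 : (P ⊔ Ce P).relIndex (No P) = 1) : HasNormalPComplement 3 G := by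
  obtain ⟨T, hT⟩ := sylIn_top_iff.1 h.sylIn_Pb
  have hA := h.abF hT
  obtain ⟨S, rfl⟩ := sylIn_top_iff.1 h.syl
  refine ⟨S, (S0071.result S).2 fun Q hQ g hg hc x hx => ?_⟩
  have h2 := hQ (conj_mem_of_No hg hx)
  have h3 : IsConj x (g * x * g⁻¹) := isConj_iff.2 ⟨g, rfl⟩
  suffices h4 : g ^ 3 ∈ Cg x from
    (mem_Cg.1 (mem_of_pow_mem_coprime hc (by rw [pow_orderOf_eq_one]; exact one_mem _) h4)).symm
  by_cases hx' : x ∈ zpowers z
  · refine pow_mem ?_ 3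
    rcases h.mem_Z.1 hx' with rfl | rfl | rfl
    · simp [mem_Cg]
    · exact h.mem_C_of_conj h2
    · rw [Cg_inv]
      exact h.mem_C_of_conj (by simpa [mul_assoc] using inv_mem h2)
  let a : Cg z := ⟨x, h.le_C (hQ hx)⟩
  let b : Cg z := ⟨_, h.le_C h2⟩
  obtain ⟨γ, hγ, h4⟩ := (hA.isConj_iff (y := ⟨b, hT ▸ h.mk_mem.2 h2⟩)
    (z := ⟨a, hT ▸ h.mk_mem.2 (hQ hx)⟩)).1 ((h.isConj_iff_mk (u := b) (v := a) h2 (hQ hx) hx').1 h3.symm)
  rw [← h.card_autz, ← hT, card_eq_one] at h1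
  rw [h1, mem_bot] at hγ
  obtain ⟨t, ht, h5 : g * x * g⁻¹ = x * t⟩ := (mk_eq_iff (a := a) (b := b)).1 (by
    rw [hγ] at h4; exact (congrArg Subtype.val h4).symm)
  by_cases ht1 : t = 1
  · exact pow_mem (mem_Cg.2 (mul_inv_eq_iff_eq_mul.1 (by rw [h5, ht1, mul_one]))) 3
  have h6 : t ∈ Q := (mul_mem_cancel_left hx).1 (h5 ▸ conj_mem_of_No hg hx :)
  have h7 : z ∈ Q := by
    rcases (h.mem_Z.1 ht).resolve_left ht1 with rfl | rfl
    exacts [h6, inv_mem_iff.1 h6]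
  have h8 := h.mem_C_of_conj (hQ (conj_mem_of_No hg h7))
  exact mem_Cg.2 (h.cube_conj h8 h5 (h.zle ht) (one_mem _)
    (by rw [comm_Z h8 ht, mul_inv_cancel_right, mul_one])).symm

end X3

end Cfsg.Agent.H87
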